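import Cfsg.Agent.H896.SuzSum

/-!
# Finite field existence for the Suzuki case of S3935 (task 443, helper896): the field part
-/

set_option autoImplicit false

namespace Cfsg.Agent.H896.SuzTab

open Finset

section Val

variable {K : Type*} [Field K] (θ : K →+* K)

/-- the value of an exponent list -/
def val (L : List (ℕ × ℕ)) (x : K) : K := (L.map fun e => x ^ e.1 * θ x ^ e.2).sum

theorem val_nil (x : K) : val θ [] x = 0 := rfl

theorem val_cons (e : ℕ × ℕ) (L : List (ℕ × ℕ)) (x : K) : val θ (e :: L) x = x ^ e.1 * θ x ^ e.2 + val θ L x := by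
  rw [val, List.map_cons, List.sum_cons]
  rfl

theorem val_append (L L' : List (ℕ × ℕ)) (x : K) : val θ (L ++ L') x = val θ L x + val θ L' x := by
  rw [val, List.map_append, List.sum_append]
  rfl

theorem val_xL (G : List (ℕ × ℕ)) (x : K) : val θ (xL G) x = x * val θ G x := by
  induction G with
  | nil => rw [xL, List.map_nil, val_nil, mul_zero]
  | cons m G ih =>
    rw [xL, List.map_cons, val_cons, val_cons, ← xL, ih]
    ring

theorem val_cmb (hθθ : ∀ z, θ (θ z) = z ^ 2) (G L : List (ℕ × ℕ)) (x : K) :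
    val θ (cmb G L) x = val θ G x * θ (val θ L x) := by
  have key : ∀ (m : ℕ × ℕ) (L : List (ℕ × ℕ)),
      val θ (L.map fun e => (m.1 + 2 * e.2, m.2 + e.1)) x = x ^ m.1 * θ x ^ m.2 * θ (val θ L x) := by
    intro m L
    induction L with
    | nil => rw [List.map_nil, val_nil, map_zero, mul_zero]
    | cons e L ih =>
      rw [List.map_cons, val_cons, ih, val_cons, map_add, map_mul, map_pow, map_pow, hθθ]
      ring
  induction G with
  | nil => rw [cmb, val_nil, zero_mul]
  | cons m G ih =>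
    rw [cmb, val_append, key, ih, val_cons]
    ring

theorem val_E0_cons (hθθ : ∀ z, θ (θ z) = z ^ 2) (G : List (ℕ × ℕ)) (w : List (List (ℕ × ℕ))) (x : K) :
    val θ (E0 (G :: w)) x = val θ G x * θ (val θ (E0 w) x) := by
  rw [E0, val_cmb θ hθθ]

theorem val_E0_replicate (hθθ : ∀ z, θ (θ z) = z ^ 2) (G : List (ℕ × ℕ)) (l : ℕ) (x : K) :
    val θ (E0 (List.replicate l G)) x = ∏ t ∈ range l, θ^[t] (val θ G x) := by
  induction l with
  | zero => rw [List.replicate_zero, E0, val_cons, val_nil, prod_range_zero]; simp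
  | succ l ih =>
    rw [List.replicate_succ, val_E0_cons θ hθθ, ih, prod_range_succ', map_prod, Function.iterate_zero_apply, mul_comm]
    congr 1
    apply prod_congr rfl
    intro t _
    rw [Function.iterate_succ_apply']

theorem val_E1 (hθθ : ∀ z, θ (θ z) = z ^ 2) (w : List (List (ℕ × ℕ))) (x : K) :
    val θ (E1 w) x = (∑ t ∈ range w.length, θ^[t] x) * val θ (E0 w) x := by
  induction w with
  | nil => rw [E1, val_nil, List.length_nil, sum_range_zero, zero_mul]
  | cons G w ih =>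
    rw [E1, val_append, val_cmb θ hθθ, val_cmb θ hθθ, ih, List.length_cons, sum_range_succ', val_E0_cons θ hθθ,
      val_xL, map_mul, map_sum, Function.iterate_zero_apply]
    have h1 : ∀ t ∈ range w.length, θ (θ^[t] x) = θ^[t + 1] x := by
      intro t _
      rw [Function.iterate_succ_apply']
    rw [sum_congr rfl h1]
    ring

theorem val_LA (x : K) : val θ LA x = 1 + x ^ 3 * θ x ^ 2 + x ^ 4 * θ x ^ 2 := by
  rw [LA, val_cons, val_cons, val_cons, val_nil]
  ring

theorem val_LN (x : K) : val θ LN x = 1 + x ^ 3 * θ x := by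
  rw [LN, val_cons, val_cons, val_nil]
  ring

end Val

section Fin

variable {K : Type*} [Field K] [Fintype K] {m : ℕ} (hK : Fintype.card K = 2 ^ (2 * m + 1)) (θ : K →+* K)
  (hθ : ∀ x, θ x = x ^ 2 ^ (m + 1))

include hK in
theorem charP_two : CharP K 2 := by
  obtain ⟨p, hp⟩ := CharP.exists K
  have := hp
  obtain ⟨n, hpp, hn⟩ := FiniteField.card K p
  have h1 : p ∣ 2 ^ (2 * m + 1) := by
    rw [← hK, hn]
    exact dvd_pow_self _ n.ne_zero
  have h2 : p = 2 := (Nat.prime_dvd_prime_iff_eq hpp Nat.prime_two).1 (hpp.dvd_of_dvd_pow h1)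
  subst h2
  exact hp

include hK hθ in
theorem theta_theta (z : K) : θ (θ z) = z ^ 2 := by
  have h1 : z ^ 2 ^ (2 * m + 1) = z := by
    rw [← hK]
    exact FiniteField.pow_card z
  rw [hθ (θ z), hθ z, ← pow_mul, ← pow_add]
  have h2 : m + 1 + (m + 1) = (2 * m + 1) + 1 := by ring
  rw [h2, pow_add, pow_mul, h1, pow_one]

include hK hθ in
theorem iter_even (j : ℕ) (z : K) : θ^[2 * j] z = z ^ 2 ^ j := by
  induction j with
  | zero => simp
  | succ j ih =>
    have h1 : 2 * (j + 1) = 2 * j + 1 + 1 := by ring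
    rw [h1, Function.iterate_succ_apply', Function.iterate_succ_apply', theta_theta hK θ hθ, ih, ← pow_mul, pow_succ]

include hK hθ in
theorem iter_full (z : K) : θ^[2 * m + 1] z = z := by
  rw [Function.iterate_succ_apply', iter_even hK θ hθ, hθ, ← pow_mul, ← pow_add]
  have h2 : m + (m + 1) = 2 * m + 1 := by ring
  rw [h2, ← hK]
  exact FiniteField.pow_card z

include hK hθ in
theorem fixed (z : K) (h : θ z = z) : z = 0 ∨ z = 1 := by
  have h1 := theta_theta hK θ hθ z
  rw [h, h] at h1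
  have h2 : z * (z - 1) = 0 := by linear_combination -h1
  rcases mul_eq_zero.1 h2 with h3 | h3
  · exact Or.inl h3
  · exact Or.inr (sub_eq_zero.1 h3)

/-- the trace -/
def tr (m : ℕ) (θ : K →+* K) (z : K) : K := ∑ t ∈ range (2 * m + 1), θ^[t] z

omit [Fintype K] in
theorem tr_add (a b : K) : tr m θ (a + b) = tr m θ a + tr m θ b := by
  rw [tr, tr, tr, ← sum_add_distrib]
  apply sum_congr rfl
  intro t _
  exact iterate_map_add θ t a b

omit [Fintype K] in
theorem tr_zero : tr m θ (0 : K) = 0 := by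
  rw [tr]
  apply sum_eq_zero
  intro t _
  exact iterate_map_zero θ t

omit [Fintype K] in
theorem tr_one [CharP K 2] : tr m θ (1 : K) = 1 := by
  rw [tr]
  have h1 : ∀ t ∈ range (2 * m + 1), θ^[t] (1 : K) = 1 := fun t _ => iterate_map_one θ t
  have h2 := CharTwo.two_eq_zero (R := K)
  rw [sum_congr rfl h1, sum_const, card_range, nsmul_eq_mul, mul_one]
  push_cast
  rw [h2]
  ring

omit [Fintype K] in
theorem tr_sum {ι : Type*} (s : Finset ι) (f : ι → K) : tr m θ (∑ i ∈ s, f i) = ∑ i ∈ s, tr m θ (f i) := by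
  classical
  induction s using Finset.induction_on with
  | empty => rw [sum_empty, sum_empty, tr_zero]
  | insert a s ha ih => rw [sum_insert ha, sum_insert ha, tr_add, ih]

include hK hθ in
theorem theta_tr (z : K) : θ (tr m θ z) = tr m θ z := by
  have h1 : θ (tr m θ z) = ∑ t ∈ range (2 * m + 1), θ^[t + 1] z := by
    rw [tr, map_sum]
    apply sum_congr rfl
    intro t _
    rw [Function.iterate_succ_apply']
  have h2 := sum_range_succ (fun t => θ^[t] z) (2 * m + 1)
  rw [sum_range_succ' (fun t => θ^[t] z) (2 * m + 1)] at h2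
  simp only [Function.iterate_zero_apply, iter_full hK θ hθ z] at h2
  rw [h1, tr]
  exact add_right_cancel h2

include hK hθ in
theorem tr_theta (z : K) : tr m θ (θ z) = tr m θ z := by
  rw [← theta_tr hK θ hθ z, tr, tr, map_sum]
  apply sum_congr rfl
  intro t _
  rw [← Function.iterate_succ_apply, Function.iterate_succ_apply']

include hK hθ in
theorem tr_mem (z : K) : tr m θ z = 0 ∨ tr m θ z = 1 := fixed hK θ hθ _ (theta_tr hK θ hθ z)

include hK hθ in
theorem norm_one {z : K} (hz : z ≠ 0) : ∏ t ∈ range (2 * m + 1), θ^[t] z = 1 := by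
  have h1 : θ (∏ t ∈ range (2 * m + 1), θ^[t] z) = ∏ t ∈ range (2 * m + 1), θ^[t + 1] z := by
    rw [map_prod]
    apply prod_congr rfl
    intro t _
    rw [Function.iterate_succ_apply']
  have h2 := prod_range_succ (fun t => θ^[t] z) (2 * m + 1)
  rw [prod_range_succ' (fun t => θ^[t] z) (2 * m + 1)] at h2
  simp only [Function.iterate_zero_apply, iter_full hK θ hθ z] at h2
  have h3 := mul_right_cancel₀ hz h2
  rcases fixed hK θ hθ _ (h1.trans h3) with h4 | h4
  · exfalso
    rw [prod_eq_zero_iff] at h4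
    obtain ⟨t, _, h5⟩ := h4
    apply hz
    have h6 : θ^[t] z = θ^[t] 0 := by
      rw [h5]
      exact (iterate_map_zero θ t).symm
    exact θ.injective.iterate t h6
  · exact h4

include hK hθ in
theorem sum_units [DecidableEq K] [CharP K 2] (L : List (ℕ × ℕ)) : ∑ x : Kˣ, val θ L (x : K) =
    (L.map fun e => if 2 ^ (2 * m + 1) - 1 ∣ e.1 + 2 ^ (m + 1) * e.2 then (1 : K) else 0).sum := by
  induction L with
  | nil => simp [val_nil]
  | cons e L ih =>
    have h0 : ∀ x ∈ (univ : Finset Kˣ), val θ (e :: L) (x : K) = (x : K) ^ e.1 * θ (x : K) ^ e.2 + val θ L (x : K) :=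
      fun x _ => val_cons θ e L (x : K)
    rw [List.map_cons, List.sum_cons, ← ih, sum_congr rfl h0, sum_add_distrib]
    congr 1
    have h1 : ∀ x ∈ (univ : Finset Kˣ), (x : K) ^ e.1 * θ (x : K) ^ e.2 = (x : K) ^ (e.1 + 2 ^ (m + 1) * e.2) := by
      intro x _
      rw [hθ, ← pow_mul, ← pow_add]
    rw [sum_congr rfl h1, FiniteField.sum_pow_units, hK, CharTwo.neg_eq]

/-- the numerator and the denominator -/
def gv (m : ℕ) (θ : K →+* K) (x : K) : K := val θ (E0 (LN :: LN :: List.replicate (2 * m - 1) LA)) x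

include hK hθ in
theorem gv_ne {x : K} (hm : 2 ≤ m) (hA : val θ LA x ≠ 0) :
    gv m θ x = val θ LN x / val θ LA x * θ (val θ LN x / val θ LA x) := by
  have hθθ := theta_theta hK θ hθ
  have h1 := norm_one hK θ hθ hA
  have h2 : 2 * m + 1 = (2 * m - 1) + 1 + 1 := by omega
  rw [h2, prod_range_succ', prod_range_succ'] at h1
  have h3 : ∀ t ∈ range (2 * m - 1), θ^[t + 1 + 1] (val θ LA x) = θ (θ (θ^[t] (val θ LA x))) := by
    intro t _
    rw [Function.iterate_succ_apply', Function.iterate_succ_apply']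
  rw [prod_congr rfl h3] at h1
  simp only [Function.iterate_zero_apply, zero_add, Function.iterate_one] at h1
  rw [gv, val_E0_cons θ hθθ, val_E0_cons θ hθθ, val_E0_replicate θ hθθ, map_mul, map_prod, map_prod, map_div₀]
  have h4 : θ (val θ LA x) ≠ 0 := (map_ne_zero θ).2 hA
  field_simp
  linear_combination val θ LN x * θ (val θ LN x) * h1

include hK hθ in
theorem gv_eq {x : K} (hm : 2 ≤ m) (hA : val θ LA x = 0) : gv m θ x = 0 := by
  have hθθ := theta_theta hK θ hθ
  rw [gv, val_E0_cons θ hθθ, val_E0_cons θ hθθ, val_E0_replicate θ hθθ, hA]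
  have h1 : ∏ t ∈ range (2 * m - 1), θ^[t] (0 : K) = 0 := by
    apply prod_eq_zero (i := 0)
    · rw [mem_range]
      omega
    · rfl
  rw [h1, map_zero, mul_zero, map_zero, mul_zero]

include hK hθ in
theorem exists_tr [CharP K 2] (hm : 2 ≤ m) : ∃ x : K, x ≠ 0 ∧ val θ LA x ≠ 0 ∧
    tr m θ (val θ LN x / val θ LA x * θ (val θ LN x / val θ LA x)) = 1 := by
  classical
  have hθθ := theta_theta hK θ hθ
  by_contra hcon
  push Not at hcon
  have h1 : ∑ x : Kˣ, tr m θ (x : K) * gv m θ (x : K) = 1 := by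
    rw [← total (K := K) hm, ← sum_units hK θ hθ]
    apply sum_congr rfl
    intro x _
    rw [val_E1 θ hθθ, gv, tr]
    congr 3
    rw [List.length_cons, List.length_cons, List.length_replicate]
    omega
  have h2 : ∀ x : Kˣ, tr m θ (gv m θ (x : K)) = 0 := by
    intro x
    by_cases hA : val θ LA (x : K) = 0
    · rw [gv_eq hK θ hθ hm hA, tr_zero]
    · rw [gv_ne hK θ hθ hm hA]
      exact (tr_mem hK θ hθ _).resolve_right (hcon _ x.ne_zero hA)
  have h3 := congrArg (tr m θ) h1
  rw [tr_sum, tr_one] at h3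
  have h4 : ∀ x ∈ (univ : Finset Kˣ), tr m θ (tr m θ (x : K) * gv m θ (x : K)) = 0 := by
    intro x _
    rcases tr_mem hK θ hθ (x : K) with h | h
    · rw [h, zero_mul, tr_zero]
    · rw [h, one_mul]
      exact h2 x
  rw [sum_eq_zero h4] at h3
  exact zero_ne_one h3

omit [Fintype K] in
theorem exists_y [CharP K 2] {c : K} (hc : tr m θ c = 0) : ∃ y : K, y + θ y = c := by
  have h2 := CharTwo.two_eq_zero (R := K)
  refine ⟨∑ i ∈ range m, θ^[2 * i + 1] c, ?_⟩
  have key : ∀ n : ℕ, ∑ i ∈ range n, θ^[2 * i + 1] c + θ (∑ i ∈ range n, θ^[2 * i + 1] c) =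
      ∑ t ∈ range (2 * n + 1), θ^[t] c - c := by
    intro n
    induction n with
    | zero => simp
    | succ n ih =>
      have h3 : 2 * (n + 1) + 1 = 2 * n + 1 + 1 + 1 := by ring
      rw [h3, sum_range_succ _ (2 * n + 1 + 1), sum_range_succ _ (2 * n + 1), sum_range_succ _ n, map_add,
        ← Function.iterate_succ_apply' (⇑θ) (2 * n + 1) c]
      linear_combination ih
  rw [key, ← tr, hc]
  linear_combination -c * h2

end Fin

/-- **the existence for the Suzuki case** -/
theorem exists_xy {K : Type*} [Field K] [Fintype K] {m : ℕ} (hm : 2 ≤ m) (hK : Fintype.card K = 2 ^ (2 * m + 1))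
    (θ : K →+* K) (hθ : ∀ x, θ x = x ^ (2 ^ (m + 1))) :
    ∃ x y : K, x ≠ 0 ∧ 1 + x ^ 3 * θ x ^ 2 + x ^ 4 * θ x ^ 2 ≠ 0 ∧
      y + θ y = ((x ^ 3 * θ x ^ 2 + x ^ 4 * θ x ^ 2 + x ^ 3 * θ x) / (1 + x ^ 3 * θ x ^ 2 + x ^ 4 * θ x ^ 2)) *
        θ ((x ^ 3 * θ x ^ 2 + x ^ 4 * θ x ^ 2 + x ^ 3 * θ x) / (1 + x ^ 3 * θ x ^ 2 + x ^ 4 * θ x ^ 2)) := by
  have := charP_two hK
  have h2 := CharTwo.two_eq_zero (R := K)
  obtain ⟨x, hx, hA, hT⟩ := exists_tr hK θ hθ hm
  rw [val_LA] at hA hT
  rw [val_LN] at hT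
  set A := 1 + x ^ 3 * θ x ^ 2 + x ^ 4 * θ x ^ 2 with hAdef
  set k := (1 + x ^ 3 * θ x) / A with hk
  have hh : (x ^ 3 * θ x ^ 2 + x ^ 4 * θ x ^ 2 + x ^ 3 * θ x) / A = 1 + k := by
    rw [hk, eq_comm, ← sub_eq_zero]
    field_simp
    rw [hAdef]
    linear_combination h2
  have hc : tr m θ ((1 + k) * θ (1 + k)) = 0 := by
    have h3 : (1 + k) * θ (1 + k) = 1 + k + θ k + k * θ k := by
      rw [map_add, map_one]
      ring
    rw [h3, tr_add, tr_add, tr_add, tr_theta hK θ hθ, tr_one, hT]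
    linear_combination (1 + tr m θ k) * h2
  obtain ⟨y, hy⟩ := exists_y θ hc
  refine ⟨x, y, hx, hA, ?_⟩
  rw [← hAdef, hh]
  exact hy

end Cfsg.Agent.H896.SuzTab
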