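import Mathlib
import Cfsg.Prelude.Def_Involutions

/-!
# Binary actions on cosets (helper896)

`Binary H` : the action of `G` on `G ⧸ H` is binary. The fixity lemma for commuting involutions, the
strongly embedded subgroup of a simple group with one class of involutions, the obstructions `ternary`,
`four`, `three`, and a criterion for TI subgroups.
-/

set_option autoImplicit false

namespace Cfsg.Agent.H896

open MulAction

variable {G : Type*} [Group G] {H : Subgroup G}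

/-- the action of `G` on the cosets of `H` is binary -/
def Binary (H : Subgroup G) : Prop :=
  ∀ (n : ℕ) (I J : Fin n → G ⧸ H), 2 ≤ n →
    (∀ i j : Fin n, i ≠ j → ∃ g : G, g • I i = J i ∧ g • I j = J j) → ∃ g : G, ∀ i, g • I i = J i

theorem Binary.gen (hb : Binary H) {ι : Type*} [Finite ι] (I J : ι → G ⧸ H)
    (h : ∀ i j : ι, ∃ g : G, g • I i = J i ∧ g • I j = J j) : ∃ g : G, ∀ i, g • I i = J i := by
  classical
  obtain ⟨n, ⟨e⟩⟩ := Finite.exists_equiv_fin ι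
  by_cases hn : 2 ≤ n
  · obtain ⟨g, hg⟩ := hb n (I ∘ e.symm) (J ∘ e.symm) hn (fun i j _ => h _ _)
    refine ⟨g, fun i => ?_⟩
    have := hg (e i)
    simpa using this
  · by_cases hne : Nonempty ι
    · obtain ⟨i⟩ := hne
      obtain ⟨g, hg, -⟩ := h i i
      refine ⟨g, fun j => ?_⟩
      have : j = i := by
        apply e.injective
        apply Fin.ext
        have h1 := (e j).2
        have h2 := (e i).2
        omega
      rw [this, hg]
    · exact ⟨1, fun i => (hne ⟨i⟩).elim⟩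

theorem smul_mk_eq (g a b : G) :
    g • (QuotientGroup.mk a : G ⧸ H) = QuotientGroup.mk b ↔ b⁻¹ * (g * a) ∈ H := by
  rw [eq_comm]
  exact QuotientGroup.eq

/-- binary actions in terms of representatives -/
theorem Binary.rep (hb : Binary H) {ι : Type*} [Finite ι] (a b : ι → G)
    (h : ∀ i j : ι, ∃ g : G, (b i)⁻¹ * (g * a i) ∈ H ∧ (b j)⁻¹ * (g * a j) ∈ H) :
    ∃ g : G, ∀ i, (b i)⁻¹ * (g * a i) ∈ H := by
  obtain ⟨g, hg⟩ := hb.gen (fun i => (QuotientGroup.mk (a i) : G ⧸ H))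
    (fun i => QuotientGroup.mk (b i)) (fun i j => by
      obtain ⟨g, h1, h2⟩ := h i j
      exact ⟨g, (smul_mk_eq _ _ _).2 h1, (smul_mk_eq _ _ _).2 h2⟩)
  exact ⟨g, fun i => (smul_mk_eq _ _ _).1 (hg i)⟩

/-- **Ternary obstruction.** -/
theorem Binary.ternary (hb : Binary H) {x y g₂ g₃ : G} (hx : x ∈ H) (h2 : g₂⁻¹ * y * g₂ ∈ H)
    (h3 : g₃⁻¹ * (x⁻¹ * y) * g₃ ∈ H) :
    ∃ a ∈ H, g₂⁻¹ * a * g₂ ∈ H ∧ g₃⁻¹ * (x⁻¹ * a) * g₃ ∈ H := by
  have key : ∀ i j : Fin 3, ∃ g : G,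
      ((![1, g₂, x * g₃] : Fin 3 → G) i)⁻¹ * (g * (![1, g₂, g₃] : Fin 3 → G) i) ∈ H ∧
      ((![1, g₂, x * g₃] : Fin 3 → G) j)⁻¹ * (g * (![1, g₂, g₃] : Fin 3 → G) j) ∈ H := by
    have a0 : ∀ g : G, g ∈ H → (1 : G)⁻¹ * (g * 1) ∈ H := fun g hg => by simpa using hg
    have a1 : (g₂)⁻¹ * (1 * g₂) ∈ H := by simp
    have a2 : (x * g₃)⁻¹ * (x * g₃) ∈ H := by simp
    have b1 : (g₂)⁻¹ * (y * g₂) ∈ H := by simpa [mul_assoc] using h2
    have b2 : (x * g₃)⁻¹ * (y * g₃) ∈ H := by simpa [mul_assoc] using h3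
    intro i j
    fin_cases i <;> fin_cases j
    · exact ⟨1, a0 1 H.one_mem, a0 1 H.one_mem⟩
    · exact ⟨1, a0 1 H.one_mem, a1⟩
    · exact ⟨x, a0 x hx, a2⟩
    · exact ⟨1, a1, a0 1 H.one_mem⟩
    · exact ⟨1, a1, a1⟩
    · exact ⟨y, b1, b2⟩
    · exact ⟨x, a2, a0 x hx⟩
    · exact ⟨y, b2, b1⟩
    · exact ⟨x, a2, a2⟩
  obtain ⟨a, ha⟩ := hb.rep _ _ key
  refine ⟨a, ?_, ?_, ?_⟩
  · simpa using ha 0
  · simpa [mul_assoc] using ha 1
  · have := ha 2
    simpa [mul_assoc] using this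

/-- **Three point obstruction** -/
theorem Binary.three (hb : Binary H) {k v : G} (hk : k ∈ H)
    (hc : (k * v * k⁻¹)⁻¹ * v * (k * v * k⁻¹) * v⁻¹ ∈ H) :
    ∃ g ∈ H, (v * (k * v * k⁻¹))⁻¹ * g * (v * (k * v * k⁻¹)) ∈ H ∧ (k * v * k⁻¹)⁻¹ * g * v ∈ H := by
  set v' := k * v * k⁻¹ with hv'
  set v₁ := v * v' with hv₁
  have key : ∀ i j : Fin 3, ∃ g : G,
      ((![1, v₁, v'] : Fin 3 → G) i)⁻¹ * (g * (![1, v₁, v] : Fin 3 → G) i) ∈ H ∧
      ((![1, v₁, v'] : Fin 3 → G) j)⁻¹ * (g * (![1, v₁, v] : Fin 3 → G) j) ∈ H := by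
    have a0 : ∀ g : G, g ∈ H → (1 : G)⁻¹ * (g * 1) ∈ H := fun g hg => by simpa using hg
    have a1 : (v₁)⁻¹ * (1 * v₁) ∈ H := by simp
    have a2 : (v')⁻¹ * (k * v) ∈ H := by
      rw [hv']
      have : (k * v * k⁻¹)⁻¹ * (k * v) = k := by group
      rw [this]; exact hk
    have b1 : (v₁)⁻¹ * ((v₁ * k⁻¹ * v₁⁻¹) * v₁) ∈ H := by
      have : (v₁)⁻¹ * ((v₁ * k⁻¹ * v₁⁻¹) * v₁) = k⁻¹ := by group
      rw [this]; exact H.inv_mem hk
    have b2 : (v')⁻¹ * ((v₁ * k⁻¹ * v₁⁻¹) * v) ∈ H := by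
      have : (v')⁻¹ * ((v₁ * k⁻¹ * v₁⁻¹) * v) = ((v')⁻¹ * v * v' * v⁻¹) * k⁻¹ := by
        rw [hv₁, hv']; group
      rw [this]; exact H.mul_mem hc (H.inv_mem hk)
    intro i j
    fin_cases i <;> fin_cases j
    · exact ⟨1, a0 1 H.one_mem, a0 1 H.one_mem⟩
    · exact ⟨1, a0 1 H.one_mem, a1⟩
    · exact ⟨k, a0 k hk, a2⟩
    · exact ⟨1, a1, a0 1 H.one_mem⟩
    · exact ⟨1, a1, a1⟩
    · exact ⟨_, b1, b2⟩
    · exact ⟨k, a2, a0 k hk⟩
    · exact ⟨_, b2, b1⟩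
    · exact ⟨_, b2, b2⟩
  obtain ⟨a, ha⟩ := hb.rep _ _ key
  refine ⟨a, ?_, ?_, ?_⟩
  · simpa using ha 0
  · have := ha 1
    simpa [mul_assoc] using this
  · have := ha 2
    simpa [mul_assoc] using this

/-- **Four point obstruction** -/
theorem Binary.four (hb : Binary H) {k v w : G} (hkw : w⁻¹ * k * w ∈ H) (hv : v ∈ H) (hk : k ∈ H)
    (hc : (k * v * k⁻¹) * v = v * (k * v * k⁻¹)) :
    ∃ g ∈ H, w⁻¹ * g * w ∈ H ∧
      (v * (k * v * k⁻¹) * w)⁻¹ * g * (v * (k * v * k⁻¹) * w) ∈ H ∧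
      (k * v * k⁻¹ * w)⁻¹ * g * (v * w) ∈ H := by
  set v' := k * v * k⁻¹ with hv'
  set v₁ := v * v' with hv₁
  have hv'H : v' ∈ H := H.mul_mem (H.mul_mem hk hv) (H.inv_mem hk)
  have hkw' : w⁻¹ * k⁻¹ * w ∈ H := by
    have := H.inv_mem hkw
    simpa [mul_assoc] using this
  have key : ∀ i j : Fin 4, ∃ g : G,
      ((![1, w, v₁ * w, v' * w] : Fin 4 → G) i)⁻¹ * (g * (![1, w, v₁ * w, v * w] : Fin 4 → G) i) ∈ H ∧
      ((![1, w, v₁ * w, v' * w] : Fin 4 → G) j)⁻¹ * (g * (![1, w, v₁ * w, v * w] : Fin 4 → G) j) ∈ H := by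
    have a0 : ∀ g : G, g ∈ H → (1 : G)⁻¹ * (g * 1) ∈ H := fun g hg => by simpa using hg
    have a1 : (w)⁻¹ * (1 * w) ∈ H := by simp
    have a2 : (v₁ * w)⁻¹ * (1 * (v₁ * w)) ∈ H := by simp
    have a3 : (v' * w)⁻¹ * ((v' * v⁻¹) * (v * w)) ∈ H := by
      have : (v' * w)⁻¹ * ((v' * v⁻¹) * (v * w)) = 1 := by group
      rw [this]; exact H.one_mem
    have c0 : v' * v⁻¹ ∈ H := H.mul_mem hv'H (H.inv_mem hv)
    have b1 : (w)⁻¹ * (k * w) ∈ H := by simpa [mul_assoc] using hkw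
    have b3 : (v' * w)⁻¹ * (k * (v * w)) ∈ H := by
      have : (v' * w)⁻¹ * (k * (v * w)) = w⁻¹ * k * w := by rw [hv']; group
      rw [this]; exact hkw
    have d2 : (v₁ * w)⁻¹ * ((v₁ * k⁻¹ * v₁⁻¹) * (v₁ * w)) ∈ H := by
      have : (v₁ * w)⁻¹ * ((v₁ * k⁻¹ * v₁⁻¹) * (v₁ * w)) = w⁻¹ * k⁻¹ * w := by group
      rw [this]; exact hkw'
    have d3 : (v' * w)⁻¹ * ((v₁ * k⁻¹ * v₁⁻¹) * (v * w)) ∈ H := by
      have e1 : v₁ = v' * v := by rw [hv₁, hc]
      have e2 : (v' * w)⁻¹ * ((v₁ * k⁻¹ * v₁⁻¹) * (v * w)) =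
          w⁻¹ * (v'⁻¹ * v₁) * k⁻¹ * (v₁⁻¹ * v) * w := by group
      have e3 : v'⁻¹ * v₁ = v := by rw [e1]; group
      have e4 : v₁⁻¹ * v = v'⁻¹ := by rw [hv₁]; group
      have e5 : w⁻¹ * v * k⁻¹ * v'⁻¹ * w = w⁻¹ * k⁻¹ * w := by rw [hv']; group
      rw [e2, e3, e4, e5]; exact hkw'
    intro i j
    fin_cases i <;> fin_cases j
    · exact ⟨1, a0 1 H.one_mem, a0 1 H.one_mem⟩
    · exact ⟨1, a0 1 H.one_mem, a1⟩
    · exact ⟨1, a0 1 H.one_mem, a2⟩
    · exact ⟨_, a0 _ c0, a3⟩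
    · exact ⟨1, a1, a0 1 H.one_mem⟩
    · exact ⟨1, a1, a1⟩
    · exact ⟨1, a1, a2⟩
    · exact ⟨k, b1, b3⟩
    · exact ⟨1, a2, a0 1 H.one_mem⟩
    · exact ⟨1, a2, a1⟩
    · exact ⟨1, a2, a2⟩
    · exact ⟨_, d2, d3⟩
    · exact ⟨_, a3, a0 _ c0⟩
    · exact ⟨k, b3, b1⟩
    · exact ⟨_, d3, d2⟩
    · exact ⟨k, b3, b3⟩
  obtain ⟨a, ha⟩ := hb.rep _ _ key
  refine ⟨a, ?_, ?_, ?_, ?_⟩
  · simpa using ha 0
  · have := ha 1
    simpa [mul_assoc] using this
  · have := ha 2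
    simpa [mul_assoc] using this
  · have := ha 3
    simpa [mul_assoc] using this

/-- the trivial subgroup gives a binary action -/
theorem binary_bot : Binary (⊥ : Subgroup G) := by
  intro n I J hn h
  have h1 : ∀ (g g' : G) (x : G ⧸ (⊥ : Subgroup G)), g • x = g' • x → g = g' := by
    intro g g' x hx
    induction x using QuotientGroup.induction_on with
    | H a =>
      have h2 : (QuotientGroup.mk (g * a) : G ⧸ (⊥ : Subgroup G)) = QuotientGroup.mk (g' * a) := hx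
      rw [QuotientGroup.eq, Subgroup.mem_bot, inv_mul_eq_one] at h2
      exact mul_right_cancel h2
  have i0 : Fin n := ⟨0, by omega⟩
  have i1 : Fin n := ⟨1, by omega⟩
  have h01 : (⟨0, by omega⟩ : Fin n) ≠ ⟨1, by omega⟩ := by
    intro h; simp at h
  obtain ⟨g, hg, -⟩ := h ⟨0, by omega⟩ ⟨1, by omega⟩ h01
  refine ⟨g, fun i => ?_⟩
  by_cases hi : i = ⟨0, by omega⟩
  · rw [hi, hg]
  · obtain ⟨g', h3, h4⟩ := h i ⟨0, by omega⟩ hi
    rw [h1 g g' _ (hg.trans h4.symm), h3]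

/-- **TI criterion** -/
theorem binary_of_ti (hTI : ∀ g x : G, x ∈ H → x ≠ 1 → g⁻¹ * x * g ∈ H → ∀ y ∈ H, g⁻¹ * y * g ∈ H)
    (h3 : ∀ a b c p q r : G, a⁻¹ * p * a ∈ H → b⁻¹ * q * b ∈ H → c⁻¹ * r * c ∈ H → p ≠ 1 → q ≠ 1 →
      r ≠ 1 → q = p * r → b⁻¹ * p * b ∈ H) : Binary H := by
  -- stabilizers
  have hst : ∀ g a : G, g • (QuotientGroup.mk a : G ⧸ H) = QuotientGroup.mk a ↔ a⁻¹ * g * a ∈ H := by
    intro g a
    rw [smul_mk_eq, mul_assoc]
  have hTI2 : ∀ a b p : G, p ≠ 1 → a⁻¹ * p * a ∈ H → b⁻¹ * p * b ∈ H → ∀ y, a⁻¹ * y * a ∈ H →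
      b⁻¹ * y * b ∈ H := by
    intro a b p hp ha hb y hy
    have h1 := hTI (a⁻¹ * b) (a⁻¹ * p * a) ha (by
      intro h
      apply hp
      have : p = a * (a⁻¹ * p * a) * a⁻¹ := by group
      rw [this, h]; group) (by
        have : (a⁻¹ * b)⁻¹ * (a⁻¹ * p * a) * (a⁻¹ * b) = b⁻¹ * p * b := by group
        rw [this]; exact hb) _ hy
    have : (a⁻¹ * b)⁻¹ * (a⁻¹ * y * a) * (a⁻¹ * b) = b⁻¹ * y * b := by group
    rwa [this] at h1
  intro n I J hn h
  choose a ha using fun i => QuotientGroup.mk_surjective (I i)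
  choose b hbb using fun i => QuotientGroup.mk_surjective (J i)
  by_cases hall : ∀ i j : Fin n, ∀ p, (a i)⁻¹ * p * a i ∈ H → (a j)⁻¹ * p * a j ∈ H
  · -- all stabilizers equal
    have h01 : (⟨0, by omega⟩ : Fin n) ≠ ⟨1, by omega⟩ := by
      intro h; simp at h
    obtain ⟨g, hg, -⟩ := h ⟨0, by omega⟩ ⟨1, by omega⟩ h01
    refine ⟨g, fun i => ?_⟩
    by_cases hi : i = ⟨0, by omega⟩
    · rw [hi, hg]
    · obtain ⟨g', h4, h5⟩ := h i ⟨0, by omega⟩ hi
      have h6 : (g⁻¹ * g') • I ⟨0, by omega⟩ = I ⟨0, by omega⟩ := by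
        rw [mul_smul, h5, ← hg, inv_smul_smul]
      rw [← ha, hst] at h6
      have h7 := hall _ i _ h6
      rw [← hst, ha, mul_smul, inv_smul_eq_iff, h4] at h7
      exact h7.symm
  · push Not at hall
    obtain ⟨i, j, p₀, hp₀, hp₀'⟩ := hall
    have hij : i ≠ j := by
      rintro rfl
      exact hp₀' hp₀
    have htriv : ∀ p, (a i)⁻¹ * p * a i ∈ H → (a j)⁻¹ * p * a j ∈ H → p = 1 := by
      intro p h1 h2
      by_contra hp
      exact hp₀' (hTI2 _ _ p hp h1 h2 _ hp₀)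
    obtain ⟨g, hgi, hgj⟩ := h i j hij
    refine ⟨g, fun k => ?_⟩
    by_cases hki : k = i
    · rw [hki, hgi]
    by_cases hkj : k = j
    · rw [hkj, hgj]
    obtain ⟨g₁, h11, h12⟩ := h k i hki
    obtain ⟨g₂, h21, h22⟩ := h k j hkj
    set p := g⁻¹ * g₁ with hp
    set q := g⁻¹ * g₂ with hq
    have hpi : (a i)⁻¹ * p * a i ∈ H := by
      rw [← hst, ha, hp, mul_smul, h12, ← hgi, inv_smul_smul]
    have hqj : (a j)⁻¹ * q * a j ∈ H := by
      rw [← hst, ha, hq, mul_smul, h22, ← hgj, inv_smul_smul]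
    have hr : (a k)⁻¹ * (p⁻¹ * q) * a k ∈ H := by
      rw [← hst, ha, hp, hq]
      have : (g⁻¹ * g₁)⁻¹ * (g⁻¹ * g₂) = g₁⁻¹ * g₂ := by group
      rw [this, mul_smul, h21, ← h11, inv_smul_smul]
    by_cases hp1 : p = 1
    · have : g₁ = g := by
        rw [hp, inv_mul_eq_one] at hp1
        exact hp1.symm
      rw [← this, h11]
    by_cases hq1 : q = 1
    · have : g₂ = g := by
        rw [hq, inv_mul_eq_one] at hq1
        exact hq1.symm
      rw [← this, h21]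
    by_cases hr1 : p⁻¹ * q = 1
    · have hpq : p = q := inv_mul_eq_one.1 hr1
      exact absurd (htriv p hpi (by rw [hpq]; exact hqj)) hp1
    have := h3 (a i) (a j) (a k) p q (p⁻¹ * q) hpi hqj hr hp1 hq1 hr1 (by group)
    exact absurd (htriv p hpi this) hp1

/-! ### Commuting involutions -/

section Fix

variable [Finite G]

omit [Finite G] in
theorem ncard_fixedBy_conj (g s : G) :
    (fixedBy (G ⧸ H) (g * s * g⁻¹)).ncard = (fixedBy (G ⧸ H) s).ncard := by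
  have : fixedBy (G ⧸ H) (g * s * g⁻¹) = (fun x => g • x) '' fixedBy (G ⧸ H) s := by
    ext x
    constructor
    · intro hx
      refine ⟨g⁻¹ • x, ?_, smul_inv_smul g x⟩
      rw [mem_fixedBy] at hx ⊢
      rw [← mul_smul]
      have e : s * g⁻¹ = g⁻¹ * (g * s * g⁻¹) := by group
      rw [e, mul_smul, hx]
    · rintro ⟨y, hy, rfl⟩
      rw [mem_fixedBy] at hy ⊢
      show (g * s * g⁻¹) • g • y = g • y
      rw [← mul_smul]
      have e : g * s * g⁻¹ * g = g * s := by group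
      rw [e, mul_smul, hy]
  rw [this]
  exact Set.ncard_image_of_injective _ (MulAction.injective g)

/-- commuting involutions have the same fixed points in a binary action (one class of involutions) -/
theorem Binary.fix_le (hb : Binary H) (hone : ∀ s t : G, orderOf s = 2 → orderOf t = 2 → IsConj s t)
    {s t : G} (hs : orderOf s = 2) (ht : orderOf t = 2) (hst : s * t = t * s) {x : G ⧸ H}
    (hx : s • x = x) : t • x = x := by
  classical
  by_contra hxt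
  have hss : s * s = 1 := by rw [← pow_two, ← hs, pow_orderOf_eq_one]
  have htt : t * t = 1 := by rw [← pow_two, ← ht, pow_orderOf_eq_one]
  have hne : s * t ≠ 1 := by
    intro h
    have : s = t := by
      calc s = s * (t * t) := by rw [htt, mul_one]
        _ = (s * t) * t := by rw [mul_assoc]
        _ = t := by rw [h, one_mul]
    rw [this] at hx
    exact hxt hx
  have hst2 : orderOf (s * t) = 2 := by
    apply orderOf_eq_prime _ hne
    rw [pow_two]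
    calc s * t * (s * t) = s * t * (t * s) := by rw [hst]
      _ = s * (t * t) * s := by group
      _ = 1 := by rw [htt, mul_one, hss]
  have hcard : ∀ u : G, orderOf u = 2 → (fixedBy (G ⧸ H) u).ncard = (fixedBy (G ⧸ H) s).ncard := by
    intro u hu
    obtain ⟨g, hg⟩ := isConj_iff.1 (hone s u hs hu)
    rw [← hg, ncard_fixedBy_conj]
  have hfin : ∀ u : G, (fixedBy (G ⧸ H) u).Finite := fun u => Set.toFinite _
  -- the permutation
  set Y : Set (G ⧸ H) := {y | s • y = y ∨ t • y = y ∨ (s * t) • y = y} with hY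
  obtain ⟨g, hg⟩ := hb.gen (ι := Y) (fun y => (y : G ⧸ H))
    (fun y => if s • (y : G ⧸ H) = y then t • (y : G ⧸ H) else y) (by
      rintro ⟨y, hy⟩ ⟨z, hz⟩
      show ∃ g : G, g • y = (if s • y = y then t • y else y) ∧
        g • z = (if s • z = z then t • z else z)
      by_cases h1 : s • y = y <;> by_cases h2 : s • z = z
      · exact ⟨t, by rw [if_pos h1], by rw [if_pos h2]⟩
      · rcases hz with hz | hz | hz
        · exact absurd hz h2
        · exact ⟨t, by rw [if_pos h1], by rw [if_neg h2, hz]⟩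
        · exact ⟨s * t, by rw [if_pos h1, hst, mul_smul, h1], by rw [if_neg h2, hz]⟩
      · rcases hy with hy | hy | hy
        · exact absurd hy h1
        · exact ⟨t, by rw [if_neg h1, hy], by rw [if_pos h2]⟩
        · exact ⟨s * t, by rw [if_neg h1, hy], by rw [if_pos h2, hst, mul_smul, h2]⟩
      · exact ⟨1, by rw [if_neg h1, one_smul], by rw [if_neg h2, one_smul]⟩)
  have hg : ∀ y ∈ Y, g • y = if s • y = y then t • y else y := fun y hy => hg ⟨y, hy⟩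
  have hgx : g • x = t • x := by rw [hg x (Or.inl hx), if_pos hx]
  have hstx : s • (t • x) = t • x := by rw [← mul_smul, hst, mul_smul, hx]
  have hgtx : g • (t • x) = x := by
    rw [hg _ (Or.inl hstx), if_pos hstx, ← mul_smul, htt, one_smul]
  have hg2 : ∀ k : ℕ, (g ^ (2 * k)) • x = x := by
    intro k
    induction k with
    | zero => simp
    | succ k ih =>
      have : g ^ (2 * (k + 1)) = g ^ (2 * k) * (g * g) := by
        rw [← pow_two, ← pow_add]; ring_nf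
      rw [this, mul_smul, mul_smul, hgx, hgtx, ih]
  have heven : Even (orderOf g) := by
    by_contra hodd
    rw [Nat.not_even_iff_odd] at hodd
    obtain ⟨k, hk⟩ := hodd
    have h1 : g ^ (2 * k + 1) • x = x := by rw [← hk, pow_orderOf_eq_one, one_smul]
    have h2 : g ^ (2 * k + 1) • x = t • x := by
      rw [pow_succ', mul_smul, hg2, hgx]
    exact hxt (h2.symm.trans h1)
  obtain ⟨m, hm⟩ := heven
  have hpos : 0 < orderOf g := orderOf_pos g
  set u := g ^ m with hu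
  have hu2 : orderOf u = 2 := by
    rw [hu, orderOf_pow, hm]
    have : m + m = m * 2 := by ring
    rw [this, Nat.gcd_eq_right (dvd_mul_right m 2), Nat.mul_div_cancel_left _ (by omega)]
  have hfu : ∀ y : G ⧸ H, g • y = y → u • y = y := by
    intro y hy
    exact (stabilizer G y).pow_mem (show g ∈ stabilizer G y from hy) m
  have hsub : fixedBy (G ⧸ H) t ⊆ fixedBy (G ⧸ H) u := by
    intro y hy
    rw [mem_fixedBy] at hy ⊢
    apply hfu
    rw [hg y (Or.inr (Or.inl hy))]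
    split_ifs
    · exact hy
    · rfl
  have hsub2 : fixedBy (G ⧸ H) (s * t) ⊆ fixedBy (G ⧸ H) u := by
    intro y hy
    rw [mem_fixedBy] at hy ⊢
    apply hfu
    rw [hg y (Or.inr (Or.inr hy))]
    split_ifs with h1
    · rw [hst, mul_smul, h1] at hy
      exact hy
    · rfl
  have he : fixedBy (G ⧸ H) t = fixedBy (G ⧸ H) u :=
    Set.eq_of_subset_of_ncard_le hsub (by rw [hcard u hu2, hcard t ht]) (hfin u)
  have hsub3 : fixedBy (G ⧸ H) (s * t) ⊆ fixedBy (G ⧸ H) s := by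
    intro y hy
    have hy2 : y ∈ fixedBy (G ⧸ H) t := by rw [he]; exact hsub2 hy
    rw [mem_fixedBy] at hy hy2 ⊢
    rw [mul_smul, hy2] at hy
    exact hy
  have he2 : fixedBy (G ⧸ H) (s * t) = fixedBy (G ⧸ H) s :=
    Set.eq_of_subset_of_ncard_le hsub3 (by rw [hcard (s * t) hst2]) (hfin s)
  have hx2 : x ∈ fixedBy (G ⧸ H) (s * t) := by rw [he2]; exact hx
  have hx3 : x ∈ fixedBy (G ⧸ H) t := by rw [he]; exact hsub2 hx2
  exact hxt hx3

/-- the version for conjugates of `H` -/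
theorem Binary.conj_mem (hb : Binary H) (hone : ∀ s t : G, orderOf s = 2 → orderOf t = 2 → IsConj s t)
    {s t g : G} (hs : orderOf s = 2) (ht : orderOf t = 2) (hst : s * t = t * s)
    (h : g⁻¹ * s * g ∈ H) : g⁻¹ * t * g ∈ H := by
  have h1 := hb.fix_le hone hs ht hst (x := QuotientGroup.mk g) (by
    rw [smul_mk_eq, ← mul_assoc]; exact h)
  rwa [smul_mk_eq, ← mul_assoc] at h1

end Fix

end Cfsg.Agent.H896
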