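import Cfsg.Agent.H896.Binary

/-!
# A strongly embedded subgroup from a binary action (helper896)
-/

set_option autoImplicit false

namespace Cfsg.Agent.H896

open MulAction

variable {G : Type*} [Group G] {H : Subgroup G}

/-- the setwise stabiliser of the fixed points of `t` -/
def fixStab (H : Subgroup G) (t : G) : Subgroup G where
  carrier := {g | ∀ x : G ⧸ H, t • x = x ↔ t • (g • x) = g • x}
  mul_mem' := by
    intro g h hg hh x
    rw [hh x, hg (h • x), mul_smul]
  one_mem' := by
    intro x
    rw [one_smul]
  inv_mem' := by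
    intro g hg x
    have := hg (g⁻¹ • x)
    rw [smul_inv_smul] at this
    exact this.symm

theorem mem_fixStab {t g : G} : g ∈ fixStab H t ↔ ∀ x : G ⧸ H, t • x = x ↔ t • (g • x) = g • x :=
  Iff.rfl

theorem mul_self_of_orderOf {t : G} (ht : orderOf t = 2) : t * t = 1 := by
  rw [← pow_two, ← ht, pow_orderOf_eq_one]

theorem ne_one_of_orderOf {t : G} (ht : orderOf t = 2) : t ≠ 1 := by
  rintro rfl
  rw [orderOf_one] at ht
  omega

theorem orderOf_eq_two {t : G} (h : t * t = 1) (h1 : t ≠ 1) : orderOf t = 2 :=
  orderOf_eq_prime (by rw [pow_two, h]) h1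

/-- two involutions: either the order of their product is odd or some involution commutes with both -/
theorem exists_central [Finite G] {t u : G} (ht : orderOf t = 2) (hu : orderOf u = 2)
    (he : Even (orderOf (t * u))) : ∃ z : G, orderOf z = 2 ∧ z * t = t * z ∧ z * u = u * z := by
  have htt := mul_self_of_orderOf ht
  have huu := mul_self_of_orderOf hu
  obtain ⟨m, hm⟩ := he
  have hpos := orderOf_pos (t * u)
  set z := (t * u) ^ m with hz
  have hz2 : orderOf z = 2 := by
    rw [hz, orderOf_pow, hm]
    have : m + m = m * 2 := by ring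
    rw [this, Nat.gcd_eq_right (dvd_mul_right m 2), Nat.mul_div_cancel_left _ (by omega)]
  have hzz := mul_self_of_orderOf hz2
  have hzi : z⁻¹ = z := inv_eq_of_mul_eq_one_right hzz
  have hinv : (t * u)⁻¹ = u * t := by
    rw [inv_eq_iff_mul_eq_one]
    calc t * u * (u * t) = t * (u * u) * t := by group
      _ = 1 := by rw [huu, mul_one, htt]
  have hti : t⁻¹ = t := inv_eq_of_mul_eq_one_right htt
  have hui : u⁻¹ = u := inv_eq_of_mul_eq_one_right huu
  have h1 : t * z * t⁻¹ = z := by
    rw [← conj_pow]
    have : t * (t * u) * t⁻¹ = (t * u)⁻¹ := by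
      rw [hinv, hti]
      calc t * (t * u) * t = (t * t) * (u * t) := by group
        _ = u * t := by rw [htt, one_mul]
    rw [this, inv_pow, ← hz, hzi]
  have h2 : u * z * u⁻¹ = z := by
    rw [← conj_pow]
    have : u * (t * u) * u⁻¹ = (t * u)⁻¹ := by
      rw [hinv]; group
    rw [this, inv_pow, ← hz, hzi]
  refine ⟨z, hz2, ?_, ?_⟩
  · have := mul_inv_eq_iff_eq_mul.1 h1
    exact this.symm
  · have := mul_inv_eq_iff_eq_mul.1 h2
    exact this.symm

variable [Finite G]

/-- an involution of the stabiliser has the same fixed points -/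
theorem fix_eq (hb : Binary H) (hone : ∀ s t : G, orderOf s = 2 → orderOf t = 2 → IsConj s t)
    {t u : G} (ht : orderOf t = 2) (hu : orderOf u = 2) (hM : u ∈ fixStab H t) (x : G ⧸ H) :
    u • x = x ↔ t • x = x := by
  by_cases he : Even (orderOf (t * u))
  · obtain ⟨z, hz, h1, h2⟩ := exists_central ht hu he
    constructor
    · intro h
      exact hb.fix_le hone hz ht h1 (hb.fix_le hone hu hz h2.symm h)
    · intro h
      exact hb.fix_le hone hz hu h2 (hb.fix_le hone ht hz h1.symm h)
  · rw [Nat.not_even_iff_odd] at he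
    obtain ⟨k, hk⟩ := he
    have htt := mul_self_of_orderOf ht
    have huu := mul_self_of_orderOf hu
    have hfix : ∀ y : G ⧸ H, t • y = y → u • y = y := by
      intro y hy
      have h2 : ((t * u) * (t * u)) • y = y := by
        have h3 := (hM y).1 hy
        calc ((t * u) * (t * u)) • y = t • u • t • u • y := by simp only [mul_smul]
          _ = t • u • u • y := by rw [h3]
          _ = y := by rw [← mul_smul u u, huu, one_smul, hy]
      have h4 : (t * u) * (t * u) ∈ stabilizer G y := h2
      have h5 : (t * u) ∈ stabilizer G y := by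
        have h6 := (stabilizer G y).pow_mem h4 (k + 1)
        have h7 : ((t * u) * (t * u)) ^ (k + 1) = t * u := by
          rw [← pow_two, ← pow_mul]
          have : 2 * (k + 1) = (2 * k + 1) + 1 := by ring
          rw [this, pow_succ, ← hk, pow_orderOf_eq_one, one_mul]
        rwa [h7] at h6
      have h6 : (t * u) • y = y := h5
      rw [mul_smul] at h6
      have h7 : t • t • u • y = t • y := by rw [h6]
      rw [← mul_smul, htt, one_smul, hy] at h7
      exact h7
    have hsub : fixedBy (G ⧸ H) t ⊆ fixedBy (G ⧸ H) u := fun y hy => hfix y hy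
    have hcard : (fixedBy (G ⧸ H) u).ncard = (fixedBy (G ⧸ H) t).ncard := by
      obtain ⟨g, hg⟩ := isConj_iff.1 (hone t u ht hu)
      rw [← hg, ncard_fixedBy_conj]
    have he := Set.eq_of_subset_of_ncard_le hsub (by rw [hcard]) (Set.toFinite _)
    have h8 : x ∈ fixedBy (G ⧸ H) t ↔ x ∈ fixedBy (G ⧸ H) u := by rw [he]
    exact h8.symm

/-- a simple group with one class of involutions and a binary action with point stabilisers of even
order has a strongly embedded subgroup -/
theorem exists_stronglyEmbedded [IsSimpleGroup G] (hb : Binary H)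
    (hone : ∀ s t : G, orderOf s = 2 → orderOf t = 2 → IsConj s t) (hH : H ≠ ⊤)
    (heven : Even (Nat.card H)) : ∃ M : Subgroup G, Cfsg.IsStronglyEmbedded M := by
  have : Fact (Nat.Prime 2) := ⟨Nat.prime_two⟩
  obtain ⟨t', ht'⟩ := exists_prime_orderOf_dvd_card' (G := H) 2 heven.two_dvd
  set t : G := (t' : G) with htdef
  have htH : t ∈ H := t'.2
  have ht : orderOf t = 2 := by rw [htdef, Subgroup.orderOf_coe, ht']
  have htt := mul_self_of_orderOf ht
  refine ⟨fixStab H t, ?_, ?_, ?_⟩
  · intro htop
    have h1 : t • (QuotientGroup.mk 1 : G ⧸ H) = QuotientGroup.mk 1 := by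
      rw [smul_mk_eq]; simpa using htH
    have hcore : t ∈ H.normalCore := by
      intro g
      have hg : g⁻¹ ∈ fixStab H t := by rw [htop]; trivial
      have h2 := (hg _).1 h1
      have h3 : t • (QuotientGroup.mk g⁻¹ : G ⧸ H) = QuotientGroup.mk g⁻¹ := by
        have : g⁻¹ • (QuotientGroup.mk 1 : G ⧸ H) = QuotientGroup.mk g⁻¹ := by
          show (QuotientGroup.mk (g⁻¹ * 1) : G ⧸ H) = _
          rw [mul_one]
        rw [← this]; exact h2
      rw [smul_mk_eq] at h3
      simpa [mul_assoc] using h3
    rcases (inferInstance : H.normalCore.Normal).eq_bot_or_eq_top with h | h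
    · rw [h, Subgroup.mem_bot] at hcore
      exact ne_one_of_orderOf ht hcore
    · apply hH
      rw [eq_top_iff, ← h]
      exact H.normalCore_le
  · have htM : t ∈ fixStab H t := by
      intro x
      constructor
      · intro h; rw [h]
        exact h
      · intro h
        exact smul_left_cancel t h
    have : orderOf (⟨t, htM⟩ : fixStab H t) = 2 := by rw [← Subgroup.orderOf_coe]; exact ht
    rw [even_iff_two_dvd, ← this]
    exact orderOf_dvd_natCard _
  · intro g hg
    by_contra hne
    rw [Nat.not_odd_iff_even] at hne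
    obtain ⟨u', hu'⟩ := exists_prime_orderOf_dvd_card'
      (G := ↥(fixStab H t ⊓ (fixStab H t).map (MulAut.conj g).toMonoidHom)) 2 hne.two_dvd
    obtain ⟨u, hu1, hu2⟩ := u'
    have hu : orderOf u = 2 := by
      rw [← hu', ← Subgroup.orderOf_coe]
    obtain ⟨v, hv, hvu⟩ := hu2
    have hvu' : g * v * g⁻¹ = u := hvu
    have hv2 : orderOf v = 2 := by
      apply orderOf_eq_two
      · have h1 : u * u = 1 := mul_self_of_orderOf hu
        rw [← hvu'] at h1
        have h2 : g * (v * v) * g⁻¹ = 1 := by
          rw [← h1]; group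
        have h3 : v * v = g⁻¹ * (g * (v * v) * g⁻¹) * g := by group
        rw [h3, h2]; group
      · rintro rfl
        apply ne_one_of_orderOf hu
        rw [← hvu']; group
    apply hg
    intro x
    have h1 := fix_eq hb hone ht hv2 hv x
    have h2 := fix_eq hb hone ht hu hu1 (g • x)
    rw [← h1, ← h2, ← hvu', mul_smul, mul_smul, inv_smul_smul]
    constructor
    · intro h; rw [h]
    · intro h; exact smul_left_cancel g h

end Cfsg.Agent.H896
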