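import Cfsg.Agent.H896.SzEven

/-!
# Binary actions of `SL₂(2^a)` with point stabilisers of even order (helper896)
-/

set_option autoImplicit false
set_option linter.unusedSectionVars false

namespace Cfsg.Agent.H896

open Matrix Cfsg.Agent.LieRecognition.RankOneAbstract

namespace SLTwo

variable {F : Type*} [Field F]

/-- unipotent elements -/
def u (b : F) : Matrix.SpecialLinearGroup (Fin 2) F :=
  ⟨!![1, b; 0, 1], by simp [Matrix.det_fin_two]⟩

/-- diagonal elements -/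
def d (k : Fˣ) : Matrix.SpecialLinearGroup (Fin 2) F :=
  ⟨!![(k : F), 0; 0, ((k⁻¹ : Fˣ) : F)], by simp [Matrix.det_fin_two]⟩

variable [CharP F 2]

/-- the Weyl element -/
def w : Matrix.SpecialLinearGroup (Fin 2) F :=
  ⟨!![0, 1; 1, 0], by simp [Matrix.det_fin_two, CharTwo.neg_eq]⟩

omit [CharP F 2] in
theorem u_mul (b c : F) : u b * u c = u (b + c) := by
  apply Subtype.ext
  show (!![1, b; 0, 1] : Matrix (Fin 2) (Fin 2) F) * !![1, c; 0, 1] = !![1, b + c; 0, 1]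
  ext i j
  fin_cases i <;> fin_cases j <;> simp [Matrix.mul_apply, Fin.sum_univ_two, add_comm]

omit [CharP F 2] in
theorem u_zero : u (0 : F) = 1 := by
  apply Subtype.ext
  ext i j
  fin_cases i <;> fin_cases j <;> simp [u]

omit [CharP F 2] in
theorem d_mul (k l : Fˣ) : d k * d l = d (k * l) := by
  apply Subtype.ext
  show (!![(k : F), 0; 0, ((k⁻¹ : Fˣ) : F)] : Matrix (Fin 2) (Fin 2) F) *
    !![(l : F), 0; 0, ((l⁻¹ : Fˣ) : F)] = !![((k * l : Fˣ) : F), 0; 0, (((k * l)⁻¹ : Fˣ) : F)]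
  ext i j
  fin_cases i <;> fin_cases j <;> simp [Matrix.mul_apply, Fin.sum_univ_two, mul_comm]

omit [CharP F 2] in
theorem d_one : d (1 : Fˣ) = 1 := by
  apply Subtype.ext
  ext i j
  fin_cases i <;> fin_cases j <;> simp [d]

omit [CharP F 2] in
theorem d_inv (k : Fˣ) : (d k)⁻¹ = d k⁻¹ := by
  apply inv_eq_of_mul_eq_one_right
  rw [d_mul, mul_inv_cancel, d_one]

omit [CharP F 2] in
theorem d_mul_u (k : Fˣ) (b : F) : d k * u b = u ((k : F) ^ 2 * b) * d k := by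
  apply Subtype.ext
  show (!![(k : F), 0; 0, ((k⁻¹ : Fˣ) : F)] : Matrix (Fin 2) (Fin 2) F) * !![1, b; 0, 1] =
    !![1, (k : F) ^ 2 * b; 0, 1] * !![(k : F), 0; 0, ((k⁻¹ : Fˣ) : F)]
  have hk : (k : F) ≠ 0 := k.ne_zero
  ext i j
  fin_cases i <;> fin_cases j <;> simp [Matrix.mul_apply, Fin.sum_univ_two]
  field_simp

theorem w_mul_w : (w : Matrix.SpecialLinearGroup (Fin 2) F) * w = 1 := by
  apply Subtype.ext
  show (!![0, 1; 1, 0] : Matrix (Fin 2) (Fin 2) F) * !![0, 1; 1, 0] = 1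
  ext i j
  fin_cases i <;> fin_cases j <;> simp [Matrix.mul_apply, Fin.sum_univ_two]

theorem w_inv : (w : Matrix.SpecialLinearGroup (Fin 2) F)⁻¹ = w := inv_eq_of_mul_eq_one_right w_mul_w

theorem w_mul_d (k : Fˣ) : w * d k = d k⁻¹ * w := by
  apply Subtype.ext
  show (!![0, 1; 1, 0] : Matrix (Fin 2) (Fin 2) F) * !![(k : F), 0; 0, ((k⁻¹ : Fˣ) : F)] =
    !![((k⁻¹ : Fˣ) : F), 0; 0, ((k⁻¹⁻¹ : Fˣ) : F)] * !![0, 1; 1, 0]
  ext i j
  fin_cases i <;> fin_cases j <;> simp [Matrix.mul_apply, Fin.sum_univ_two]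

omit [CharP F 2] in
/-- the Borel subgroup -/
def B (F : Type*) [Field F] : Subgroup (Matrix.SpecialLinearGroup (Fin 2) F) where
  carrier := {g | g.1 1 0 = 0}
  mul_mem' := by
    intro a b ha hb
    have ha : a.1 1 0 = 0 := ha
    have hb : b.1 1 0 = 0 := hb
    show (a.1 * b.1) 1 0 = 0
    rw [Matrix.mul_apply, Fin.sum_univ_two, ha, hb]
    ring
  one_mem' := by
    show (1 : Matrix (Fin 2) (Fin 2) F) 1 0 = 0
    simp
  inv_mem' := by
    intro a ha
    have ha : a.1 1 0 = 0 := ha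
    show (a⁻¹).1 1 0 = 0
    rw [Matrix.SpecialLinearGroup.SL2_inv_expl]
    simp [ha]

omit [CharP F 2] in
theorem mem_B {g : Matrix.SpecialLinearGroup (Fin 2) F} : g ∈ B F ↔ g.1 1 0 = 0 := Iff.rfl

omit [CharP F 2] in
theorem mem_B_iff {g : Matrix.SpecialLinearGroup (Fin 2) F} : g ∈ B F ↔ ∃ b k, g = u b * d k := by
  constructor
  · intro h
    rw [mem_B] at h
    have hdet := g.2
    rw [Matrix.det_fin_two, h, mul_zero, sub_zero] at hdet
    have h0 : g.1 0 0 ≠ 0 := by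
      intro h1
      rw [h1, zero_mul] at hdet
      exact zero_ne_one hdet
    refine ⟨g.1 0 1 * g.1 0 0, Units.mk0 _ h0, ?_⟩
    apply Subtype.ext
    show g.1 = !![1, g.1 0 1 * g.1 0 0; 0, 1] *
      !![((Units.mk0 _ h0 : Fˣ) : F), 0; 0, (((Units.mk0 _ h0)⁻¹ : Fˣ) : F)]
    ext i j
    fin_cases i <;> fin_cases j <;> simp [Matrix.mul_apply, Fin.sum_univ_two, h]
    · field_simp
    · field_simp
      linear_combination hdet
  · rintro ⟨b, k, rfl⟩
    rw [mem_B]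
    show ((!![1, b; 0, 1] : Matrix (Fin 2) (Fin 2) F) * !![(k : F), 0; 0, ((k⁻¹ : Fˣ) : F)]) 1 0 = 0
    simp [Matrix.mul_apply, Fin.sum_univ_two]

omit [CharP F 2] in
/-- the unipotent subgroup -/
def U (F : Type*) [Field F] : Subgroup (Matrix.SpecialLinearGroup (Fin 2) F) where
  carrier := {g | ∃ b, g = u b}
  mul_mem' := by
    rintro _ _ ⟨b, rfl⟩ ⟨c, rfl⟩
    exact ⟨_, u_mul b c⟩
  one_mem' := ⟨0, u_zero.symm⟩
  inv_mem' := by
    rintro _ ⟨b, rfl⟩
    refine ⟨-b, inv_eq_of_mul_eq_one_right ?_⟩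
    rw [u_mul, add_neg_cancel, u_zero]

omit [CharP F 2] in
theorem u_mem (b : F) : u b ∈ U F := ⟨b, rfl⟩

omit [CharP F 2] in
theorem u_inj {b c : F} (h : u b = u c) : b = c := by
  have h1 : (u b).1 0 1 = (u c).1 0 1 := by rw [h]
  simpa [u] using h1

omit [CharP F 2] in
theorem u_mul_d_inj {b c : F} {k l : Fˣ} (h : u b * d k = u c * d l) : b = c ∧ k = l := by
  have h2 : (u b * d k).1 0 0 = (u c * d l).1 0 0 := by rw [h]
  have h3 : k = l := by
    apply Units.ext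
    have e : ∀ (b : F) (k : Fˣ), (u b * d k).1 0 0 = k := by
      intro b k
      show ((!![1, b; 0, 1] : Matrix (Fin 2) (Fin 2) F) * !![(k : F), 0; 0, ((k⁻¹ : Fˣ) : F)]) 0 0 = k
      simp [Matrix.mul_apply, Fin.sum_univ_two]
    rwa [e, e] at h2
  refine ⟨?_, h3⟩
  rw [h3] at h
  exact u_inj (mul_right_cancel h)

omit [CharP F 2] in
theorem U_le_B : U F ≤ B F := by
  rintro _ ⟨b, rfl⟩
  exact mem_B_iff.2 ⟨b, 1, by rw [d_one, mul_one]⟩

omit [CharP F 2] in
theorem conj_U {h : Matrix.SpecialLinearGroup (Fin 2) F} (hh : h ∈ B F) (c : F) :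
    ∃ k : Fˣ, h * u c * h⁻¹ = u ((k : F) ^ 2 * c) := by
  obtain ⟨b, k, rfl⟩ := mem_B_iff.1 hh
  refine ⟨k, ?_⟩
  have : u b * d k * u c * (u b * d k)⁻¹ = u b * (d k * u c) * (d k)⁻¹ * (u b)⁻¹ := by group
  rw [this, d_mul_u]
  have : u b * (u ((k : F) ^ 2 * c) * d k) * (d k)⁻¹ * (u b)⁻¹ = u b * u ((k : F) ^ 2 * c) * (u b)⁻¹ := by
    group
  rw [this, u_mul, mul_inv_eq_iff_eq_mul, u_mul, add_comm]

theorem inter {b : F} (h : w⁻¹ * u b * w ∈ B F) : b = 0 := by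
  rw [w_inv, mem_B] at h
  have h : ((!![0, 1; 1, 0] : Matrix (Fin 2) (Fin 2) F) * (!![1, b; 0, 1] : Matrix (Fin 2) (Fin 2) F) *
    (!![0, 1; 1, 0] : Matrix (Fin 2) (Fin 2) F)) 1 0 = 0 := h
  simpa [Matrix.mul_apply, Fin.sum_univ_two] using h

theorem w_not_mem : (w : Matrix.SpecialLinearGroup (Fin 2) F) ∉ B F := by
  intro h
  rw [mem_B] at h
  have h : (!![0, 1; 1, 0] : Matrix (Fin 2) (Fin 2) F) 1 0 = 0 := h
  simp at h

theorem data : Data (B F) (U F) w where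
  w_not_mem := w_not_mem
  le := U_le_B
  norm := by
    rintro h hh _ ⟨c, rfl⟩
    obtain ⟨k, hk⟩ := conj_U hh c
    rw [hk]
    exact u_mem _
  bruhat := by
    intro g hg
    rw [mem_B] at hg
    refine ⟨u (g.1 0 0 / g.1 1 0), u_mem _, ?_⟩
    have e : (u (g.1 0 0 / g.1 1 0) * w)⁻¹ * g = w * u (-(g.1 0 0 / g.1 1 0)) * g := by
      have h1 : (u (g.1 0 0 / g.1 1 0))⁻¹ = u (-(g.1 0 0 / g.1 1 0)) := by
        apply inv_eq_of_mul_eq_one_right
        rw [u_mul, add_neg_cancel, u_zero]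
      rw [_root_.mul_inv_rev, w_inv, h1]
    rw [e, mem_B]
    show ((!![0, 1; 1, 0] : Matrix (Fin 2) (Fin 2) F) *
      (!![1, -(g.1 0 0 / g.1 1 0); 0, 1] : Matrix (Fin 2) (Fin 2) F) * g.1) 1 0 = 0
    simp [Matrix.mul_apply, Fin.sum_univ_two]
    field_simp
    ring
  inter := by
    rintro _ ⟨b, rfl⟩ h
    rw [inter h, u_zero]

theorem w_conj_d (k : Fˣ) : w⁻¹ * d k * w = d k⁻¹ := by
  rw [w_inv, w_mul_d, mul_assoc, w_mul_w, mul_one]

theorem torus_form {t : Matrix.SpecialLinearGroup (Fin 2) F} (ht : t ∈ B F) (htw : w⁻¹ * t * w ∈ B F) :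
    ∃ k, t = d k := by
  obtain ⟨b, k, rfl⟩ := mem_B_iff.1 ht
  have e : w⁻¹ * (u b * d k) * w = (w⁻¹ * u b * w) * (w⁻¹ * d k * w) := by group
  rw [e, w_conj_d] at htw
  have h1 := (B F).mul_mem htw ((B F).inv_mem (mem_B_iff.2 ⟨0, k⁻¹, by rw [u_zero, one_mul]⟩ : d k⁻¹ ∈ B F))
  rw [mul_inv_cancel_right] at h1
  exact ⟨k, by rw [inter h1, u_zero, one_mul]⟩

theorem d_mem_B (k : Fˣ) : d k ∈ B F := mem_B_iff.2 ⟨0, k, by rw [u_zero, one_mul]⟩

theorem pow_form (b : F) (k : Fˣ) (m : ℕ) : ∃ c, (u b * d k) ^ m = u c * d (k ^ m) := by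
  induction m with
  | zero => exact ⟨0, by rw [pow_zero, pow_zero, u_zero, d_one, one_mul]⟩
  | succ m ih =>
    obtain ⟨c, h⟩ := ih
    refine ⟨c + ((k ^ m : Fˣ) : F) ^ 2 * b, ?_⟩
    rw [pow_succ (u b * d k) m, h, ← u_mul, pow_succ k m, ← d_mul]
    have := d_mul_u (k ^ m) b
    calc u c * d (k ^ m) * (u b * d k) = u c * (d (k ^ m) * u b) * d k := by group
      _ = _ := by rw [this]; group

theorem sq_inj {x y : F} (h : x ^ 2 = y ^ 2) : x = y := by
  have : (x + y) ^ 2 = 0 := by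
    linear_combination h + (x * y) * (CharTwo.two_eq_zero (R := F)) + y ^ 2 * (CharTwo.two_eq_zero (R := F))
  exact CharTwo.add_eq_zero.1 (pow_eq_zero_iff two_ne_zero |>.1 this)

theorem frame [Finite F] : Frame (B F) (U F) (U F) w where
  data := data
  ww := w_mul_w
  ZU := le_rfl
  Zn := fun b hb z hz => (data (F := F)).norm b hb z hz
  inv := by
    rintro _ ⟨b, rfl⟩
    rw [u_mul, CharTwo.add_self_eq_zero, u_zero]
  inv' := fun x hx _ => hx
  two := by
    intro x hx m hm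
    obtain ⟨b, k, rfl⟩ := mem_B_iff.1 hx
    obtain ⟨c, h⟩ := pow_form b k (2 ^ m)
    have hm' : u c * d (k ^ 2 ^ m) = u 0 * d 1 := by
      rw [← h, hm, u_zero, d_one, one_mul]
    have h2 := (u_mul_d_inj hm').2
    have h3 : k ^ Nat.card Fˣ = 1 := pow_card_eq_one'
    have hodd : Odd (Nat.card Fˣ) := by
      rw [Nat.card_units]
      let _ : Fintype F := Fintype.ofFinite F
      obtain ⟨n, -, hn⟩ := FiniteField.card F 2
      rw [Nat.card_eq_fintype_card, hn]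
      exact Nat.Even.sub_odd (Nat.one_le_pow _ _ (by norm_num)) (Nat.even_pow.mpr ⟨even_two, n.ne_zero⟩)
        odd_one
    have h5 : k = 1 := by
      rw [← orderOf_eq_one_iff, ← Nat.dvd_one]
      have hc : Nat.Coprime (2 ^ m) (Nat.card Fˣ) :=
        Nat.Coprime.pow_left m (Nat.coprime_two_left.2 hodd)
      rw [← Nat.Coprime.gcd_eq_one hc]
      exact Nat.dvd_gcd (orderOf_dvd_of_pow_eq_one h2) (orderOf_dvd_of_pow_eq_one h3)
    rw [h5, d_one, mul_one]
    exact u_mem b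
  twoU := by
    rintro ⟨_, b, rfl⟩
    refine ⟨1, Subtype.ext ?_⟩
    show u b ^ (2 ^ 1) = 1
    rw [pow_one, pow_two, u_mul, CharTwo.add_self_eq_zero, u_zero]
  Tw := by
    intro t ht htw
    obtain ⟨k, rfl⟩ := torus_form ht htw
    rw [w_conj_d, ← d_inv]
    exact Subgroup.inv_mem _ (Subgroup.mem_zpowers _)
  TZ := by
    rintro t ht htw _ ⟨b, rfl⟩ hb1 h _ ⟨c, rfl⟩
    obtain ⟨k, rfl⟩ := torus_form ht htw
    rw [d_mul_u] at h
    have h2 := u_inj (mul_right_cancel h)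
    have hb : b ≠ 0 := by
      rintro rfl
      exact hb1 u_zero
    have h3 : (k : F) ^ 2 = 1 := by
      apply mul_right_cancel₀ hb
      rw [h2, one_mul]
    rw [d_mul_u, h3, one_mul]

theorem U_ne_bot : U F ≠ ⊥ := by
  intro h
  have h1 : u (1 : F) ∈ U F := u_mem 1
  rw [h, Subgroup.mem_bot, ← u_zero] at h1
  exact one_ne_zero (u_inj h1)

theorem two_top {H : Subgroup (Matrix.SpecialLinearGroup (Fin 2) F)} (hZ : U F ≤ H)
    (hZw : ∀ z ∈ U F, w * z * w ∈ H) : H = ⊤ := by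
  have key : ∀ k : Fˣ, d k * w = u (k : F) * (w * u ((k⁻¹ : Fˣ) : F) * w) * u (k : F) := by
    intro k
    apply Subtype.ext
    show (!![(k : F), 0; 0, ((k⁻¹ : Fˣ) : F)] : Matrix (Fin 2) (Fin 2) F) * !![0, 1; 1, 0] =
      !![1, (k : F); 0, 1] * (!![0, 1; 1, 0] * !![1, ((k⁻¹ : Fˣ) : F); 0, 1] * !![0, 1; 1, 0]) *
        !![1, (k : F); 0, 1]
    have hk : (k : F) ≠ 0 := k.ne_zero
    ext i j
    fin_cases i <;> fin_cases j <;>
      simp [Matrix.mul_apply, Fin.sum_univ_two, CharTwo.add_self_eq_zero, hk]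
  have hdw : ∀ k : Fˣ, d k * w ∈ H := by
    intro k
    rw [key]
    exact H.mul_mem (H.mul_mem (hZ (u_mem _)) (hZw _ (u_mem _))) (hZ (u_mem _))
  have hw : w ∈ H := by
    have := hdw 1
    rwa [d_one, one_mul] at this
  have hd : ∀ k, d k ∈ H := by
    intro k
    have := H.mul_mem (hdw k) hw
    rwa [mul_assoc, w_mul_w, mul_one] at this
  rw [eq_top_iff]
  intro g _
  have hB : ∀ g ∈ B F, g ∈ H := by
    intro g hg
    obtain ⟨b, k, rfl⟩ := mem_B_iff.mp hg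
    exact H.mul_mem (hZ (u_mem _)) (hd k)
  by_cases hg : g ∈ B F
  · exact hB g hg
  · obtain ⟨s, hs, h⟩ := (data (F := F)).bruhat g hg
    have h1 := H.mul_mem (H.mul_mem (hZ hs) hw) (hB _ h)
    rwa [mul_inv_cancel_left] at h1

theorem one_class [Finite F] : ∀ s t : Matrix.SpecialLinearGroup (Fin 2) F,
    orderOf s = 2 → orderOf t = 2 → IsConj s t := by
  apply frame.one_class U_ne_bot
  rintro _ ⟨b, rfl⟩ _ ⟨c, rfl⟩ h1 h2
  have hb : b ≠ 0 := by
    rintro rfl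
    exact h1 u_zero
  have hc : c ≠ 0 := by
    rintro rfl
    exact h2 u_zero
  have hs : Function.Surjective (fun x : F => x ^ 2) :=
    Finite.surjective_of_injective (fun x y h => sq_inj h)
  obtain ⟨k, hk⟩ := hs (c / b)
  have hk : k ^ 2 = c / b := hk
  have hk0 : k ≠ 0 := by
    rintro rfl
    rw [zero_pow two_ne_zero] at hk
    exact div_ne_zero hc hb hk.symm
  refine isConj_iff.2 ⟨d (Units.mk0 k hk0), ?_⟩
  rw [mul_inv_eq_iff_eq_mul, d_mul_u, Units.val_mk0, hk]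
  have : c / b * b = c := by field_simp
  rw [this]

theorem binary_iff [Finite F] {H : Subgroup (Matrix.SpecialLinearGroup (Fin 2) F)} (hH : H ≠ ⊤)
    (heven : Even (Nat.card H)) :
    Binary H ↔ ∃ P : Sylow 2 (Matrix.SpecialLinearGroup (Fin 2) F), H = P := by
  have hf := frame (F := F)
  have key : (∃ P : Sylow 2 (Matrix.SpecialLinearGroup (Fin 2) F), H = P) ↔ ∃ g, H = cj g (U F) := by
    constructor
    · rintro ⟨P, rfl⟩
      exact hf.sylow_conj U_ne_bot P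
    · rintro ⟨g, rfl⟩
      obtain ⟨P, hP⟩ := hf.exists_sylow_cj U_ne_bot g
      exact ⟨P, hP.symm⟩
  rw [key]
  constructor
  · intro hb
    exact hf.eq_cj U_ne_bot hb one_class heven hH
      (fun K hb hZ hKU => le_antisymm hKU hZ)
      (fun K hb hZ hHB k hk hk1 hkw hkZ => by
        obtain ⟨l, rfl⟩ := torus_form (hHB hk) hkw
        have h1 := hkZ (u 1) (u_mem 1)
        rw [d_mul_u] at h1
        have h2 := u_inj (mul_right_cancel h1)
        rw [mul_one] at h2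
        apply hk1
        have h3 : l = 1 := by
          apply Units.ext
          apply sq_inj
          rw [h2, Units.val_one, one_pow]
        rw [h3, d_one])
      (fun K hb hK hZ hZw => hK (two_top hZ hZw))
  · rintro ⟨g, rfl⟩
    exact hf.binary_cj_Z g

end SLTwo

/-- **Binary actions of groups isomorphic to `SL₂(2^a)`, subgroups of even order.** -/
theorem sl_binary_iff {G : Type*} [Group G] [Finite G] {F : Type*} [Field F] [Finite F] [CharP F 2]
    (e : Nonempty (G ≃* Matrix.SpecialLinearGroup (Fin 2) F))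
    {H : Subgroup G} (hH : H ≠ ⊤) (heven : Even (Nat.card H)) :
    Binary H ↔ ∃ P : Sylow 2 G, H = P := by
  obtain ⟨e⟩ := e
  rw [← sylow_congr e, ← binary_congr e]
  apply SLTwo.binary_iff
  · exact map_ne_top e hH
  · rwa [card_map_equiv]

end Cfsg.Agent.H896
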