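import Cfsg.Agent.H896.PSUMain
import Cfsg.Agent.H896.SLTwo

/-!
# `PSL₂(2^a)` is `SL₂(2^a)` (helper896)
-/

set_option autoImplicit false

namespace Cfsg.Agent.H896

open Matrix

section

variable {F : Type*} [Field F] [CharP F 2]

theorem center_sl_two : Subgroup.center (Matrix.SpecialLinearGroup (Fin 2) F) = ⊥ := by
  rw [eq_bot_iff]
  intro A hA
  rw [Matrix.SpecialLinearGroup.mem_center_iff] at hA
  obtain ⟨r, hr, h⟩ := hA
  have h1 : r = 1 := by
    apply SLTwo.sq_inj
    rw [one_pow]
    simpa using hr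
  rw [Subgroup.mem_bot]
  apply Subtype.ext
  rw [← h, h1]
  simp

/-- `PSL₂(2^a)` is `SL₂(2^a)` -/
noncomputable def pslEquiv :
    Matrix.ProjectiveSpecialLinearGroup (Fin 2) F ≃* Matrix.SpecialLinearGroup (Fin 2) F :=
  (QuotientGroup.quotientMulEquivOfEq center_sl_two).trans QuotientGroup.quotientBot

end

theorem charP_two_of_card_pow {F : Type*} [Field F] [Fintype F] {a : ℕ} (hF : Fintype.card F = 2 ^ a) :
    CharP F 2 := by
  have h1 : ((Fintype.card F : ℕ) : F) = 0 := FiniteField.cast_card_eq_zero F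
  rw [hF] at h1
  push_cast at h1
  have h2 : (2 : F) = 0 := by
    by_contra h
    exact pow_ne_zero a h h1
  exact CharTwo.of_one_ne_zero_of_two_eq_zero one_ne_zero h2

end Cfsg.Agent.H896
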