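import Cfsg.Agent.H896.Embed
import Cfsg.Agent.LieRecognition.RankOneAbstract

/-!
# Binary actions of rank one groups in characteristic two: common part (helper896)

`Frame B U Z w` : rank one Bruhat data `B, U, w` with the subgroup `Z` of `U` of all elements of square one.
-/

set_option autoImplicit false

namespace Cfsg.Agent.H896

open MulAction Cfsg.Agent.LieRecognition.RankOneAbstract

section Transport

variable {G G' : Type*} [Group G] [Group G']

theorem binary_iff_rep {H : Subgroup G} : Binary H ↔ ∀ (n : ℕ) (a b : Fin n → G), 2 ≤ n →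
    (∀ i j, i ≠ j → ∃ g : G, (b i)⁻¹ * (g * a i) ∈ H ∧ (b j)⁻¹ * (g * a j) ∈ H) →
    ∃ g : G, ∀ i, (b i)⁻¹ * (g * a i) ∈ H := by
  constructor
  · intro hb n a b hn h
    obtain ⟨g, hg⟩ := hb n (fun i => QuotientGroup.mk (a i)) (fun i => QuotientGroup.mk (b i)) hn
      (fun i j hij => by
        obtain ⟨g, h1, h2⟩ := h i j hij
        exact ⟨g, (smul_mk_eq _ _ _).2 h1, (smul_mk_eq _ _ _).2 h2⟩)
    exact ⟨g, fun i => (smul_mk_eq _ _ _).1 (hg i)⟩
  · intro h n I J hn hIJ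
    choose a ha using fun i => QuotientGroup.mk_surjective (I i)
    choose b hb using fun i => QuotientGroup.mk_surjective (J i)
    obtain ⟨g, hg⟩ := h n a b hn (fun i j hij => by
      obtain ⟨g, h1, h2⟩ := hIJ i j hij
      rw [← ha, ← hb] at h1 h2
      exact ⟨g, (smul_mk_eq _ _ _).1 h1, (smul_mk_eq _ _ _).1 h2⟩)
    refine ⟨g, fun i => ?_⟩
    rw [← ha, ← hb]
    exact (smul_mk_eq _ _ _).2 (hg i)

theorem binary_comap (π : G →* G') (hπ : Function.Surjective π) (H : Subgroup G') :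
    Binary (H.comap π) ↔ Binary H := by
  rw [binary_iff_rep, binary_iff_rep]
  constructor
  · intro h n a b hn hab
    choose a' ha using fun i => hπ (a i)
    choose b' hb using fun i => hπ (b i)
    obtain ⟨g, hg⟩ := h n a' b' hn (fun i j hij => by
      obtain ⟨g, h1, h2⟩ := hab i j hij
      obtain ⟨g', rfl⟩ := hπ g
      refine ⟨g', ?_, ?_⟩
      · rw [Subgroup.mem_comap, map_mul, map_mul, map_inv, ha, hb]; exact h1
      · rw [Subgroup.mem_comap, map_mul, map_mul, map_inv, ha, hb]; exact h2)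
    refine ⟨π g, fun i => ?_⟩
    have := hg i
    rwa [Subgroup.mem_comap, map_mul, map_mul, map_inv, ha, hb] at this
  · intro h n a b hn hab
    obtain ⟨g, hg⟩ := h n (π ∘ a) (π ∘ b) hn (fun i j hij => by
      obtain ⟨g, h1, h2⟩ := hab i j hij
      rw [Subgroup.mem_comap, map_mul, map_mul, map_inv] at h1 h2
      exact ⟨π g, h1, h2⟩)
    obtain ⟨g', rfl⟩ := hπ g
    refine ⟨g', fun i => ?_⟩
    rw [Subgroup.mem_comap, map_mul, map_mul, map_inv]
    exact hg i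

theorem binary_congr (e : G ≃* G') (H : Subgroup G) : Binary (H.map e.toMonoidHom) ↔ Binary H := by
  have h : H.map e.toMonoidHom = H.comap e.symm.toMonoidHom := by
    ext x
    constructor
    · rintro ⟨y, hy, rfl⟩
      show e.symm (e y) ∈ H
      rwa [e.symm_apply_apply]
    · intro hx
      exact ⟨e.symm x, hx, e.apply_symm_apply x⟩
  rw [h]
  exact binary_comap e.symm.toMonoidHom e.symm.surjective H

/-- the conjugate subgroup `g H g⁻¹` -/
def cj (g : G) (H : Subgroup G) : Subgroup G := H.map (MulAut.conj g).toMonoidHom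

theorem mem_cj {g x : G} {H : Subgroup G} : x ∈ cj g H ↔ g⁻¹ * x * g ∈ H := by
  constructor
  · rintro ⟨y, hy, rfl⟩
    have : g⁻¹ * (MulAut.conj g).toMonoidHom y * g = y := by
      show g⁻¹ * (g * y * g⁻¹) * g = y
      group
    rw [this]; exact hy
  · intro h
    refine ⟨_, h, ?_⟩
    show g * (g⁻¹ * x * g) * g⁻¹ = x
    group

theorem binary_cj {g : G} {H : Subgroup G} : Binary (cj g H) ↔ Binary H := binary_congr _ _

theorem cj_cj (a b : G) (H : Subgroup G) : cj a (cj b H) = cj (a * b) H := by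
  ext x
  rw [mem_cj, mem_cj, mem_cj]
  have : b⁻¹ * (a⁻¹ * x * a) * b = (a * b)⁻¹ * x * (a * b) := by group
  rw [this]

theorem cj_one (H : Subgroup G) : cj 1 H = H := by
  ext x
  rw [mem_cj]
  simp

end Transport

variable {G : Type*} [Group G]

/-- **exponent two, centraliser condition** -/
theorem binary_of_cent {Z : Subgroup G} (hinv : ∀ x ∈ Z, x * x = 1)
    (hcent : ∀ x ∈ Z, x ≠ 1 → ∀ y, y * y = 1 → y * x = x * y → y ∈ Z) : Binary Z := by
  have hcomm : ∀ p q : G, p * p = 1 → q * q = 1 → (p * q) * (p * q) = 1 → p * q = q * p := by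
    intro p q hp hq hpq
    have h1 : (p * q)⁻¹ = p * q := inv_eq_of_mul_eq_one_right hpq
    have h2 : p⁻¹ = p := inv_eq_of_mul_eq_one_right hp
    have h3 : q⁻¹ = q := inv_eq_of_mul_eq_one_right hq
    rw [← h1, mul_inv_rev, h2, h3]
  apply binary_of_ti
  · intro g x hx hx1 hgx y hy
    have hxy : y * x = x * y := hcomm _ _ (hinv y hy) (hinv x hx) (hinv _ (Z.mul_mem hy hx))
    apply hcent _ hgx
    · intro h
      apply hx1
      have : x = g * (g⁻¹ * x * g) * g⁻¹ := by group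
      rw [this, h]; group
    · have : g⁻¹ * y * g * (g⁻¹ * y * g) = g⁻¹ * (y * y) * g := by group
      rw [this, hinv y hy]; group
    · have : g⁻¹ * y * g * (g⁻¹ * x * g) = g⁻¹ * (y * x) * g := by group
      rw [this, hxy]; group
  · intro a b c p q r hp hq hr hp1 hq1 hr1 hqpr
    have sq : ∀ a p : G, a⁻¹ * p * a ∈ Z → p * p = 1 := by
      intro a p hp
      have h1 := hinv _ hp
      have : p * p = a * (a⁻¹ * p * a * (a⁻¹ * p * a)) * a⁻¹ := by group
      rw [this, h1]; group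
    have hpp := sq _ _ hp
    have hqq := sq _ _ hq
    have hrr := sq _ _ hr
    have hpr : p * r = r * p := hcomm p r hpp hrr (by rw [← hqpr]; exact hqq)
    apply hcent _ hq
    · intro h
      apply hq1
      have : q = b * (b⁻¹ * q * b) * b⁻¹ := by group
      rw [this, h]; group
    · have : b⁻¹ * p * b * (b⁻¹ * p * b) = b⁻¹ * (p * p) * b := by group
      rw [this, hpp]; group
    · have e1 : b⁻¹ * p * b * (b⁻¹ * q * b) = b⁻¹ * (p * q) * b := by group
      have e2 : b⁻¹ * q * b * (b⁻¹ * p * b) = b⁻¹ * (q * p) * b := by group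
      rw [e1, e2]
      have : p * q = q * p := by
        rw [hqpr, mul_assoc, ← hpr]
      rw [this]

/-- rank one Bruhat data in characteristic two; `Z` is the set of elements of `U` of square one. -/
structure Frame (B U Z : Subgroup G) (w : G) : Prop where
  data : Data B U w
  ww : w * w = 1
  ZU : Z ≤ U
  Zn : ∀ b ∈ B, ∀ z ∈ Z, b * z * b⁻¹ ∈ Z
  inv : ∀ x ∈ Z, x * x = 1
  inv' : ∀ x ∈ U, x * x = 1 → x ∈ Z
  two : ∀ x ∈ B, ∀ n : ℕ, x ^ (2 ^ n) = 1 → x ∈ U
  twoU : IsPGroup 2 U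
  Tw : ∀ t ∈ B, w⁻¹ * t * w ∈ B → w⁻¹ * t * w ∈ Subgroup.zpowers t
  TZ : ∀ t ∈ B, w⁻¹ * t * w ∈ B → ∀ z ∈ Z, z ≠ 1 → t * z = z * t → ∀ z' ∈ Z, t * z' = z' * t

namespace Frame

variable {B U Z : Subgroup G} {w : G}

theorem winv (F : Frame B U Z w) : w⁻¹ = w := inv_eq_of_mul_eq_one_right F.ww

/-- an element commuting with a nontrivial element of `U` lies in `B` -/
theorem mem_B_of_conj (F : Frame B U Z w) {x g : G} (hx : x ∈ U) (hx1 : x ≠ 1)
    (h : g⁻¹ * x * g ∈ B) : g ∈ B := by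
  by_contra hg
  obtain ⟨s, hs, hsg⟩ := F.data.bruhat g hg
  -- `g = s w b`
  set b := (s * w)⁻¹ * g with hb
  have hg' : g = s * w * b := by rw [hb]; group
  have h1 : w⁻¹ * (s⁻¹ * x * s) * w ∈ B := by
    have : w⁻¹ * (s⁻¹ * x * s) * w = b * (g⁻¹ * x * g) * b⁻¹ := by
      rw [hg']; group
    rw [this]
    exact B.mul_mem (B.mul_mem hsg h) (B.inv_mem hsg)
  have h2 := F.data.inter _ (U.mul_mem (U.mul_mem (U.inv_mem hs) hx) hs) h1
  apply hx1
  have : x = s * (s⁻¹ * x * s) * s⁻¹ := by group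
  rw [this, h2]; group

theorem mem_B_of_comm (F : Frame B U Z w) {x y : G} (hx : x ∈ U) (hx1 : x ≠ 1) (h : y * x = x * y) :
    y ∈ B := by
  apply F.mem_B_of_conj hx hx1
  have : y⁻¹ * x * y = x := by
    rw [mul_assoc, ← h]; group
  rw [this]
  exact F.data.le hx

theorem cent (F : Frame B U Z w) : ∀ x ∈ Z, x ≠ 1 → ∀ y, y * y = 1 → y * x = x * y → y ∈ Z := by
  intro x hx hx1 y hy hyx
  have hyB : y ∈ B := F.mem_B_of_comm (F.ZU hx) hx1 hyx
  exact F.inv' _ (F.two _ hyB 1 (by rw [pow_one, pow_two, hy])) hy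

theorem comm (F : Frame B U Z w) {x y : G} (hx : x ∈ Z) (hy : y ∈ Z) : x * y = y * x := by
  have h1 : (x * y)⁻¹ = x * y := inv_eq_of_mul_eq_one_right (F.inv _ (Z.mul_mem hx hy))
  have h2 : x⁻¹ = x := inv_eq_of_mul_eq_one_right (F.inv _ hx)
  have h3 : y⁻¹ = y := inv_eq_of_mul_eq_one_right (F.inv _ hy)
  rw [← h1, mul_inv_rev, h2, h3]

/-- **the action on the cosets of `Z` is binary** -/
theorem binary_Z (F : Frame B U Z w) : Binary Z := binary_of_cent F.inv F.cent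

theorem Zn' (F : Frame B U Z w) {b z : G} (hb : b ∈ B) (hz : z ∈ Z) : b⁻¹ * z * b ∈ Z := by
  have := F.Zn b⁻¹ (B.inv_mem hb) z hz
  rwa [inv_inv] at this

/-- a conjugate of `Z` meeting `H` nontrivially lies in `H` -/
theorem le_of_mem [Finite G] (F : Frame B U Z w) {H : Subgroup G} (hb : Binary H)
    (hone : ∀ s t : G, orderOf s = 2 → orderOf t = 2 → IsConj s t) {x g : G} (hx : x ∈ Z)
    (hx1 : x ≠ 1) (h : g * x * g⁻¹ ∈ H) : ∀ z ∈ Z, g * z * g⁻¹ ∈ H := by
  intro z hz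
  by_cases hz1 : z = 1
  · rw [hz1]
    have : g * 1 * g⁻¹ = 1 := by group
    rw [this]; exact H.one_mem
  have := hb.conj_mem hone (g := g⁻¹) (orderOf_eq_two (F.inv x hx) hx1)
    (orderOf_eq_two (F.inv z hz) hz1) (F.comm hx hz) (by rw [inv_inv]; exact h)
  rwa [inv_inv] at this

/-- an element of odd prime order of `B` is conjugate by an element of `U` to an element of the torus -/
theorem exists_torus [Finite G] (F : Frame B U Z w) {k : G} (hk : k ∈ B) {p : ℕ}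
    (hp : p.Prime) (hp2 : p ≠ 2) (hkp : orderOf k = p) :
    ∃ s ∈ U, w⁻¹ * (s⁻¹ * k * s) * w ∈ B := by
  classical
  have : Fact p.Prime := ⟨hp⟩
  -- the action on the cosets different from `B`
  let X : Set (G ⧸ B) := {x | x ≠ QuotientGroup.mk 1}
  have hk1 : k • (QuotientGroup.mk 1 : G ⧸ B) = QuotientGroup.mk 1 := by
    rw [smul_mk_eq]; simpa using hk
  have hXk : ∀ x : G ⧸ B, x ∈ X → k • x ∈ X := by
    intro x hx h
    apply hx
    have : k • x = k • (QuotientGroup.mk 1 : G ⧸ B) := by rw [hk1]; exact h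
    exact smul_left_cancel k this
  let σ : Equiv.Perm X := Equiv.ofBijective (fun x => (⟨k • (x : G ⧸ B), hXk _ x.2⟩ : X)) (by
    rw [← Finite.injective_iff_bijective]
    intro x y hxy
    apply Subtype.ext
    exact smul_left_cancel k (congrArg Subtype.val hxy))
  have hσ : ∀ n : ℕ, ∀ x : X, (((σ ^ n) x : X) : G ⧸ B) = k ^ n • (x : G ⧸ B) := by
    intro n
    induction n with
    | zero => intro x; simp
    | succ n ih =>
      intro x
      rw [pow_succ', pow_succ', mul_smul, Equiv.Perm.mul_apply, ← ih]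
      rfl
  have hσp : σ ^ p ^ 1 = 1 := by
    ext x
    rw [hσ, pow_one, ← hkp, pow_orderOf_eq_one, one_smul]
    rfl
  have hcardX : Nat.card X = Nat.card U := by
    let f : U → X := fun s => ⟨(s : G) • (QuotientGroup.mk w : G ⧸ B), F.data.smul_w_ne s⟩
    have hf : Function.Bijective f := by
      constructor
      · intro s t hst
        exact F.data.smul_w_inj s t (congrArg Subtype.val hst)
      · rintro ⟨x, hx⟩
        obtain ⟨s, hs⟩ := F.data.exists_eq x hx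
        exact ⟨s, Subtype.ext hs⟩
    exact (Nat.card_congr (Equiv.ofBijective f hf)).symm
  have hnd : ¬ p ∣ Nat.card X := by
    rw [hcardX]
    obtain ⟨n, hn⟩ := F.twoU.exists_card_eq
    rw [hn]
    intro h
    exact hp2 ((Nat.prime_dvd_prime_iff_eq hp Nat.prime_two).1 (hp.dvd_of_dvd_pow h))
  have : Fintype X := Fintype.ofFinite X
  obtain ⟨x, hx⟩ := Equiv.Perm.exists_fixed_point_of_prime (α := X) (p := p) (n := 1)
    (by rw [← Nat.card_eq_fintype_card]; exact hnd) hσp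
  have hx' : k • (x : G ⧸ B) = x := by
    have := hσ 1 x
    rw [pow_one, pow_one] at this
    rw [← this, hx]
  obtain ⟨s, hs⟩ := F.data.exists_eq (x : G ⧸ B) x.2
  refine ⟨s, s.2, ?_⟩
  rw [← hs] at hx'
  have hs2 : (s : G) • (QuotientGroup.mk w : G ⧸ B) = QuotientGroup.mk ((s : G) * w) := rfl
  rw [hs2, smul_mk_eq] at hx'
  have : w⁻¹ * ((s : G)⁻¹ * k * s) * w = ((s : G) * w)⁻¹ * (k * (s * w)) := by group
  rw [this]; exact hx'

/-- **the torus of `H` centralises `Z`**, if `Z ≤ H ≤ B` -/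
theorem torus_comm (F : Frame B U Z w) {H : Subgroup G} (hb : Binary H) (hZ : Z ≤ H) (hHB : H ≤ B)
    {k : G} (hk : k ∈ H) (hkw : w⁻¹ * k * w ∈ B) : ∀ z ∈ Z, k * z = z * k := by
  by_contra hne
  push Not at hne
  obtain ⟨v, hv, hvk⟩ := hne
  have hkB := hHB hk
  set v' := k * v * k⁻¹ with hv'
  have hv'Z : v' ∈ Z := F.Zn k hkB v hv
  have hne' : v' ≠ v := by
    intro h
    apply hvk
    rw [hv'] at h
    exact mul_inv_eq_iff_eq_mul.1 h
  have hkw' : w⁻¹ * k * w ∈ H := by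
    have := F.Tw k hkB hkw
    exact (Subgroup.zpowers_le.2 hk) this
  obtain ⟨g, hg, hgw, h1, h2⟩ := hb.four hkw' (hZ hv) hk (F.comm hv'Z hv)
  rw [← hv'] at h1 h2
  have hgB := hHB hg
  have hgwB := hHB hgw
  -- `g` commutes with `v v'`
  have key : ∀ x y : G, x ∈ Z → y ∈ Z → (y * w)⁻¹ * g * (x * w) ∈ H → g * x * g⁻¹ = y := by
    intro x y hx hy h
    have e1 : (y * w)⁻¹ * g * (x * w) = (w⁻¹ * (y⁻¹ * (g * x * g⁻¹)) * w) * (w⁻¹ * g * w) := by group
    rw [e1] at h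
    have h3 := B.mul_mem (hHB h) (B.inv_mem hgwB)
    rw [mul_inv_cancel_right] at h3
    have h4 := F.data.inter _ (U.mul_mem (U.inv_mem (F.ZU hy)) (F.data.norm g hgB x (F.ZU hx))) h3
    exact (inv_mul_eq_one.1 h4).symm
  have k1 := key _ _ (Z.mul_mem hv hv'Z) (Z.mul_mem hv hv'Z) (by simpa [mul_assoc] using h1)
  have k2 := key _ _ hv hv'Z (by simpa [mul_assoc] using h2)
  have hvv : v * v' ≠ 1 := by
    intro h
    apply hne'
    have h3 : v⁻¹ = v := inv_eq_of_mul_eq_one_right (F.inv v hv)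
    have h4 : v' = v⁻¹ := (inv_eq_of_mul_eq_one_right h).symm
    rw [h4, h3]
  have h5 := F.TZ g hgB hgwB _ (Z.mul_mem hv hv'Z) hvv (mul_inv_eq_iff_eq_mul.1 k1) v hv
  apply hne'
  rw [← k2, h5]; group

/-- `U` is a Sylow 2-subgroup -/
theorem exists_sylow [Finite G] (F : Frame B U Z w) (hZ : Z ≠ ⊥) : ∃ P : Sylow 2 G, (P : Subgroup G) = U := by
  have : Fact (Nat.Prime 2) := ⟨Nat.prime_two⟩
  obtain ⟨P, hP⟩ := F.twoU.exists_le_sylow
  refine ⟨P, le_antisymm ?_ hP⟩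
  obtain ⟨x, hx, hx1⟩ := (Subgroup.ne_bot_iff_exists_ne_one (H := Z)).1 hZ |>.elim
    (fun x hx => (⟨(x : G), x.2, fun h => hx (Subtype.ext h)⟩ : ∃ x : G, x ∈ Z ∧ x ≠ 1))
  have hxP : x ∈ (P : Subgroup G) := hP (F.ZU hx)
  have hPn : Nontrivial P := ⟨⟨⟨x, hxP⟩, 1, fun h => hx1 (congrArg Subtype.val h)⟩⟩
  have hc := P.isPGroup'.center_nontrivial
  obtain ⟨⟨⟨z, hzP⟩, hzc⟩, hz1⟩ := exists_ne (1 : Subgroup.center P)
  have hz1' : z ≠ 1 := fun h => hz1 (Subtype.ext (Subtype.ext h))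
  have hzc' : ∀ y ∈ (P : Subgroup G), y * z = z * y := by
    intro y hy
    have := Subgroup.mem_center_iff.1 hzc ⟨y, hy⟩
    exact congrArg Subtype.val this
  have htwo : ∀ y ∈ (P : Subgroup G), y ∈ B → y ∈ U := by
    intro y hy hyB
    obtain ⟨n, hn⟩ := P.isPGroup' ⟨y, hy⟩
    exact F.two y hyB n (congrArg Subtype.val hn)
  have hzU : z ∈ U := htwo z hzP (F.mem_B_of_comm (F.ZU hx) hx1 (hzc' x hxP).symm)
  intro y hy
  exact htwo y hy (F.mem_B_of_comm hzU hz1' (hzc' y hy))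

theorem exists_conj [Finite G] (F : Frame B U Z w) (hZ : Z ≠ ⊥) {H : Subgroup G} (hb : Binary H)
    (hone : ∀ s t : G, orderOf s = 2 → orderOf t = 2 → IsConj s t) (heven : Even (Nat.card H)) :
    ∃ g : G, Z ≤ cj g H := by
  have : Fact (Nat.Prime 2) := ⟨Nat.prime_two⟩
  obtain ⟨t', ht'⟩ := exists_prime_orderOf_dvd_card' (G := H) 2 heven.two_dvd
  have htH : (t' : G) ∈ H := t'.2
  have ht : orderOf (t' : G) = 2 := by rw [Subgroup.orderOf_coe, ht']
  obtain ⟨P, hP⟩ := F.exists_sylow hZ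
  have htp : IsPGroup 2 (Subgroup.zpowers (t' : G)) := by
    rw [IsPGroup.iff_card]
    exact ⟨1, by rw [Nat.card_zpowers, ht, pow_one]⟩
  obtain ⟨Q, hQ⟩ := htp.exists_le_sylow
  obtain ⟨g, hg⟩ := MulAction.exists_smul_eq G Q P
  have hgt : g * (t' : G) * g⁻¹ ∈ U := by
    rw [← hP, ← hg]
    rw [Sylow.coe_subgroup_smul, Subgroup.mem_smul_pointwise_iff_exists]
    exact ⟨t', hQ (Subgroup.mem_zpowers _), rfl⟩
  have hgZ : g * (t' : G) * g⁻¹ ∈ Z := by
    apply F.inv' _ hgt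
    have := mul_self_of_orderOf ht
    have e : g * (t' : G) * g⁻¹ * (g * (t' : G) * g⁻¹) = g * ((t' : G) * t') * g⁻¹ := by group
    rw [e, this]; group
  refine ⟨g, fun z hz => ?_⟩
  rw [mem_cj]
  have hne : g * (t' : G) * g⁻¹ ≠ 1 := by
    intro h
    apply ne_one_of_orderOf ht
    have : (t' : G) = g⁻¹ * (g * (t' : G) * g⁻¹) * g := by group
    rw [this, h]; group
  have := F.le_of_mem hb hone hgZ hne (g := g⁻¹) (by
    have : g⁻¹ * (g * (t' : G) * g⁻¹) * g⁻¹⁻¹ = t' := by group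
    rw [this]; exact htH) z hz
  rwa [inv_inv] at this

/-- **Case A.** -/
theorem case_A [Finite G] (F : Frame B U Z w) {H : Subgroup G} (hb : Binary H) (hZ : Z ≤ H)
    (hHB : H ≤ B) : H ≤ U ∨ ∃ s ∈ U, ∃ k ∈ cj s⁻¹ H, k ≠ 1 ∧ w⁻¹ * k * w ∈ B ∧
      (∀ z ∈ Z, k * z = z * k) ∧ Z ≤ cj s⁻¹ H ∧ cj s⁻¹ H ≤ B := by
  by_contra hne
  push Not at hne
  obtain ⟨hHU, hne⟩ := hne
  obtain ⟨h, hh, hhU⟩ := SetLike.not_le_iff_exists.1 hHU
  rcases Nat.eq_two_pow_or_exists_odd_prime_and_dvd (orderOf h) with ⟨n, hn⟩ | ⟨p, hp, hpd, hpo⟩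
  · apply hhU
    apply F.two h (hHB hh) n
    rw [← hn, pow_orderOf_eq_one]
  · obtain ⟨m, hm⟩ := hpd
    have hpos := orderOf_pos h
    have hm0 : m ≠ 0 := by rintro rfl; omega
    set k := h ^ m with hk
    have hkp : orderOf k = p := by
      rw [hk, orderOf_pow_of_dvd hm0 ⟨p, by rw [hm, mul_comm]⟩, hm,
        Nat.mul_div_cancel _ (Nat.pos_of_ne_zero hm0)]
    have hkH : k ∈ H := H.pow_mem hh m
    have hp2 : p ≠ 2 := by
      rintro rfl
      exact (by decide : ¬ Odd 2) hpo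
    obtain ⟨s, hs, hsk⟩ := F.exists_torus (hHB hkH) hp hp2 hkp
    have hZ' : Z ≤ cj s⁻¹ H := by
      intro z hz
      rw [mem_cj, inv_inv]
      exact hZ (F.Zn s (F.data.le hs) z hz)
    have hB' : cj s⁻¹ H ≤ B := by
      intro x hx
      rw [mem_cj, inv_inv] at hx
      have hsB := F.data.le hs
      have h1 := B.mul_mem (B.mul_mem (B.inv_mem hsB) (hHB hx)) hsB
      have : s⁻¹ * (s * x * s⁻¹) * s = x := by group
      rwa [this] at h1
    have hk' : s⁻¹ * k * s ∈ cj s⁻¹ H := by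
      rw [mem_cj, inv_inv]
      have : s * (s⁻¹ * k * s) * s⁻¹ = k := by group
      rw [this]; exact hkH
    have hk1 : s⁻¹ * k * s ≠ 1 := by
      intro h1
      have : k = s * (s⁻¹ * k * s) * s⁻¹ := by group
      rw [h1] at this
      have h2 : k = 1 := by rw [this]; group
      rw [h2, orderOf_one] at hkp
      exact hp.one_lt.ne hkp
    have hcomm := F.torus_comm (binary_cj.2 hb) hZ' hB' hk' hsk
    exact hne s hs _ hk' hk1 hsk hcomm hZ' hB'

/-- **Case B.** -/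
theorem case_B (F : Frame B U Z w) {H : Subgroup G} (hZ : Z ≤ H) (hHB : ¬ H ≤ B) :
    ∃ s ∈ U, Z ≤ cj s⁻¹ H ∧ ∀ z ∈ Z, w * z * w ∈ cj s⁻¹ H := by
  obtain ⟨h, hh, hhB⟩ := SetLike.not_le_iff_exists.1 hHB
  obtain ⟨s, hs, hsg⟩ := F.data.bruhat h hhB
  set b := (s * w)⁻¹ * h with hb
  have hg' : h = s * w * b := by rw [hb]; group
  refine ⟨s, hs, ?_, ?_⟩
  · intro z hz
    rw [mem_cj, inv_inv]
    exact hZ (F.Zn s (F.data.le hs) z hz)
  · intro z hz
    rw [mem_cj, inv_inv]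
    have e : s * (w * z * w) * s⁻¹ = h * (b⁻¹ * z * b) * h⁻¹ := by
      rw [hg']
      have h1 : s * w * b * (b⁻¹ * z * b) * (s * w * b)⁻¹ = s * w * z * w⁻¹ * s⁻¹ := by group
      rw [h1, F.winv]; group
    rw [e]
    exact H.mul_mem (H.mul_mem hh (hZ (F.Zn' hsg hz))) (H.inv_mem hh)

/-- the involution swapping the two points -/
theorem exists_swap [Finite G] (F : Frame B U Z w) {H : Subgroup G} (hZ : Z ≤ H)
    (hZw : ∀ z ∈ Z, w * z * w ∈ H) {z z' : G} (hz : z ∈ Z) (hz1 : z ≠ 1) (hz' : z' ∈ Z)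
    (hz1' : z' ≠ 1) : ∃ t ∈ B, w⁻¹ * t * w ∈ B ∧ t * w ∈ H ∧ (t * w) * z * (t * w)⁻¹ = w * z' * w := by
  set y := w * z' * w with hy
  have hy2 : orderOf y = 2 := by
    apply orderOf_eq_two
    · have : y * y = w * (z' * (w * w) * z') * w := by rw [hy]; group
      rw [this, F.ww, mul_one, F.inv z' hz', mul_one, F.ww]
    · intro h
      apply hz1'
      have : z' = w⁻¹ * y * w⁻¹ := by rw [hy]; group
      rw [this, h, F.winv, mul_one, F.ww]
  have hz2 : orderOf z = 2 := orderOf_eq_two (F.inv z hz) hz1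
  have hyy := mul_self_of_orderOf hy2
  have hzz := mul_self_of_orderOf hz2
  have hinter : ∀ x ∈ Z, w * x * w ∈ B → x = 1 := by
    intro x hx h
    apply F.data.inter x (F.ZU hx)
    rw [F.winv]; exact h
  have hodd : ¬ Even (orderOf (z * y)) := by
    intro he
    obtain ⟨c, hc2, hc1, hcy⟩ := exists_central hz2 hy2 he
    have hcc := mul_self_of_orderOf hc2
    have hcZ : c ∈ Z := F.cent z hz hz1 c hcc hc1
    -- `c` commutes with `y`
    have h2 : w * c * w ∈ Z := by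
      apply F.cent z' hz' hz1'
      · have : w * c * w * (w * c * w) = w * (c * (w * w) * c) * w := by group
        rw [this, F.ww, mul_one, hcc, mul_one, F.ww]
      · have e1 : w * c * w * z' = w * (c * y) * w⁻¹ := by rw [hy]; group
        have e2 : z' * (w * c * w) = w⁻¹ * (y * c) * w := by
          rw [hy]
          have : w⁻¹ * (w * z' * w * c) * w = z' * (w * c * w) := by group
          rw [this]
        rw [e1, e2, hcy, F.winv]
    have := hinter c hcZ (F.data.le (F.ZU h2))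
    exact ne_one_of_orderOf hc2 this
  rw [Nat.not_even_iff_odd] at hodd
  obtain ⟨m, hm⟩ := hodd
  have hzi : z⁻¹ = z := inv_eq_of_mul_eq_one_right hzz
  have hyi : y⁻¹ = y := inv_eq_of_mul_eq_one_right hyy
  set c := z * y with hc
  have hcn : c ^ (2 * m + 1) = 1 := by rw [← hm, pow_orderOf_eq_one]
  have hzc : z * c * z⁻¹ = c⁻¹ := by
    rw [hc, mul_inv_rev, hzi, hyi, ← mul_assoc, hzz, one_mul]
  have hzcm : z * c ^ m * z⁻¹ = (c ^ m)⁻¹ := by rw [← conj_pow, hzc, inv_pow]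
  -- the swapping involution
  set e := c ^ m * z with he
  have hee : e * e = 1 := by
    have : e * e = c ^ m * (z * c ^ m * z⁻¹) * (z * z) := by rw [he]; group
    rw [this, hzz, mul_one, hzcm, mul_inv_cancel]
  have hei : e⁻¹ = e := inv_eq_of_mul_eq_one_right hee
  have hez : e * z * e⁻¹ = y := by
    have h1 : e * z * e⁻¹ = (c ^ m * (z * c ^ m * z⁻¹)⁻¹) * z := by
      rw [he]; group
    rw [h1, hzcm, inv_inv, ← pow_add]
    have h3 : c ^ (m + m) = c⁻¹ := by
      rw [eq_inv_iff_mul_eq_one, ← pow_succ]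
      have : m + m + 1 = 2 * m + 1 := by ring
      rw [this, hcn]
    rw [h3, hc, mul_inv_rev, hzi, hyi, mul_assoc, hzz, mul_one]
  have hweB : w⁻¹ * e ∈ B := by
    have h1 : (w⁻¹ * e)⁻¹ ∈ B := by
      apply F.mem_B_of_conj (F.ZU hz) hz1
      have : (w⁻¹ * e)⁻¹⁻¹ * z * (w⁻¹ * e)⁻¹ = w⁻¹ * (e * z * e⁻¹) * w := by group
      rw [this, hez, hy]
      have : w⁻¹ * (w * z' * w) * w = z' * (w * w) := by group
      rw [this, F.ww, mul_one]
      exact F.data.le (F.ZU hz')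
    have := B.inv_mem h1
    rwa [inv_inv] at this
  refine ⟨e * w, ?_, ?_, ?_, ?_⟩
  · have h1 := B.inv_mem hweB
    rwa [mul_inv_rev, hei, inv_inv] at h1
  · have : w⁻¹ * (e * w) * w = w⁻¹ * e * (w * w) := by group
    rw [this, F.ww, mul_one]
    exact hweB
  · rw [mul_assoc, F.ww, mul_one]
    exact H.mul_mem (H.pow_mem (H.mul_mem (hZ hz) (hZw z' hz')) m) (hZ hz)
  · rw [mul_assoc e, F.ww, mul_one]
    exact hez

omit [Group G] in
theorem mem_center_map {G : Type*} [Group G] (P : Subgroup G) (x : G) :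
    x ∈ (Subgroup.center P).map P.subtype ↔ x ∈ P ∧ ∀ y ∈ P, y * x = x * y := by
  constructor
  · rintro ⟨⟨y, hy⟩, hyc, rfl⟩
    refine ⟨hy, fun z hz => ?_⟩
    have := Subgroup.mem_center_iff.1 hyc ⟨z, hz⟩
    exact congrArg Subtype.val this
  · rintro ⟨hx, h⟩
    refine ⟨⟨x, hx⟩, ?_, rfl⟩
    rw [SetLike.mem_coe, Subgroup.mem_center_iff]
    rintro ⟨y, hy⟩
    exact Subtype.ext (h y hy)

theorem sylow_conj [Finite G] (F : Frame B U Z w) (hZ : Z ≠ ⊥) (P : Sylow 2 G) :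
    ∃ g : G, (P : Subgroup G) = cj g U := by
  have : Fact (Nat.Prime 2) := ⟨Nat.prime_two⟩
  obtain ⟨Q, hQ⟩ := F.exists_sylow hZ
  obtain ⟨g, hg⟩ := MulAction.exists_smul_eq G Q P
  refine ⟨g, ?_⟩
  rw [← hg, ← hQ]
  rfl

theorem exists_sylow_cj [Finite G] (F : Frame B U Z w) (hZ : Z ≠ ⊥) (g : G) :
    ∃ P : Sylow 2 G, (P : Subgroup G) = cj g U := by
  obtain ⟨Q, hQ⟩ := F.exists_sylow hZ
  refine ⟨g • Q, ?_⟩
  rw [← hQ]
  rfl

theorem center_iff [Finite G] (F : Frame B U Z w) (hZ : Z ≠ ⊥)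
    (hZc : ∀ x ∈ U, x ∈ Z ↔ ∀ y ∈ U, y * x = x * y) (H : Subgroup G) :
    (∃ P : Sylow 2 G, H = (Subgroup.center (P : Subgroup G)).map (P : Subgroup G).subtype) ↔
      ∃ g, H = cj g Z := by
  have key : ∀ (P : Sylow 2 G) (g : G), (P : Subgroup G) = cj g U →
      (Subgroup.center (P : Subgroup G)).map (P : Subgroup G).subtype = cj g Z := by
    intro P g hP
    ext x
    rw [mem_center_map, mem_cj, hP, mem_cj]
    constructor
    · rintro ⟨h1, h2⟩
      rw [hZc _ h1]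
      intro y hy
      have h3 := h2 (g * y * g⁻¹) (by
        rw [mem_cj]
        have : g⁻¹ * (g * y * g⁻¹) * g = y := by group
        rw [this]; exact hy)
      have e1 : y * (g⁻¹ * x * g) = g⁻¹ * (g * y * g⁻¹ * x) * g := by group
      have e2 : g⁻¹ * x * g * y = g⁻¹ * (x * (g * y * g⁻¹)) * g := by group
      rw [e1, e2, h3]
    · intro h1
      refine ⟨F.ZU h1, fun y hy => ?_⟩
      rw [mem_cj] at hy
      have h3 := (hZc _ (F.ZU h1)).1 h1 _ hy
      have e1 : y * x = g * (g⁻¹ * y * g * (g⁻¹ * x * g)) * g⁻¹ := by group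
      have e2 : x * y = g * (g⁻¹ * x * g * (g⁻¹ * y * g)) * g⁻¹ := by group
      rw [e1, e2, h3]
  constructor
  · rintro ⟨P, rfl⟩
    obtain ⟨g, hg⟩ := F.sylow_conj hZ P
    exact ⟨g, key P g hg⟩
  · rintro ⟨g, rfl⟩
    obtain ⟨P, hP⟩ := F.exists_sylow_cj hZ g
    exact ⟨P, (key P g hP).symm⟩

/-- the conjugates of `Z` give binary actions -/
theorem binary_cj_Z (F : Frame B U Z w) (g : G) : Binary (cj g Z) := binary_cj.2 F.binary_Z

/-- summary: the conclusion from the three remaining cases -/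
theorem eq_cj [Finite G] (F : Frame B U Z w) (hZ : Z ≠ ⊥) {H : Subgroup G} (hb : Binary H)
    (hone : ∀ s t : G, orderOf s = 2 → orderOf t = 2 → IsConj s t) (heven : Even (Nat.card H))
    (hH : H ≠ ⊤)
    (hA : ∀ H : Subgroup G, Binary H → Z ≤ H → H ≤ U → H = Z)
    (hT : ∀ H : Subgroup G, Binary H → Z ≤ H → H ≤ B → ∀ k ∈ H, k ≠ 1 → w⁻¹ * k * w ∈ B →
      (∀ z ∈ Z, k * z = z * k) → False)
    (hB : ∀ H : Subgroup G, Binary H → H ≠ ⊤ → Z ≤ H → (∀ z ∈ Z, w * z * w ∈ H) → False) :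
    ∃ g, H = cj g Z := by
  obtain ⟨g, hg⟩ := F.exists_conj hZ hb hone heven
  have hb1 : Binary (cj g H) := binary_cj.2 hb
  have htop : ∀ a : G, ∀ K : Subgroup G, K ≠ ⊤ → cj a K ≠ ⊤ := by
    intro a K hK h
    apply hK
    rw [eq_top_iff]
    intro x _
    have : a * x * a⁻¹ ∈ cj a K := by rw [h]; trivial
    rw [mem_cj] at this
    have e : a⁻¹ * (a * x * a⁻¹) * a = x := by group
    rwa [e] at this
  by_cases hHB : cj g H ≤ B
  · rcases F.case_A hb1 hg hHB with h | ⟨s, -, k, hk, hk1, hkw, hkc, h1, h2⟩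
    · refine ⟨g⁻¹, ?_⟩
      rw [← hA _ hb1 hg h, cj_cj, inv_mul_cancel, cj_one]
    · exact (hT _ (binary_cj.2 hb1) h1 h2 k hk hk1 hkw hkc).elim
  · obtain ⟨s, -, h1, h2⟩ := F.case_B hg hHB
    exact (hB _ (binary_cj.2 hb1) (htop _ _ (htop _ _ hH)) h1 h2).elim

end Frame

end Cfsg.Agent.H896
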