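import Cfsg.Agent.H896.URelX
import Cfsg.Agent.H896.Frame

/-!
# Binary actions of `PSU₃(2^n)` with point stabilisers of even order (helper896)
-/

set_option autoImplicit false
set_option linter.unusedSectionVars false

namespace Cfsg.Agent.H896

open Cfsg.Agent.LieRecognition Cfsg.Agent.LieRecognition.HermHeis
  Cfsg.Agent.LieRecognition.RankOneAbstract Cfsg.Agent.StdU3.URel

variable {F : Type*} [Field F] [CharP F 2] {σ : F →+* F} [hσ : Fact (∀ x, σ (σ x) = x)]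

theorem heis_b_ne {x : Heis σ} (hx : x ≠ 1) : x.b ≠ 0 := by
  intro h
  apply hx
  have h1 := x.h
  rw [h, map_zero, add_zero, eq_comm, mul_eq_zero, map_eq_zero, or_self] at h1
  ext
  · exact h1
  · exact h

theorem heis_b_ne' {x : Heis σ} (hx : x.a ≠ 0) : x.b ≠ 0 := by
  apply heis_b_ne
  rintro rfl
  exact hx rfl

namespace URelX

variable {J : Type*} [Group J] (R : URelX J σ)

/-- the subgroup of elements of square one -/
def Z : Subgroup J where
  carrier := {g | ∃ x : Heis σ, x.a = 0 ∧ R.u x = g}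
  mul_mem' := by
    rintro _ _ ⟨x, hx, rfl⟩ ⟨y, hy, rfl⟩
    exact ⟨x * y, by rw [mul_a, hx, hy, add_zero], by rw [map_mul]⟩
  one_mem' := ⟨1, rfl, map_one _⟩
  inv_mem' := by
    rintro _ ⟨x, hx, rfl⟩
    exact ⟨x⁻¹, by rw [inv_a, hx], by rw [map_inv]⟩

theorem mem_Z {g : J} : g ∈ Z R ↔ ∃ x : Heis σ, x.a = 0 ∧ R.u x = g := Iff.rfl

theorem u_mem_Z {x : Heis σ} : R.u x ∈ Z R ↔ x.a = 0 := by
  constructor
  · rintro ⟨y, hy, h⟩
    rw [← R.u_inj h, hy]
  · intro h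
    exact ⟨x, h, rfl⟩

theorem pow_form (x : Heis σ) (l : Fˣ) (m : ℕ) : ∃ z, (R.u x * R.d l) ^ m = R.u z * R.d l ^ m := by
  induction m with
  | zero => exact ⟨1, by simp⟩
  | succ m ih =>
    obtain ⟨z, hz⟩ := ih
    refine ⟨z * act (l ^ m) x, ?_⟩
    have h := R.d_u (l ^ m) x
    rw [map_pow] at h
    calc (R.u x * R.d l) ^ (m + 1) = R.u z * (R.d l ^ m * R.u x) * R.d l := by
          rw [pow_succ, hz]; group
      _ = _ := by
          rw [h, map_mul, pow_succ]; group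

theorem torus_form {t : J} (ht : t ∈ R.B) (htw : R.w⁻¹ * t * R.w ∈ R.B) : ∃ l, t = R.d l := by
  obtain ⟨x, l, rfl⟩ := ht
  have e : R.w⁻¹ * (R.u x * R.d l) * R.w = (R.w * R.u x * R.w) * (R.w * R.d l * R.w) := by
    rw [R.w_inv]
    have : R.w * R.u x * R.w * (R.w * R.d l * R.w) = R.w * R.u x * (R.w * R.w) * R.d l * R.w := by group
    rw [this, R.w_w]; group
  rw [e, R.w_d'] at htw
  have h1 := R.B.mul_mem htw (R.B.inv_mem (R.d_mem_B (hat σ l)))
  rw [mul_inv_cancel_right] at h1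
  have h2 := R.eq_one_of_conj h1
  exact ⟨l, by rw [h2, map_one, one_mul]⟩

theorem data : Data R.B R.T R.w where
  w_not_mem := R.w_not_mem
  le := R.T_le_B
  norm := by
    rintro h hh _ ⟨x, rfl⟩
    obtain ⟨y, hy⟩ := R.conj_T_of_B hh x
    exact ⟨y, hy.symm⟩
  bruhat := by
    intro g hg
    rcases R.bruhat g with h | ⟨x, y, l, h⟩
    · exact absurd h hg
    · refine ⟨R.u x, R.u_mem x, ?_⟩
      have : (R.u x * R.w)⁻¹ * g = R.u y * R.d l := by rw [h]; group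
      rw [this]
      exact ⟨y, l, rfl⟩
  inter := by
    rintro _ ⟨x, rfl⟩ h
    rw [R.w_inv] at h
    rw [R.eq_one_of_conj h, map_one]

variable [Finite F]

theorem frame {n : ℕ} (hn : 1 ≤ n) (hs : ∀ x, σ x = x ^ (2 ^ n)) (hF : Nat.card F = (2 ^ n) ^ 2) :
    Frame R.B R.T (Z R) R.w where
  data := data R
  ww := R.w_w
  ZU := by
    rintro _ ⟨x, -, rfl⟩
    exact R.u_mem x
  Zn := by
    rintro _ ⟨y, l, rfl⟩ _ ⟨x, hx, rfl⟩
    rw [R.conj_a_of_B, u_mem_Z]
    simp [hx, CharTwo.add_self_eq_zero]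
  inv := by
    rintro _ ⟨x, hx, rfl⟩
    rw [← map_mul, (HermHeis.mul_self_eq_one_iff x).2 hx, map_one]
  inv' := by
    rintro _ ⟨x, rfl⟩ h
    rw [u_mem_Z, ← HermHeis.mul_self_eq_one_iff]
    apply R.u_inj
    rw [map_mul, h, map_one]
  two := by
    rintro _ ⟨x, l, rfl⟩ m hm
    obtain ⟨z, hz⟩ := pow_form R x l (2 ^ m)
    rw [hz] at hm
    have h1 : R.u z * R.d (l ^ 2 ^ m) = R.u 1 * R.d 1 := by rw [map_pow, hm, map_one, map_one, one_mul]
    have h2 := (R.ud_inj h1).2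
    rw [map_pow, map_one] at h2
    have h3 : R.d l ^ Nat.card Fˣ = 1 := by rw [← map_pow, pow_card_eq_one', map_one]
    have hodd : Odd (Nat.card Fˣ) := by
      rw [Nat.card_units, hF]
      refine Nat.Even.sub_odd ?_ ?_ odd_one
      · exact Nat.one_le_pow _ _ (by positivity)
      · exact (Nat.even_pow' (by norm_num)).mpr ((Nat.even_pow' (by omega)).mpr even_two)
    have h4 : R.d l = 1 := by
      rw [← orderOf_eq_one_iff, ← Nat.dvd_one]
      have hc : Nat.Coprime (2 ^ m) (Nat.card Fˣ) :=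
        Nat.Coprime.pow_left m (Nat.coprime_two_left.2 hodd)
      rw [← Nat.Coprime.gcd_eq_one hc]
      exact Nat.dvd_gcd (orderOf_dvd_of_pow_eq_one h2) (orderOf_dvd_of_pow_eq_one h3)
    rw [h4, mul_one]
    exact R.u_mem x
  twoU := by
    rintro ⟨_, x, rfl⟩
    refine ⟨2, Subtype.ext ?_⟩
    show R.u x ^ (2 ^ 2) = 1
    have h1 : (x * x) * (x * x) = 1 := by
      rw [HermHeis.mul_self_eq_one_iff]
      simp [CharTwo.add_self_eq_zero]
    have h2 : R.u x ^ (2 ^ 2) = R.u ((x * x) * (x * x)) := by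
      rw [map_mul, map_mul, show (2 ^ 2 : ℕ) = 1 + 1 + 1 + 1 from rfl, pow_add, pow_add, pow_add, pow_one]
      group
    rw [h2, h1, map_one]
  Tw := by
    intro t ht htw
    obtain ⟨l, rfl⟩ := torus_form R ht htw
    rw [R.w_inv, R.w_d', Subgroup.mem_zpowers_iff]
    refine ⟨-(2 ^ n : ℕ), ?_⟩
    rw [zpow_neg, zpow_natCast, ← map_pow, ← map_inv]
    congr 1
    apply Units.ext
    rw [hat_val, hs, Units.val_inv_eq_inv_val, Units.val_pow_eq_pow_val]
  TZ := by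
    rintro t ht htw _ ⟨x, hx, rfl⟩ hx1 h _ ⟨y, hy, rfl⟩
    obtain ⟨l, rfl⟩ := torus_form R ht htw
    rw [R.d_u] at h ⊢
    have hxb : x.b ≠ 0 := heis_b_ne (by rintro rfl; exact hx1 (map_one _))
    have h1 : act l x = x := R.u_inj (mul_right_cancel h)
    have h2 := congrArg Heis.b h1
    rw [act_b] at h2
    have h3 : nm σ l = 1 := by
      apply mul_right_cancel₀ hxb
      rw [h2, one_mul]
    have h4 : act l y = y := by
      ext
      · rw [act_a, hy, mul_zero]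
      · rw [act_b, h3, one_mul]
    rw [h4]

/-- the first coordinates of the unipotent elements of `H` -/
def As (H : Subgroup J) : Set F := {a | ∃ y : Heis σ, R.u y ∈ H ∧ y.a = a}

theorem As_add {H : Subgroup J} {a b : F} (ha : a ∈ As R H) (hb : b ∈ As R H) : a + b ∈ As R H := by
  obtain ⟨x, hx, rfl⟩ := ha
  obtain ⟨y, hy, rfl⟩ := hb
  exact ⟨x * y, by rw [map_mul]; exact H.mul_mem hx hy, rfl⟩

theorem As_zero (H : Subgroup J) : (0 : F) ∈ As R H := ⟨1, by rw [map_one]; exact H.one_mem, rfl⟩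

theorem As_wt {H : Subgroup J} {z : Heis σ} {m : Fˣ} (hg : R.u z * R.d m ∈ H) {a : F}
    (ha : a ∈ As R H) : wt σ m * a ∈ As R H := by
  obtain ⟨x, hx, rfl⟩ := ha
  refine ⟨z * act m x * z⁻¹, ?_, ?_⟩
  · rw [← R.conj_a_of_B]
    exact H.mul_mem (H.mul_mem hg hx) (H.inv_mem hg)
  · simp only [mul_a, act_a, inv_a]
    linear_combination CharTwo.add_self_eq_zero z.a

theorem u_mem_of_As {H : Subgroup J} (hZ : Z R ≤ H) {x : Heis σ} (hx : x.a ∈ As R H) : R.u x ∈ H := by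
  obtain ⟨y, hy, hyx⟩ := hx
  have h1 : R.u (y⁻¹ * x) ∈ H := by
    apply hZ
    rw [u_mem_Z, mul_a, inv_a, hyx, CharTwo.add_self_eq_zero]
  have : x = y * (y⁻¹ * x) := by group
  rw [this, map_mul]
  exact H.mul_mem hy h1

/-- a subset of a finite field invariant under multiplication by `μ ≠ 0` is invariant under division -/
theorem div_mem {A : Set F} {μ : F} (hμ : μ ≠ 0) (h : ∀ t ∈ A, μ * t ∈ A) {t : F} (ht : μ * t ∈ A) :
    t ∈ A := by
  have hpow : ∀ k : ℕ, ∀ t ∈ A, μ ^ k * t ∈ A := by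
    intro k
    induction k with
    | zero => intro t ht; simpa using ht
    | succ k ih =>
      intro t ht
      rw [pow_succ', mul_assoc]
      exact h _ (ih t ht)
  have hc : μ ^ Nat.card Fˣ = 1 := by
    have : (Units.mk0 μ hμ) ^ Nat.card Fˣ = 1 := pow_card_eq_one'
    have h2 := congrArg Units.val this
    rwa [Units.val_pow_eq_pow_val, Units.val_mk0, Units.val_one] at h2
  have hpos : 0 < Nat.card Fˣ := Nat.card_pos
  have := hpow (Nat.card Fˣ - 1) _ ht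
  rwa [← mul_assoc, ← pow_succ, Nat.sub_add_cancel hpos, hc, one_mul] at this

/-- **the three point argument** -/
theorem three_false {H : Subgroup J} (hb : Binary H) (hZ : Z R ≤ H) {l : Fˣ} (hl : R.d l ∈ H)
    (hwt : wt σ l ≠ 1) {x : Heis σ} (hx : x.a ∉ As R H)
    (hB : ∀ g ∈ H, (R.u (x * act l x))⁻¹ * g * R.u (x * act l x) ∈ H → g ∈ R.B) : False := by
  have e1 : R.d l * R.u x * (R.d l)⁻¹ = R.u (act l x) := (R.u_act l x).symm
  have e2 : R.u x * R.u (act l x) = R.u (x * act l x) := (map_mul _ _ _).symm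
  obtain ⟨g, hg, h1, h2⟩ := hb.three (v := R.u x) hl (by
    apply hZ
    rw [e1, ← map_inv, ← map_inv, ← map_mul, ← map_mul, ← map_mul, u_mem_Z]
    simp only [mul_a, inv_a]
    linear_combination CharTwo.add_self_eq_zero x.a + CharTwo.add_self_eq_zero (act l x).a)
  rw [e1, e2] at h1
  rw [e1] at h2
  obtain ⟨z, m, rfl⟩ := hB g hg h1
  set lam := wt σ l with hlam
  set psi := wt σ m with hpsi
  have hne : 1 + lam ≠ 0 := by
    intro h
    apply hwt
    exact (CharTwo.add_eq_zero.1 h).symm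
  have key : ∀ y y' : Heis σ, (R.u y')⁻¹ * (R.u z * R.d m) * R.u y ∈ H → y'.a + psi * y.a ∈ As R H := by
    intro y y' h
    have h3 := H.mul_mem h (H.inv_mem hg)
    have e : (R.u y')⁻¹ * (R.u z * R.d m) * R.u y * (R.u z * R.d m)⁻¹ = R.u (y'⁻¹ * (z * act m y * z⁻¹)) := by
      rw [map_mul, ← R.conj_a_of_B, map_inv]; group
    rw [e] at h3
    refine ⟨_, h3, ?_⟩
    simp only [mul_a, inv_a, act_a]
    linear_combination CharTwo.add_self_eq_zero z.a
  have k1 := key _ _ h1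
  have k2 := key _ _ h2
  simp only [mul_a, act_a] at k1 k2
  have hlA : ∀ t ∈ As R H, lam * t ∈ As R H := fun t ht => As_wt R (z := 1) (by rw [map_one, one_mul]; exact hl) ht
  have hpA : ∀ t ∈ As R H, psi * t ∈ As R H := fun t ht => As_wt R hg ht
  have hlA' : ∀ t ∈ As R H, (1 + lam) * t ∈ As R H := fun t ht => by
    rw [add_mul, one_mul]; exact As_add R ht (hlA t ht)
  have hpA' : ∀ t ∈ As R H, (1 + psi) * t ∈ As R H := fun t ht => by
    rw [add_mul, one_mul]; exact As_add R ht (hpA t ht)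
  apply hx
  apply div_mem hne hlA'
  by_cases hp : psi = 1
  · rw [hp] at k2
    have : (1 + lam) * x.a = lam * x.a + 1 * x.a := by ring
    rw [this]; exact k2
  · have hne' : 1 + psi ≠ 0 := by
      intro h
      apply hp
      exact (CharTwo.add_eq_zero.1 h).symm
    apply div_mem hne' hpA'
    rw [← hlam] at k1
    have : (1 + psi) * ((1 + lam) * x.a) = x.a + lam * x.a + psi * (x.a + lam * x.a) := by ring
    rw [this]; exact k1

variable {n : ℕ}

theorem sig_mk0 (b : F) (hb : b ≠ 0) : σ ((Units.mk0 b hb : Fˣ) : F) = σ b := rfl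

/-- `H ≤ B` containing `Z` and a torus element centralising `Z` -/
theorem torus_false (hn : 1 ≤ n) (hs : ∀ x, σ x = x ^ (2 ^ n)) (hF : Nat.card F = (2 ^ n) ^ 2)
    {H : Subgroup J} (hb : Binary H) (hZ : Z R ≤ H) (hHB : H ≤ R.B) {k : J} (hk : k ∈ H) (hk1 : k ≠ 1)
    (hkw : R.w⁻¹ * k * R.w ∈ R.B) (hkZ : ∀ z ∈ Z R, k * z = z * k) : False := by
  obtain ⟨l, rfl⟩ := torus_form R (hHB hk) hkw
  have hwt : wt σ l ≠ 1 := fun h => hk1 (R.d_one_of l h)
  by_cases hall : ∀ x : Heis σ, x.a ∈ As R H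
  swap
  · push Not at hall
    obtain ⟨x, hx⟩ := hall
    exact three_false R hb hZ hk hwt hx (fun g hg _ => hHB hg)
  have hUH : ∀ x : Heis σ, R.u x ∈ H := fun x => u_mem_of_As R hZ (hall x)
  -- `l` has norm one
  set z₁ : Heis σ := zet 1 (map_one σ) with hz₁
  have hnm : nm σ l = 1 := by
    have h1 := hkZ (R.u z₁) ((u_mem_Z R).2 rfl)
    rw [R.d_u] at h1
    have h2 := congrArg Heis.b (R.u_inj (mul_right_cancel h1))
    rw [act_b, hz₁, zet_b, mul_one] at h2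
    exact h2
  obtain ⟨x', hx'⟩ := Cfsg.Agent.SuzukiRankOne.PSUModel.exists_b (σ := σ) hn hs hF (l : F)
  have hl0 := l.ne_zero
  have hxb : x'.b ≠ 0 := by rw [hx']; exact hl0
  have hxa : x'.a ≠ 0 := by
    intro h
    have h1 := b_fixed_of_a_eq_zero h
    rw [hx'] at h1
    have h2 : (l : F) * (l : F) = 1 := by
      have := hnm
      unfold nm at this
      rwa [h1] at this
    have h3 : ((l : F) + 1) * ((l : F) + 1) = 0 := by
      linear_combination h2 + CharTwo.add_self_eq_zero (l : F) + CharTwo.add_self_eq_zero (1 : F)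
    have h4 : (l : F) = 1 := by
      rcases mul_eq_zero.1 h3 with h | h <;> exact CharTwo.add_eq_zero.1 h
    apply hwt
    have : l = 1 := Units.ext h4
    rw [this, wt_one]
  have hz1b : z₁.b ≠ 0 := one_ne_zero
  have r1 := R.rel z₁ hz1b
  have r2 := R.rel x' hxb
  have hmk : Units.mk0 x'.b hxb = l := Units.ext (by rw [Units.val_mk0, hx'])
  have hmk1 : Units.mk0 z₁.b hz1b = 1 := Units.ext rfl
  rw [hmk] at r2
  rw [hmk1, map_one, mul_one] at r1
  have hw := R.w_inv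
  have hww := R.w_w
  have e1 : R.u z₁ * R.w = R.w * (R.u (fl z₁ hz1b) * R.w * R.u (fr z₁ hz1b)) := by
    rw [← r1, ← mul_assoc, ← mul_assoc, hww, one_mul]
  have e2 : R.u x' * R.w = R.w * (R.u (fl x' hxb) * R.w * R.d l * R.u (fr x' hxb)) := by
    rw [← r2, ← mul_assoc, ← mul_assoc, hww, one_mul]
  obtain ⟨a, ha, h1, h2⟩ := hb.ternary (x := R.u x' * (R.u z₁)⁻¹)
    (y := R.w * (R.u (fl x' hxb) * (R.u (fl z₁ hz1b))⁻¹) * R.w) (g₂ := R.w) (g₃ := R.u z₁ * R.w)
    (H.mul_mem (hUH _) (H.inv_mem (hUH _)))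
    (by
      have : R.w⁻¹ * (R.w * (R.u (fl x' hxb) * (R.u (fl z₁ hz1b))⁻¹) * R.w) * R.w =
          (R.u (fl x' hxb) * (R.u (fl z₁ hz1b))⁻¹) * (R.w * R.w) := by group
      rw [this, hww, mul_one]
      exact H.mul_mem (hUH _) (H.inv_mem (hUH _)))
    (by
      have : (R.u z₁ * R.w)⁻¹ * ((R.u x' * (R.u z₁)⁻¹)⁻¹ *
          (R.w * (R.u (fl x' hxb) * (R.u (fl z₁ hz1b))⁻¹) * R.w)) * (R.u z₁ * R.w) =
          (R.u x' * R.w)⁻¹ * (R.w * (R.u (fl x' hxb) * (R.u (fl z₁ hz1b))⁻¹) * R.w) *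
            (R.u z₁ * R.w) := by group
      rw [this, e1, e2]
      have : (R.w * (R.u (fl x' hxb) * R.w * R.d l * R.u (fr x' hxb)))⁻¹ *
          (R.w * (R.u (fl x' hxb) * (R.u (fl z₁ hz1b))⁻¹) * R.w) *
          (R.w * (R.u (fl z₁ hz1b) * R.w * R.u (fr z₁ hz1b))) =
          (R.u (fr x' hxb))⁻¹ * (R.d l)⁻¹ * (R.w⁻¹ * (R.u (fl z₁ hz1b))⁻¹ * (R.w * R.w) *
            R.u (fl z₁ hz1b) * R.w) * R.u (fr z₁ hz1b) := by group
      rw [this, hww, mul_one]
      have : R.w⁻¹ * (R.u (fl z₁ hz1b))⁻¹ * R.u (fl z₁ hz1b) * R.w = 1 := by group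
      rw [this, mul_one]
      exact H.mul_mem (H.mul_mem (H.inv_mem (hUH _)) (H.inv_mem hk)) (hUH _))
  obtain ⟨m, rfl⟩ := torus_form R (hHB ha) (hHB h1)
  have h3 : (R.u z₁ * R.w)⁻¹ * ((R.u x' * (R.u z₁)⁻¹)⁻¹ * R.d m) * (R.u z₁ * R.w) =
      (R.w * R.u (x'⁻¹ * act m z₁) * R.w) * (R.w⁻¹ * R.d m * R.w) := by
    rw [map_mul, R.u_act, map_inv]
    have : (R.u z₁ * R.w)⁻¹ * ((R.u x' * (R.u z₁)⁻¹)⁻¹ * R.d m) * (R.u z₁ * R.w) =
      (R.w⁻¹ * ((R.u x')⁻¹ * (R.d m * R.u z₁ * (R.d m)⁻¹)) * R.w) * (R.w⁻¹ * R.d m * R.w) := by group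
    rw [this, hw]
  rw [h3] at h2
  have h4 := R.B.mul_mem (hHB h2) (R.B.inv_mem (hHB h1))
  rw [mul_inv_cancel_right] at h4
  have h5 := R.eq_one_of_conj h4
  have h6 : x' = act m z₁ := inv_mul_eq_one.1 h5
  apply hxa
  rw [h6, act_a, hz₁, zet_a, mul_zero]

end URelX

end Cfsg.Agent.H896
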