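import Cfsg.Agent.H896.PSU

/-!
# Binary actions of `PSU₃(2^n)` with point stabilisers of even order, main cases (helper896)
-/

set_option autoImplicit false
set_option linter.unusedSectionVars false

namespace Cfsg.Agent.H896

open Cfsg.Agent.LieRecognition Cfsg.Agent.LieRecognition.HermHeis
  Cfsg.Agent.LieRecognition.RankOneAbstract Cfsg.Agent.StdU3.URel

variable {F : Type*} [Field F] [CharP F 2] {σ : F →+* F} [hσ : Fact (∀ x, σ (σ x) = x)]

namespace URelX

variable {J : Type*} [Group J] (R : URelX J σ)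

/-- elements of order three -/
theorem cube (y : Heis σ) (α : Fˣ) (h : (α : F) * y.b = σ (α : F) ^ 2) :
    (R.u y * R.d α * R.w) * (R.u y * R.d α * R.w) * (R.u y * R.d α * R.w) = 1 := by
  have hα : (α : F) ≠ 0 := α.ne_zero
  have hσα : σ (α : F) ≠ 0 := sig_ne σ α
  have hy : y.b ≠ 0 := by
    intro h0
    rw [h0, mul_zero] at h
    exact pow_ne_zero 2 hσα h.symm
  have hσy : σ y.b ≠ 0 := (map_ne_zero σ).mpr hy
  have hb : y.b = σ (α : F) ^ 2 / α := by field_simp; linear_combination h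
  have hb' : σ y.b = (α : F) ^ 2 / σ α := by
    rw [hb, map_div₀, map_pow, HermHeis.sig]
  have r := R.rel y hy
  have hww := R.w_w
  -- step 1
  have e1 : R.u (act α (fl y hy)) = R.u y⁻¹ := by
    congr 1
    ext
    · simp only [act_a, fl_a, inv_a]
      unfold wt
      rw [hb']
      field_simp
    · simp only [act_b, fl_b, inv_b]
      unfold nm
      rw [hb', hb]
      field_simp
  have e2 : R.d α * R.u (fl y hy) = R.u y⁻¹ * R.d α := by rw [R.d_u, e1]
  have e3 : R.d α * R.w = R.w * R.d (hat σ α) := by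
    have := R.w_d' α
    rw [← this, ← mul_assoc, ← mul_assoc, hww, one_mul]
  have e4 : R.d (hat σ α) * R.d (Units.mk0 y.b hy) = R.d (α⁻¹ * Units.map (σ : F →* F) α) := by
    rw [← map_mul]
    congr 1
    apply Units.ext
    rw [Units.val_mul, Units.val_mul, hat_val, Units.val_mk0, Units.val_inv_eq_inv_val, hb]
    show (σ α)⁻¹ * (σ (α : F) ^ 2 / α) = (α : F)⁻¹ * σ α
    field_simp
  have e5 : R.u (act (Units.map (σ : F →* F) α) (fr y hy)) = R.u y⁻¹ := by
    have hm : ((Units.map (σ : F →* F) α : Fˣ) : F) = σ α := rfl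
    congr 1
    ext
    · simp only [act_a, fr_a, inv_a]
      unfold wt
      rw [hm, HermHeis.sig, hb]
      field_simp
    · simp only [act_b, fr_b, inv_b]
      unfold nm
      rw [hm, HermHeis.sig, hb', hb]
      field_simp
  have e6 : R.d (Units.map (σ : F →* F) α) * R.u (fr y hy) =
      R.u y⁻¹ * R.d (Units.map (σ : F →* F) α) := by rw [R.d_u, e5]
  have e7 : R.d (Units.map (σ : F →* F) α) * R.d (hat σ α) = 1 := by
    rw [← map_mul]
    have : Units.map (σ : F →* F) α * hat σ α = 1 := by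
      unfold hat
      rw [mul_inv_cancel]
    rw [this, map_one]
  calc (R.u y * R.d α * R.w) * (R.u y * R.d α * R.w) * (R.u y * R.d α * R.w)
      = R.u y * R.d α * (R.w * R.u y * R.w) * (R.w⁻¹ * R.d α * R.w) * (R.u y * R.d α * R.w) := by
        group
    _ = R.u y * (R.d α * R.u (fl y hy)) * R.w * R.d (Units.mk0 y.b hy) * R.u (fr y hy) *
          R.d (hat σ α) * (R.u y * R.d α * R.w) := by
        rw [r, R.w_inv, R.w_d']; group
    _ = (R.d α * R.w) * R.d (Units.mk0 y.b hy) * R.u (fr y hy) *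
          R.d (hat σ α) * (R.u y * R.d α * R.w) := by
        rw [e2, map_inv]; group
    _ = R.w * (R.d (hat σ α) * R.d (Units.mk0 y.b hy)) * R.u (fr y hy) *
          R.d (hat σ α) * (R.u y * R.d α * R.w) := by
        rw [e3]; group
    _ = R.w * R.d α⁻¹ * (R.d (Units.map (σ : F →* F) α) * R.u (fr y hy)) *
          R.d (hat σ α) * (R.u y * R.d α * R.w) := by
        rw [e4, map_mul]; group
    _ = R.w * R.d α⁻¹ * R.u y⁻¹ * (R.d (Units.map (σ : F →* F) α) *
          R.d (hat σ α)) * (R.u y * R.d α * R.w) := by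
        rw [e6]; group
    _ = 1 := by
        rw [e7, map_inv, map_inv, mul_one]
        have : R.w * (R.d α)⁻¹ * (R.u y)⁻¹ * (R.u y * R.d α * R.w) = R.w * R.w := by group
        rw [this, hww]

variable [Finite F] {n : ℕ}

theorem exists_alpha (hn : 2 ≤ n) (hs : ∀ x, σ x = x ^ (2 ^ n)) (hF : Nat.card F = (2 ^ n) ^ 2)
    {N : F} (hN : N ≠ 0) (hNs : σ N = N) :
    ∃ (α : Fˣ) (δ : F), (α : F) * δ = σ (α : F) ^ 2 ∧ δ + σ δ = N := by
  -- an element whose cube is not fixed
  obtain ⟨α₀, hα₀⟩ : ∃ α₀ : Fˣ, σ (α₀ : F) ^ 3 ≠ (α₀ : F) ^ 3 := by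
    by_contra hcon
    push Not at hcon
    obtain ⟨g, hg⟩ := IsCyclic.exists_generator (α := Fˣ)
    have h1 := hcon g
    rw [hs, ← pow_mul] at h1
    have h2 : g ^ (2 ^ n * 3) = g ^ 3 := Units.ext (by rw [Units.val_pow_eq_pow_val, Units.val_pow_eq_pow_val, h1])
    have h3 : g ^ ((2 ^ n - 1) * 3) = 1 := by
      have h4 : 2 ^ n * 3 = (2 ^ n - 1) * 3 + 3 := by
        have : 1 ≤ 2 ^ n := Nat.one_le_two_pow
        omega
      rw [h4, pow_add] at h2
      exact mul_eq_right.1 h2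
    have h5 : orderOf g = (2 ^ n) ^ 2 - 1 := by
      rw [orderOf_eq_card_of_forall_mem_zpowers hg, Nat.card_units, hF]
    have h6 := orderOf_dvd_of_pow_eq_one h3
    rw [h5] at h6
    have hq : 4 ≤ 2 ^ n := by
      calc 4 = 2 ^ 2 := by norm_num
        _ ≤ 2 ^ n := Nat.pow_le_pow_right (by norm_num) hn
    have h7 : (2 ^ n) ^ 2 - 1 = (2 ^ n - 1) * (2 ^ n + 1) := by
      obtain ⟨m, hm⟩ : ∃ m, 2 ^ n = m + 1 := ⟨2 ^ n - 1, by omega⟩
      rw [hm]
      have : (m + 1) ^ 2 = m * (m + 1 + 1) + 1 := by ring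
      rw [this]
      simp
    rw [h7] at h6
    have h8 := Nat.dvd_of_mul_dvd_mul_left (by omega) h6
    have := Nat.le_of_dvd (by norm_num) h8
    omega
  have ha := α₀.ne_zero
  have hσa := sig_ne σ α₀
  set δ₀ : F := σ (α₀ : F) ^ 2 / α₀ with hδ₀
  have hσδ : σ δ₀ = (α₀ : F) ^ 2 / σ α₀ := by rw [hδ₀, map_div₀, map_pow, HermHeis.sig]
  have hne : δ₀ + σ δ₀ ≠ 0 := by
    intro h
    apply hα₀
    have h1 := CharTwo.add_eq_zero.1 h
    rw [hσδ, hδ₀, div_eq_div_iff ha hσa] at h1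
    linear_combination h1
  set μ : F := N / (δ₀ + σ δ₀) with hμ
  have hμ0 : μ ≠ 0 := div_ne_zero hN hne
  have hμs : σ μ = μ := by
    rw [hμ, map_div₀, hNs, map_add, HermHeis.sig, add_comm (σ δ₀)]
  refine ⟨Units.mk0 μ hμ0 * α₀, μ * δ₀, ?_, ?_⟩
  · rw [Units.val_mul, Units.val_mk0, map_mul, hμs, hδ₀]
    field_simp
  · rw [map_mul, hμs, ← mul_add, hμ]
    field_simp

/-- a binary `H` between `Z` and `U` is `Z` -/
theorem unip_eq (hn : 2 ≤ n) (hs : ∀ x, σ x = x ^ (2 ^ n)) (hF : Nat.card F = (2 ^ n) ^ 2)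
    {H : Subgroup J} (hb : Binary H) (hZ : Z R ≤ H) (hHU : H ≤ R.T) : H = Z R := by
  refine le_antisymm ?_ hZ
  intro X hX
  obtain ⟨x, rfl⟩ := hHU hX
  rw [u_mem_Z]
  by_contra ha
  have hxb : x.b ≠ 0 := heis_b_ne' ha
  have hσa : σ x.a ≠ 0 := (map_ne_zero σ).mpr ha
  have hσb : σ x.b ≠ 0 := (map_ne_zero σ).mpr hxb
  set c : F := σ x.b / σ x.a with hc
  have hσc : σ c = x.b / x.a := by rw [hc, map_div₀, HermHeis.sig, HermHeis.sig]
  have hc0 : c ≠ 0 := div_ne_zero hσb hσa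
  obtain ⟨α, δ, h1, h2⟩ := exists_alpha hn hs hF (N := c * σ c)
    (mul_ne_zero hc0 ((map_ne_zero σ).mpr hc0)) (by rw [map_mul, HermHeis.sig, mul_comm])
  set y : Heis σ := ⟨c, δ, h2⟩ with hy
  have c1 := R.cube y α h1
  have c2 := R.cube (x * y) α (by
    rw [mul_b]
    show (α : F) * (x.b + δ + x.a * σ c) = _
    rw [hσc]
    have : x.b + δ + x.a * (x.b / x.a) = δ := by
      field_simp
      linear_combination CharTwo.add_self_eq_zero x.b
    rw [this, h1])
  set g := R.u y * R.d α * R.w with hg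
  have e : R.u (x * y) * R.d α * R.w = R.u x * g := by rw [map_mul, hg]; group
  rw [e] at c2
  have hgB : g ∉ R.B := by
    intro h
    apply R.w_not_mem
    have h3 := R.B.mul_mem (R.B.inv_mem (R.B.mul_mem (R.T_le_B (R.u_mem y)) (R.d_mem_B α))) h
    rwa [hg, inv_mul_cancel_left] at h3
  have hd := data R
  obtain ⟨A, hA, h3, h4⟩ := hb.ternary (x := R.u x) (y := g⁻¹ * (R.u x)⁻¹ * g) (g₂ := g⁻¹) (g₃ := g) hX
    (by
      have : g⁻¹⁻¹ * (g⁻¹ * (R.u x)⁻¹ * g) * g⁻¹ = (R.u x)⁻¹ := by group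
      rw [this]; exact H.inv_mem hX)
    (by
      have : g⁻¹ * ((R.u x)⁻¹ * (g⁻¹ * (R.u x)⁻¹ * g)) * g = R.u x := by
        have h5 : R.u x * g * (R.u x * g) * (R.u x * g) = 1 := c2
        have h6 : (R.u x * g)⁻¹ * (R.u x * g)⁻¹ = R.u x * g := by
          rw [← mul_inv_rev]
          exact inv_eq_of_mul_eq_one_right h5
        have h7 : g⁻¹ * ((R.u x)⁻¹ * (g⁻¹ * (R.u x)⁻¹ * g)) * g =
            ((R.u x * g)⁻¹ * (R.u x * g)⁻¹) * (g * g) := by group
        rw [h7, h6]
        have h8 : R.u x * g * (g * g) = R.u x * (g * g * g) := by group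
        rw [h8, c1, mul_one]
      rw [this]; exact hX)
  rw [inv_inv] at h3
  have key : ∀ X ∈ R.T, ∀ k : J, k ∉ R.B → k⁻¹ * X * k ∈ R.B → X = 1 := by
    intro X hX k hk h
    by_contra hX1
    exact hk ((frame R (by omega) hs hF).mem_B_of_conj hX hX1 h)
  have hA1 : A = 1 := by
    apply key A (hHU hA) g⁻¹ (fun h => hgB (by simpa using R.B.inv_mem h))
    rw [inv_inv]
    exact R.T_le_B (hHU h3)
  rw [hA1, mul_one] at h4
  have h5 := key _ (R.T.inv_mem (R.u_mem x)) g hgB (R.T_le_B (hHU h4))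
  rw [inv_eq_one] at h5
  have h6 : x = 1 := R.u_inj (by rw [h5, map_one])
  exact ha (by rw [h6]; rfl)

/-- `Z` and `wZw` in `H` is impossible -/
theorem two_false (hn : 2 ≤ n) (hs : ∀ x, σ x = x ^ (2 ^ n)) (hF : Nat.card F = (2 ^ n) ^ 2)
    {H : Subgroup J} (hb : Binary H) (hH : H ≠ ⊤) (hZ : Z R ≤ H)
    (hZw : ∀ z ∈ Z R, R.w * z * R.w ∈ H) : False := by
  have hww := R.w_w
  have hq : 4 ≤ 2 ^ n := by
    calc 4 = 2 ^ 2 := by norm_num
      _ ≤ 2 ^ n := Nat.pow_le_pow_right (by norm_num) hn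
  -- `K` contains `w` and the torus over the fixed field
  have hgen : ∀ K : Subgroup J, Z R ≤ K → (∀ z ∈ Z R, R.w * z * R.w ∈ K) →
      R.w ∈ K ∧ ∀ l : Fˣ, σ (l : F) = l → R.d l ∈ K := by
    intro K hK hKw
    have hw : R.w ∈ K := by
      set z₁ : Heis σ := zet 1 (map_one σ) with hz₁
      have hz1b : z₁.b ≠ 0 := one_ne_zero
      have r := R.rel z₁ hz1b
      have hmk1 : Units.mk0 z₁.b hz1b = 1 := Units.ext rfl
      rw [hmk1, map_one, mul_one] at r
      have h1 : R.u (fl z₁ hz1b) ∈ K := hK ((u_mem_Z R).2 (by simp [hz₁]))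
      have h2 : R.u (fr z₁ hz1b) ∈ K := hK ((u_mem_Z R).2 (by simp [hz₁]))
      have h3 := hKw _ ((u_mem_Z R).2 (show z₁.a = 0 from rfl))
      rw [r] at h3
      have h4 := K.mul_mem (K.mul_mem (K.inv_mem h1) h3) (K.inv_mem h2)
      have : (R.u (fl z₁ hz1b))⁻¹ * (R.u (fl z₁ hz1b) * R.w * R.u (fr z₁ hz1b)) *
        (R.u (fr z₁ hz1b))⁻¹ = R.w := by group
      rwa [this] at h4
    refine ⟨hw, fun l hl => ?_⟩
    set z₁ : Heis σ := zet (l : F) hl with hz₁
    have hz1b : z₁.b ≠ 0 := l.ne_zero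
    have r := R.rel z₁ hz1b
    have hmk1 : Units.mk0 z₁.b hz1b = l := Units.ext rfl
    rw [hmk1] at r
    have h1 : R.u (fl z₁ hz1b) ∈ K := hK ((u_mem_Z R).2 (by simp [hz₁]))
    have h2 : R.u (fr z₁ hz1b) ∈ K := hK ((u_mem_Z R).2 (by simp [hz₁]))
    have h3 := hKw _ ((u_mem_Z R).2 (show z₁.a = 0 from rfl))
    rw [r] at h3
    have h4 := K.mul_mem (K.mul_mem (K.inv_mem (K.mul_mem h1 hw)) h3) (K.inv_mem h2)
    have : (R.u (fl z₁ hz1b) * R.w)⁻¹ * (R.u (fl z₁ hz1b) * R.w * R.d l * R.u (fr z₁ hz1b)) *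
      (R.u (fr z₁ hz1b))⁻¹ = R.d l := by group
    rwa [this] at h4
  obtain ⟨hw, hd⟩ := hgen H hZ hZw
  have hfixA : ∀ p : F, σ p = p → ∀ a ∈ As R H, p * a ∈ As R H := by
    intro p hp a ha
    by_cases hp0 : p = 0
    · rw [hp0, zero_mul]; exact As_zero R H
    · have h1 := As_wt R (z := 1) (m := Units.mk0 p hp0) (by
        rw [map_one, one_mul]; exact hd _ hp) ha
      rwa [wt_of_fixed (σ := σ) (l := Units.mk0 p hp0) hp] at h1
  obtain ⟨lam, hlam0, hlam1, hlams⟩ : ∃ lam : F, lam ≠ 0 ∧ lam ≠ 1 ∧ σ lam = lam := by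
    have h1 := (card_fixed (σ := σ) (q := 2 ^ n) (by omega) hs hF).1
    have hfin : Finite {x : F // σ x = x} := inferInstance
    by_contra hcon
    push Not at hcon
    have h2 : ∀ x : {x : F // σ x = x}, (x : F) = 0 ∨ (x : F) = 1 := by
      rintro ⟨x, hx⟩
      by_contra h
      push Not at h
      exact hcon x h.1 h.2 hx
    classical
    let f : {x : F // σ x = x} → Bool := fun x => decide ((x : F) = 0)
    have hf : Function.Injective f := by
      intro x y hxy
      apply Subtype.ext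
      have hxy' : decide ((x : F) = 0) = decide ((y : F) = 0) := hxy
      rw [decide_eq_decide] at hxy'
      rcases h2 x with hx | hx <;> rcases h2 y with hy | hy
      · rw [hx, hy]
      · rw [hy, hx] at hxy'; simp at hxy'
      · rw [hy, hx] at hxy'; simp at hxy'
      · rw [hx, hy]
    have h3 := Nat.card_le_card_of_injective f hf
    rw [h1] at h3
    have h4 : Nat.card Bool = 2 := by simp
    rw [h4] at h3
    omega
  have hwtl : wt σ (Units.mk0 lam hlam0) = lam := wt_of_fixed (σ := σ) hlams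
  have hne : 1 + lam ≠ 0 := by
    intro h
    exact hlam1 (CharTwo.add_eq_zero.1 h).symm
  have hlA : ∀ t ∈ As R H, (1 + lam) * t ∈ As R H :=
    hfixA _ (by rw [map_add, map_one, hlams])
  -- the Bruhat decomposition of the elements of `H`
  have hbig : ∀ (x : Heis σ) (b : J), b ∈ R.B → R.u x * R.w * b ∈ H → x.a ∈ As R H := by
    intro x b hbB h
    -- the conjugate subgroup
    have h1 : R.d (Units.mk0 lam hlam0) ∈ cj (R.u x)⁻¹ H := by
      apply (hgen (cj (R.u x)⁻¹ H) ?_ ?_).2 _ hlams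
      · intro z hz
        rw [mem_cj, inv_inv]
        exact hZ ((frame R (by omega) hs hF).Zn _ (R.T_le_B (R.u_mem x)) z hz)
      · intro z hz
        rw [mem_cj, inv_inv]
        have e : R.u x * (R.w * z * R.w) * (R.u x)⁻¹ =
            (R.u x * R.w * b) * (b⁻¹ * z * b) * (R.u x * R.w * b)⁻¹ := by
          have : (R.u x * R.w * b) * (b⁻¹ * z * b) * (R.u x * R.w * b)⁻¹ =
            R.u x * (R.w * z * R.w⁻¹) * (R.u x)⁻¹ := by group
          rw [this, R.w_inv]
        rw [e]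
        exact H.mul_mem (H.mul_mem h (hZ ((frame R (by omega) hs hF).Zn' hbB hz))) (H.inv_mem h)
    rw [mem_cj, inv_inv] at h1
    have h2 := H.mul_mem h1 (H.inv_mem (hd (Units.mk0 lam hlam0) hlams))
    have e : R.u x * R.d (Units.mk0 lam hlam0) * (R.u x)⁻¹ * (R.d (Units.mk0 lam hlam0))⁻¹ =
        R.u (x * (act (Units.mk0 lam hlam0) x)⁻¹) := by
      rw [map_mul, map_inv, R.u_act]; group
    rw [e] at h2
    have h3 : (1 + lam) * x.a ∈ As R H := by
      refine ⟨_, h2, ?_⟩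
      simp only [mul_a, inv_a, act_a]
      rw [hwtl]; ring
    exact div_mem hne hlA h3
  by_cases hall : ∀ y : Heis σ, R.u y ∈ H → y.a = 0
  · -- `As H = 0`
    obtain ⟨x, hx⟩ := HermHeis.exists_heis_a (σ := σ) (q := 2 ^ n) (by omega) hs hF 1
    have hzero : ∀ a ∈ As R H, a = 0 := by
      rintro _ ⟨y, hy, rfl⟩
      exact hall y hy
    apply three_false R hb hZ (l := Units.mk0 lam hlam0) (hd _ hlams) (by rw [hwtl]; exact hlam1) (x := x)
      (by
        intro h
        have := hzero _ h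
        rw [hx] at this
        exact one_ne_zero this)
    intro g hg hg2
    rcases R.bruhat g with h | ⟨z, y, l, h⟩
    · exact h
    · exfalso
      have hb1 : R.u y * R.d l ∈ R.B := ⟨y, l, rfl⟩
      have k1 := hzero _ (hbig z _ hb1 (by rw [← h]; exact hg))
      have k2 := hzero _ (hbig ((x * act (Units.mk0 lam hlam0) x)⁻¹ * z)
        (R.u y * R.d l * R.u (x * act (Units.mk0 lam hlam0) x))
        (R.B.mul_mem hb1 (R.T_le_B (R.u_mem _))) (by
          rw [h] at hg2
          rw [map_mul, map_inv]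
          have : (R.u (x * act (Units.mk0 lam hlam0) x))⁻¹ * R.u z * R.w *
            (R.u y * R.d l * R.u (x * act (Units.mk0 lam hlam0) x)) =
            (R.u (x * act (Units.mk0 lam hlam0) x))⁻¹ * (R.u z * R.w * (R.u y * R.d l)) *
              R.u (x * act (Units.mk0 lam hlam0) x) := by group
          rw [this]; exact hg2))
      simp only [mul_a, inv_a, act_a] at k2
      rw [k1, hwtl, hx] at k2
      apply hne
      linear_combination k2
  · push Not at hall
    obtain ⟨y, hy, hya⟩ := hall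
    have hyb : y.b ≠ 0 := heis_b_ne' hya
    have hσb : σ y.b ≠ 0 := (map_ne_zero σ).mpr hyb
    have hσa : σ y.a ≠ 0 := (map_ne_zero σ).mpr hya
    have h1 : (fl y hyb).a ∈ As R H := by
      apply hbig (fl y hyb) (R.d (Units.mk0 y.b hyb) * R.u (fr y hyb))
        (R.B.mul_mem (R.d_mem_B _) (R.T_le_B (R.u_mem _)))
      rw [← mul_assoc, ← R.rel y hyb]
      exact H.mul_mem (H.mul_mem hw hy) hw
    rw [fl_a] at h1
    have hya' : y.a ∈ As R H := ⟨y, hy, rfl⟩
    have hnf : (σ y.b)⁻¹ + (y.b)⁻¹ ≠ 0 := by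
      intro h
      have h2 := CharTwo.add_eq_zero.1 h
      rw [inv_inj] at h2
      have h3 := y.h
      rw [h2, CharTwo.add_self_eq_zero, eq_comm] at h3
      exact (mul_ne_zero hya hσa) h3
    have hAall : ∀ t : F, t ∈ As R H := by
      intro t
      set s : F := t / y.a with hs'
      set r : F := (s + σ s) / ((σ y.b)⁻¹ + (y.b)⁻¹) with hr
      have hrs : σ r = r := by
        rw [hr, map_div₀, map_add, map_add, HermHeis.sig, map_inv₀, map_inv₀, HermHeis.sig,
          add_comm (σ s), add_comm (y.b)⁻¹]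
      set p : F := s + r * (σ y.b)⁻¹ with hp
      have hps : σ p = p := by
        rw [hp, map_add, map_mul, hrs, map_inv₀, HermHeis.sig]
        have h2 : r * ((σ y.b)⁻¹ + (y.b)⁻¹) = s + σ s := by
          rw [hr]; exact div_mul_cancel₀ _ hnf
        linear_combination -h2 + CharTwo.add_self_eq_zero (r * (y.b)⁻¹) - CharTwo.add_self_eq_zero s + CharTwo.add_self_eq_zero (σ s) - CharTwo.add_self_eq_zero (σ s)
      have h2 := As_add R (hfixA p hps _ hya') (hfixA r hrs _ h1)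
      have h3 : p * y.a + r * (y.a / σ y.b) = t := by
        have h4 : t = s * y.a := by rw [hs']; field_simp
        rw [h4, hp]
        have h5 : r * (y.a / σ y.b) = r * (σ y.b)⁻¹ * y.a := by field_simp
        rw [h5]
        linear_combination CharTwo.add_self_eq_zero (r * (σ y.b)⁻¹ * y.a)
      rwa [h3] at h2
    have hUH : ∀ x : Heis σ, R.u x ∈ H := fun x => u_mem_of_As R hZ (hAall _)
    have hdH : ∀ l : Fˣ, R.d l ∈ H := by
      intro l
      obtain ⟨x, hx⟩ := Cfsg.Agent.SuzukiRankOne.PSUModel.exists_b (σ := σ) (by omega) hs hF (l : F)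
      have hxb : x.b ≠ 0 := by rw [hx]; exact l.ne_zero
      have r := R.rel x hxb
      have hmk : Units.mk0 x.b hxb = l := Units.ext (by rw [Units.val_mk0, hx])
      rw [hmk] at r
      have h2 := H.mul_mem (H.mul_mem hw (hUH x)) hw
      rw [r] at h2
      have h4 := H.mul_mem (H.mul_mem (H.inv_mem (H.mul_mem (hUH (fl x hxb)) hw)) h2)
        (H.inv_mem (hUH (fr x hxb)))
      have : (R.u (fl x hxb) * R.w)⁻¹ * (R.u (fl x hxb) * R.w * R.d l * R.u (fr x hxb)) *
        (R.u (fr x hxb))⁻¹ = R.d l := by group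
      rwa [this] at h4
    apply hH
    rw [eq_top_iff]
    intro g _
    rcases R.bruhat g with ⟨x, l, h⟩ | ⟨x, y, l, h⟩
    · rw [h]; exact H.mul_mem (hUH _) (hdH _)
    · rw [h]; exact H.mul_mem (H.mul_mem (hUH _) hw) (H.mul_mem (hUH _) (hdH _))

theorem Z_ne_bot : Z R ≠ ⊥ := by
  intro h
  have h1 : R.u (zet 1 (map_one σ)) ∈ Z R := (u_mem_Z R).2 rfl
  rw [h, Subgroup.mem_bot] at h1
  have h2 : (zet 1 (map_one σ) : Heis σ) = 1 := R.u_inj (by rw [h1, map_one])
  exact one_ne_zero (congrArg Heis.b h2)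

theorem mem_Z_iff (hn : 1 ≤ n) (hs : ∀ x, σ x = x ^ (2 ^ n)) (hF : Nat.card F = (2 ^ n) ^ 2) :
    ∀ x ∈ R.T, x ∈ Z R ↔ ∀ y ∈ R.T, y * x = x * y := by
  have hq : 1 < 2 ^ n := Nat.one_lt_two_pow (by omega)
  rintro _ ⟨x, rfl⟩
  rw [u_mem_Z, ← HermHeis.mem_center_iff hq hs hF, Subgroup.mem_center_iff]
  constructor
  · rintro h _ ⟨y, rfl⟩
    rw [← map_mul, ← map_mul, h]
  · intro h y
    apply R.u_inj
    rw [map_mul, map_mul]
    exact h _ ⟨y, rfl⟩

include R in
/-- **Binary actions of `PSU₃(2^n)` on the cosets of subgroups of even order.** -/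
theorem binary_iff [Finite J] (hn : 2 ≤ n) (hs : ∀ x, σ x = x ^ (2 ^ n)) (hF : Nat.card F = (2 ^ n) ^ 2)
    (hone : ∀ s t : J, orderOf s = 2 → orderOf t = 2 → IsConj s t)
    {H : Subgroup J} (hH : H ≠ ⊤) (heven : Even (Nat.card H)) :
    Binary H ↔ ∃ P : Sylow 2 J, H = (Subgroup.center (P : Subgroup J)).map (P : Subgroup J).subtype := by
  have hf := frame R (by omega) hs hF
  rw [hf.center_iff (Z_ne_bot R) (mem_Z_iff R (by omega) hs hF)]
  constructor
  · intro hb
    exact hf.eq_cj (Z_ne_bot R) hb hone heven hH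
      (fun H hb hZ hHU => unip_eq R hn hs hF hb hZ hHU)
      (fun H hb hZ hHB k hk hk1 hkw hkZ => torus_false R (by omega) hs hF hb hZ hHB hk hk1 hkw hkZ)
      (fun H hb hH hZ hZw => two_false R hn hs hF hb hH hZ hZw)
  · rintro ⟨g, rfl⟩
    exact hf.binary_cj_Z g

/-- transport along an isomorphism -/
def map {K : Type*} [Group K] (f : J ≃* K) : URelX K σ where
  toURel := R.toURel.map f
  rel x hx := by
    show f R.w * f (R.u x) * f R.w =
      f (R.u (fl x hx)) * f R.w * f (R.d (Units.mk0 x.b hx)) * f (R.u (fr x hx))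
    rw [← map_mul, ← map_mul, ← map_mul, ← map_mul, ← map_mul, R.rel]

end URelX

/-- **Binary actions of groups isomorphic to `PSU₃(2^n)` on the cosets of subgroups of even order.** -/
theorem psu_binary_iff {G : Type*} [Group G] [Finite G] {F : Type*} [Field F] [Finite F] {n : ℕ}
    (hn : 2 ≤ n) (hF : Nat.card F = (2 ^ n) ^ 2) (e : Nonempty (G ≃* Cfsg.PSU 3 F (2 ^ n)))
    (hone : ∀ s t : G, orderOf s = 2 → orderOf t = 2 → IsConj s t)
    {H : Subgroup G} (hH : H ≠ ⊤) (heven : Even (Nat.card H)) :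
    Binary H ↔ ∃ P : Sylow 2 G, H = (Subgroup.center (P : Subgroup G)).map (P : Subgroup G).subtype := by
  obtain ⟨h2, σ, hσ, hs, -, -⟩ := PSUThreeSylow.exists_heis_equiv F (n := n) (by omega) hF
  obtain ⟨R⟩ := nonempty_urelx (σ := σ) (n := n) (by omega) hs hF
  obtain ⟨e⟩ := e
  exact (R.map e.symm).binary_iff hn hs hF hone hH heven

end Cfsg.Agent.H896
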