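import Cfsg.Agent.H896.SuzTab

/-!
# Transfer tables for the Suzuki case of S3935 (task 443, helper896): exponent lists

`E0 w`, `E1 w` : the exponents (with multiplicity) of the products `P0 w`, `P1 w`; `cn L n t` : the parity of the number of
`e ∈ L` with `n + e = t`.
-/

set_option autoImplicit false

namespace Cfsg.Agent.H896.SuzTab

/-! ### bits -/

theorem build_lt {f : ℕ → ℕ} (hf : ∀ k, f k < 2 ^ 80) (n : ℕ) : build f n < 2 ^ (80 * n) := by
  induction n with
  | zero => simp [build]
  | succ n ih =>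
    have h1 := hf n
    have h2 : (2 : ℕ) ^ (80 * (n + 1)) = 2 ^ (80 * n) * 2 ^ 80 := by rw [← pow_add]; ring_nf
    rw [build, h2]
    calc 2 ^ (80 * n) * f n + build f n < 2 ^ (80 * n) * f n + 2 ^ (80 * n) := by omega
      _ = 2 ^ (80 * n) * (f n + 1) := by ring
      _ ≤ _ := Nat.mul_le_mul_left _ h1

theorem testBit_build {f : ℕ → ℕ} (hf : ∀ k, f k < 2 ^ 80) {n i j : ℕ} (hi : i < n) (hj : j < 80) :
    (build f n).testBit (80 * i + j) = (f i).testBit j := by
  induction n with
  | zero => omega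
  | succ n ih =>
    rw [build, Nat.testBit_two_pow_mul_add _ (build_lt hf n)]
    by_cases h : i < n
    · rw [if_pos (by omega), ih h]
    · have h1 : i = n := by omega
      subst h1
      rw [if_neg (by omega)]
      congr 1
      omega

theorem rowStep_lt (G : List (ℕ × ℕ)) (T i : ℕ) : rowStep G T i < 2 ^ 80 := by
  induction G with
  | nil => rw [rowStep]; positivity
  | cons m G ih =>
    rw [rowStep]
    apply Nat.xor_lt_two_pow _ ih
    split_ifs
    · exact Nat.mod_lt _ (by positivity)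
    · positivity

/-- the entry -/
def tb (T : ℕ) (n n' : ℕ × ℕ) : Bool := T.testBit (80 * (8 * n.1 + n.2) + (8 * n'.1 + n'.2))

/-- the step, on functions -/
def sgm (G : List (ℕ × ℕ)) (f : ℕ × ℕ → Bool) (n : ℕ × ℕ) : Bool :=
  match G with
  | [] => false
  | m :: G => xor (if (n.1 + m.1) % 2 = 0 then f (n.2 + m.2, (n.1 + m.1) / 2) else false) (sgm G f n)

/-- the states -/
def Box (n : ℕ × ℕ) : Prop := n.1 < 10 ∧ n.2 < 8

theorem testBit_row (T k : ℕ) {j : ℕ} (hj : j < 80) : (row T k).testBit j = T.testBit (80 * k + j) := by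
  rw [row, Nat.testBit_mod_two_pow, Nat.testBit_shiftRight]
  simp [hj]

theorem testBit_rowStep (G : List (ℕ × ℕ)) (T : ℕ) {n n' : ℕ × ℕ} (hn : Box n) (hn' : Box n') :
    (rowStep G T (8 * n.1 + n.2)).testBit (8 * n'.1 + n'.2) = sgm G (fun k => tb T k n') n := by
  have h1 : (8 * n.1 + n.2) / 8 = n.1 := by have := hn.2; omega
  have h2 : (8 * n.1 + n.2) % 8 = n.2 := by have := hn.2; omega
  have h3 : 8 * n'.1 + n'.2 < 80 := by have := hn'.1; have := hn'.2; omega
  induction G with
  | nil => rw [rowStep, sgm, Nat.zero_testBit]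
  | cons m G ih =>
    rw [rowStep, sgm, Nat.testBit_xor, ih, h1, h2]
    congr 1
    split_ifs
    · rw [testBit_row _ _ h3]
      rfl
    · rw [Nat.zero_testBit]

theorem tb_stepT (G : List (ℕ × ℕ)) (T : ℕ) {n n' : ℕ × ℕ} (hn : Box n) (hn' : Box n') :
    tb (stepT G T) n n' = sgm G (fun k => tb T k n') n := by
  rw [tb, stepT, testBit_build (rowStep_lt G T) (by have := hn.1; have := hn.2; omega)
    (by have := hn'.1; have := hn'.2; omega), testBit_rowStep G T hn hn']

theorem tb_xor (S T : ℕ) (n n' : ℕ × ℕ) : tb (S ^^^ T) n n' = xor (tb S n n') (tb T n n') := by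
  rw [tb, Nat.testBit_xor]
  rfl

theorem tb_idT {n n' : ℕ × ℕ} (hn : Box n) (hn' : Box n') : tb idT n n' = decide (n.1 = n'.1 ∧ n.2 = n'.2) := by
  have h1 := hn.1
  have h2 := hn.2
  have h3 := hn'.1
  have h4 := hn'.2
  have key : ∀ k : ℕ, (if k < 80 then 2 ^ k else 0) < 2 ^ 80 := by
    intro k
    split_ifs with h
    · exact Nat.pow_lt_pow_right (by norm_num) h
    · positivity
  have hb : idT = build (fun k => if k < 80 then 2 ^ k else 0) 80 := by
    have : ∀ n ≤ 80, build (fun k => 2 ^ k) n = build (fun k => if k < 80 then 2 ^ k else 0) n := by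
      intro n hn
      induction n with
      | zero => rfl
      | succ n ih => rw [build, build, ih (by omega), if_pos (by omega)]
    rw [idT, this 80 le_rfl]
  rw [tb, hb]
  clear hb
  rw [testBit_build key (by omega) (by omega), if_pos (by omega), Nat.testBit_two_pow]
  congr 1
  apply propext
  constructor
  · intro h
    omega
  · rintro ⟨h, h'⟩
    omega

/-! ### exponent lists -/

def cmb (G L : List (ℕ × ℕ)) : List (ℕ × ℕ) :=
  match G with
  | [] => []
  | m :: G => L.map (fun e => (m.1 + 2 * e.2, m.2 + e.1)) ++ cmb G L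

def xL (G : List (ℕ × ℕ)) : List (ℕ × ℕ) := G.map fun m => (m.1 + 1, m.2)

def E0 : List (List (ℕ × ℕ)) → List (ℕ × ℕ)
  | [] => [(0, 0)]
  | G :: w => cmb G (E0 w)

def E1 : List (List (ℕ × ℕ)) → List (ℕ × ℕ)
  | [] => []
  | G :: w => cmb (xL G) (E0 w) ++ cmb G (E1 w)

/-- parity of the number of `e ∈ L` with `n + e = t` -/
def cn (L : List (ℕ × ℕ)) (n t : ℕ × ℕ) : Bool :=
  match L with
  | [] => false
  | e :: L => xor (decide (n.1 + e.1 = t.1 ∧ n.2 + e.2 = t.2)) (cn L n t)

theorem cn_append (L L' : List (ℕ × ℕ)) (n t : ℕ × ℕ) : cn (L ++ L') n t = xor (cn L n t) (cn L' n t) := by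
  induction L with
  | nil => rw [List.nil_append, cn, Bool.false_xor]
  | cons e L ih => rw [List.cons_append, cn, cn, ih, Bool.xor_assoc]

def Mv (t : ℕ × ℕ) : ℕ × ℕ := (2 * t.2, t.1)

def Mp (l : ℕ) (t : ℕ × ℕ) : ℕ × ℕ := Mv^[l] t

theorem Mp_succ (l : ℕ) (t : ℕ × ℕ) : Mp (l + 1) t = Mv (Mp l t) := Function.iterate_succ_apply' _ _ _

theorem Mp_odd (m : ℕ) (t : ℕ × ℕ) : Mp (2 * m + 1) t = (2 ^ (m + 1) * t.2, 2 ^ m * t.1) := by
  induction m with
  | zero => simp [Mp, Mv]
  | succ m ih =>
    have : 2 * (m + 1) + 1 = 2 * m + 1 + 1 + 1 := by ring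
    rw [this, Mp_succ, Mp_succ, ih]
    simp only [Mv]
    ext <;> simp <;> ring

theorem cn_map (m : ℕ × ℕ) (L : List (ℕ × ℕ)) (n t : ℕ × ℕ) :
    cn (L.map fun e => (m.1 + 2 * e.2, m.2 + e.1)) n (Mv t) =
      if (n.1 + m.1) % 2 = 0 then cn L (n.2 + m.2, (n.1 + m.1) / 2) t else false := by
  induction L with
  | nil => rw [List.map_nil, cn, cn]; simp
  | cons e L ih =>
    rw [List.map_cons, cn, cn, ih]
    by_cases h : (n.1 + m.1) % 2 = 0
    · rw [if_pos h, if_pos h]
      congr 1
      apply decide_eq_decide.2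
      simp only [Mv]
      constructor
      · rintro ⟨h1, h2⟩
        constructor <;> omega
      · rintro ⟨h1, h2⟩
        constructor <;> omega
    · rw [if_neg h, if_neg h, Bool.xor_false, decide_eq_false_iff_not]
      simp only [Mv]
      rintro ⟨h1, h2⟩
      omega

theorem cn_cmb (G L : List (ℕ × ℕ)) (n t : ℕ × ℕ) : cn (cmb G L) n (Mv t) = sgm G (fun k => cn L k t) n := by
  induction G with
  | nil => rfl
  | cons m G ih => rw [cmb, cn_append, cn_map, ih, sgm]

/-- the letters -/
def Small (G : List (ℕ × ℕ)) : Prop := ∀ m ∈ G, m.1 ≤ 5 ∧ m.2 ≤ 2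

theorem small_LA : Small LA := by unfold Small LA; decide
theorem small_LN : Small LN := by unfold Small LN; decide
theorem small_xA : Small xA := by unfold Small xA; decide
theorem small_xN : Small xN := by unfold Small xN; decide
theorem xL_LA : xL LA = xA := rfl
theorem xL_LN : xL LN = xN := rfl

theorem sgm_congr {G : List (ℕ × ℕ)} (hG : Small G) {f g : ℕ × ℕ → Bool} (h : ∀ k, Box k → f k = g k)
    {n : ℕ × ℕ} (hn : Box n) : sgm G f n = sgm G g n := by
  induction G with
  | nil => rfl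
  | cons m G ih =>
    rw [sgm, sgm, ih (fun m hm => hG m (List.mem_cons_of_mem _ hm))]
    congr 1
    have hm := hG m (List.mem_cons_self)
    split_ifs
    · apply h
      have h1 := hn.1
      have h2 := hn.2
      constructor
      · show n.2 + m.2 < 10
        omega
      · show (n.1 + m.1) / 2 < 8
        omega
    · rfl

theorem sgm_xor (G : List (ℕ × ℕ)) (f g : ℕ × ℕ → Bool) (n : ℕ × ℕ) :
    sgm G (fun k => xor (f k) (g k)) n = xor (sgm G f n) (sgm G g n) := by
  induction G with
  | nil => rfl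
  | cons m G ih =>
    rw [sgm, sgm, sgm, ih]
    split_ifs
    · generalize f (n.2 + m.2, (n.1 + m.1) / 2) = a
      generalize g (n.2 + m.2, (n.1 + m.1) / 2) = b
      generalize sgm G f n = c
      generalize sgm G g n = d
      revert a b c d
      decide
    · simp only [Bool.false_xor]

theorem cn_zero (n t : ℕ × ℕ) : cn (E0 []) n t = decide (n.1 = t.1 ∧ n.2 = t.2) := by
  rw [E0, cn, cn, Bool.xor_false]
  simp

/-- **the tables count** -/
theorem main_tab (l : ℕ) : ∀ n n', Box n → Box n' →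
    tb (F^[l] s0).1 n n' = cn (E0 (List.replicate l LA)) n (Mp l n') ∧
      tb (F^[l] s0).2 n n' = cn (E1 (List.replicate l LA)) n (Mp l n') := by
  induction l with
  | zero =>
    intro n n' hn hn'
    constructor
    · rw [List.replicate_zero, cn_zero]
      exact tb_idT hn hn'
    · show tb 0 n n' = false
      rw [tb, Nat.zero_testBit]
  | succ l ih =>
    intro n n' hn hn'
    rw [Function.iterate_succ_apply', Mp_succ, List.replicate_succ]
    constructor
    · rw [F, tb_stepT _ _ hn hn', E0, cn_cmb]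
      exact sgm_congr small_LA (fun k hk => (ih k n' hk hn').1) hn
    · rw [F, tb_xor, tb_stepT _ _ hn hn', tb_stepT _ _ hn hn', E1, cn_append, cn_cmb, cn_cmb, xL_LA]
      congr 1
      · exact sgm_congr small_xA (fun k hk => (ih k n' hk hn').1) hn
      · exact sgm_congr small_LA (fun k hk => (ih k n' hk hn').2) hn

theorem main_fin (l : ℕ) {n n' : ℕ × ℕ} (hn : Box n) (hn' : Box n') :
    tb (fin (F^[l] s0)) n n' = cn (E1 (LN :: LN :: List.replicate l LA)) n (Mp (l + 2) n') := by
  have h0 : ∀ k, Box k → tb (F^[l] s0).1 k n' = cn (E0 (List.replicate l LA)) k (Mp l n') :=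
    fun k hk => (main_tab l k n' hk hn').1
  have h1 : ∀ k, Box k → tb (F^[l] s0).2 k n' = cn (E1 (List.replicate l LA)) k (Mp l n') :=
    fun k hk => (main_tab l k n' hk hn').2
  rw [fin, tb_xor, tb_xor, tb_stepT _ _ hn hn', tb_stepT _ _ hn hn', tb_stepT _ _ hn hn',
    show l + 2 = l + 1 + 1 from rfl, Mp_succ, E1, cn_append, cn_cmb, cn_cmb, xL_LN]
  have e1 : sgm xN (fun k => tb (stepT LN (F^[l] s0).1) k n') n =
      sgm xN (fun k => cn (E0 (LN :: List.replicate l LA)) k (Mp (l + 1) n')) n := by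
    apply sgm_congr small_xN _ hn
    intro k hk
    rw [tb_stepT _ _ hk hn', Mp_succ, E0, cn_cmb]
    exact sgm_congr small_LN h0 hk
  have e2 : sgm LN (fun k => cn (E1 (LN :: List.replicate l LA)) k (Mp (l + 1) n')) n =
      xor (sgm LN (fun k => tb (stepT xN (F^[l] s0).1) k n') n)
        (sgm LN (fun k => tb (stepT LN (F^[l] s0).2) k n') n) := by
    rw [← sgm_xor]
    apply sgm_congr small_LN _ hn
    intro k hk
    rw [tb_stepT _ _ hk hn', tb_stepT _ _ hk hn', Mp_succ, E1, cn_append, cn_cmb, cn_cmb, xL_LN]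
    congr 1
    · exact (sgm_congr small_xN h0 hk).symm
    · exact (sgm_congr small_LN h1 hk).symm
  rw [e1, e2, Bool.xor_assoc]

end Cfsg.Agent.H896.SuzTab
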