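import Cfsg.Agent.H896.SuzCount

/-!
# Transfer tables for the Suzuki case of S3935 (task 443, helper896): periodicity
-/

set_option autoImplicit false
set_option maxRecDepth 100000

namespace Cfsg.Agent.H896.SuzTab

theorem allc_eq : allc 35 (F^[3] s0) = true := by decide +kernel

theorem per_eq : F^[60] (F^[13] s0) = F^[13] s0 := by decide +kernel

theorem allc_spec (k : ℕ) : ∀ s, allc k s = true → ∀ i < k, chk (F^[2 * i] s) = true := by
  induction k with
  | zero => intro s _ i hi; omega
  | succ k ih =>
    intro s h i hi
    rw [allc, Bool.and_eq_true] at h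
    rcases i with _ | i
    · exact h.1
    · have h1 := ih _ h.2 i (by omega)
      have h2 : F^[2 * (i + 1)] s = F^[2 * i] (F (F s)) := by
        rw [show 2 * (i + 1) = 2 * i + 1 + 1 by ring, Function.iterate_succ_apply, Function.iterate_succ_apply]
      rw [h2]
      exact h1

theorem iterate_per {l : ℕ} (hl : 13 ≤ l) : F^[l + 60] s0 = F^[l] s0 := by
  obtain ⟨j, rfl⟩ := Nat.exists_eq_add_of_le hl
  have h1 : 13 + j + 60 = j + (60 + 13) := by ring
  rw [h1, Function.iterate_add_apply F j, Function.iterate_add_apply F 60, per_eq, ← Function.iterate_add_apply,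
    Nat.add_comm j 13]

theorem chk_odd (l : ℕ) : 3 ≤ l → l % 2 = 1 → chk (F^[l] s0) = true := by
  induction l using Nat.strong_induction_on with
  | _ l ih =>
    intro h3 ho
    by_cases h : l < 73
    · have h1 := allc_spec 35 _ allc_eq ((l - 3) / 2) (by omega)
      rw [← Function.iterate_add_apply] at h1
      have h2 : 2 * ((l - 3) / 2) + 3 = l := by omega
      rwa [h2] at h1
    · have h1 := ih (l - 60) (by omega) (by omega) (by omega)
      have h2 := iterate_per (l := l - 60) (by omega)
      have h4 : l - 60 + 60 = l := by omega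
      rw [h4] at h2
      rwa [h2]

end Cfsg.Agent.H896.SuzTab
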