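import Cfsg.Agent.H896.SuzPer

/-!
# Finite field existence for the Suzuki case of S3935 (task 443, helper896)
-/

set_option autoImplicit false

namespace Cfsg.Agent.H896.SuzTab

open Finset

/-! ### arithmetic of the carries -/

def st (i : ℕ) : ℕ × ℕ := (i / 8, i % 8)

theorem box_st {i : ℕ} (hi : i < 80) : Box (st i) := by
  constructor
  · show i / 8 < 10
    omega
  · show i % 8 < 8
    omega

theorem bound_E (w : List (List (ℕ × ℕ))) (hw : ∀ G ∈ w, Small G ∧ Small (xL G)) :
    (∀ e ∈ E0 w, 9 + e.1 ≤ (Mp w.length (9, 7)).1 ∧ 7 + e.2 ≤ (Mp w.length (9, 7)).2) ∧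
    (∀ e ∈ E1 w, 9 + e.1 ≤ (Mp w.length (9, 7)).1 ∧ 7 + e.2 ≤ (Mp w.length (9, 7)).2) := by
  have key : ∀ (G L : List (ℕ × ℕ)) (t : ℕ × ℕ), Small G → (∀ e ∈ L, 9 + e.1 ≤ t.1 ∧ 7 + e.2 ≤ t.2) →
      ∀ e ∈ cmb G L, 9 + e.1 ≤ (Mv t).1 ∧ 7 + e.2 ≤ (Mv t).2 := by
    intro G
    induction G with
    | nil =>
      intro L t _ _ e he
      simp [cmb] at he
    | cons m G ih =>
      intro L t hG hL e he
      rw [cmb, List.mem_append] at he
      rcases he with he | he
      · obtain ⟨e', he', rfl⟩ := List.mem_map.1 he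
        have h1 := hL e' he'
        have h2 := hG m List.mem_cons_self
        simp only [Mv]
        omega
      · exact ih L t (fun m hm => hG m (List.mem_cons_of_mem _ hm)) hL e he
  induction w with
  | nil =>
    constructor
    · intro e he
      rw [E0, List.mem_singleton] at he
      subst he
      exact ⟨le_rfl, le_rfl⟩
    · intro e he
      simp [E1] at he
  | cons G w ih =>
    have hG := hw G List.mem_cons_self
    have ih' := ih fun G hG => hw G (List.mem_cons_of_mem _ hG)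
    rw [List.length_cons, Mp_succ]
    constructor
    · intro e he
      rw [E0] at he
      exact key _ _ _ hG.1 ih'.1 e he
    · intro e he
      rw [E1, List.mem_append] at he
      rcases he with he | he
      · exact key _ _ _ hG.2 ih'.1 e he
      · exact key _ _ _ hG.1 ih'.2 e he

section K

variable {K : Type*} [Field K]

def b2 (b : Bool) : K := if b then 1 else 0

theorem b2_xor [CharP K 2] (a b : Bool) : (b2 (xor a b) : K) = b2 a + b2 b := by
  have h2 := CharTwo.two_eq_zero (R := K)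
  cases a <;> cases b <;> simp [b2]
  linear_combination -h2

theorem b2_diag [CharP K 2] (T k : ℕ) : (b2 (diag T k) : K) = ∑ i ∈ range k, b2 (T.testBit (81 * i)) := by
  induction k with
  | zero => rfl
  | succ k ih => rw [diag, b2_xor, ih, sum_range_succ, add_comm]

theorem count_single {m : ℕ} {e : ℕ × ℕ} (h1 : 9 + e.1 ≤ (Mp (2 * m + 1) (9, 7)).1)
    (h2 : 7 + e.2 ≤ (Mp (2 * m + 1) (9, 7)).2) :
    (∑ i ∈ range 80, b2 (decide ((st i).1 + e.1 = (Mp (2 * m + 1) (st i)).1 ∧
      (st i).2 + e.2 = (Mp (2 * m + 1) (st i)).2)) : K) =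
      if 2 ^ (2 * m + 1) - 1 ∣ e.1 + 2 ^ (m + 1) * e.2 then 1 else 0 := by
  simp only [Mp_odd, st] at h1 h2 ⊢
  obtain ⟨e1, e2⟩ := e
  simp only at h1 h2 ⊢
  set Q := 2 ^ m with hQ
  have hQ0 : 0 < Q := by positivity
  have hq : 2 ^ (2 * m + 1) = 2 * (Q * Q) := by rw [hQ]; ring
  have hq' : 2 ^ (m + 1) = 2 * Q := by rw [hQ]; ring
  rw [hq, hq']
  rw [hq'] at h1
  have hpos : 0 < 2 * (Q * Q) - 1 := by
    have : 0 < Q * Q := by positivity
    omega
  -- the value
  have hval : ∀ i : ℕ, (i / 8 + e1 = 2 * Q * (i % 8) ∧ i % 8 + e2 = Q * (i / 8)) →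
      e1 + 2 * Q * e2 = (2 * (Q * Q) - 1) * (i / 8) := by
    rintro i ⟨h3, h4⟩
    have h5 : e1 + 2 * Q * e2 + i / 8 = 2 * (Q * Q) * (i / 8) := by
      calc e1 + 2 * Q * e2 + i / 8 = (i / 8 + e1) + 2 * Q * e2 := by ring
        _ = 2 * Q * (i % 8 + e2) := by rw [h3]; ring
        _ = 2 * (Q * Q) * (i / 8) := by rw [h4]; ring
    rw [Nat.sub_mul, one_mul, ← h5, Nat.add_sub_cancel]
  by_cases h : 2 * (Q * Q) - 1 ∣ e1 + 2 * Q * e2
  · rw [if_pos h]
    obtain ⟨a, ha⟩ := h
    have ha' : e1 + 2 * Q * e2 + a = 2 * Q * (Q * a) := by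
      rw [ha, Nat.sub_mul, one_mul]
      have : a ≤ 2 * (Q * Q) * a := Nat.le_mul_of_pos_left _ (by positivity)
      rw [Nat.sub_add_cancel this]
      ring
    have hle : e2 ≤ Q * a := by
      have h3 : 2 * Q * e2 ≤ 2 * Q * (Q * a) := by omega
      exact Nat.le_of_mul_le_mul_left h3 (by positivity)
    obtain ⟨b, hb⟩ := Nat.exists_eq_add_of_le hle
    have hb1 : a + e1 = 2 * Q * b := by
      rw [hb, Nat.mul_add] at ha'
      omega
    have ha9 : a < 10 := by
      have h3 : (2 * (Q * Q) - 1) * a ≤ (2 * (Q * Q) - 1) * 9 := by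
        rw [← ha]
        have h4 : e1 + 2 * Q * e2 + 9 ≤ 2 * (Q * Q) * 9 := by
          have h5 : 2 * Q * (7 + e2) ≤ 2 * Q * (Q * 9) := Nat.mul_le_mul_left _ h2
          have h6 : 2 * Q * (7 + e2) = 2 * Q * 7 + 2 * Q * e2 := by ring
          have h7 : 2 * Q * (Q * 9) = 2 * (Q * Q) * 9 := by ring
          omega
        rw [Nat.sub_mul]
        omega
      have := Nat.le_of_mul_le_mul_left h3 hpos
      omega
    have hb8 : b < 8 := by
      have h3 : 2 * Q * b ≤ 2 * Q * 7 := by omega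
      have := Nat.le_of_mul_le_mul_left h3 (by positivity)
      omega
    have key : ∀ i ∈ range 80, (b2 (decide (i / 8 + e1 = 2 * Q * (i % 8) ∧ i % 8 + e2 = Q * (i / 8))) : K) =
        if i = 8 * a + b then 1 else 0 := by
      intro i hi
      by_cases hi' : i = 8 * a + b
      · have h3 : i / 8 = a := by omega
        have h4 : i % 8 = b := by omega
        rw [if_pos hi', h3, h4, b2, if_pos]
        apply decide_eq_true
        exact ⟨hb1, by omega⟩
      · rw [if_neg hi', b2, if_neg]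
        intro h3
        apply hi'
        have h4 := of_decide_eq_true h3
        have h5 := hval i h4
        rw [ha] at h5
        have h6 : a = i / 8 := Nat.eq_of_mul_eq_mul_left hpos h5
        have h7 := h4.2
        rw [← h6] at h7
        omega
    rw [sum_congr rfl key, sum_ite_eq', if_pos]
    rw [mem_range]
    omega
  · rw [if_neg h]
    apply sum_eq_zero
    intro i _
    rw [b2, if_neg]
    intro h3
    apply h
    have h4 := hval i (of_decide_eq_true h3)
    exact ⟨_, h4⟩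

theorem count_list [CharP K 2] {m : ℕ} (L : List (ℕ × ℕ)) (h : ∀ e ∈ L, 9 + e.1 ≤ (Mp (2 * m + 1) (9, 7)).1 ∧
    7 + e.2 ≤ (Mp (2 * m + 1) (9, 7)).2) :
    (∑ i ∈ range 80, b2 (cn L (st i) (Mp (2 * m + 1) (st i))) : K) =
      (L.map fun e => if 2 ^ (2 * m + 1) - 1 ∣ e.1 + 2 ^ (m + 1) * e.2 then (1 : K) else 0).sum := by
  induction L with
  | nil =>
    rw [List.map_nil, List.sum_nil]
    apply sum_eq_zero
    intro i _
    rfl
  | cons e L ih =>
    rw [List.map_cons, List.sum_cons, ← ih fun e he => h e (List.mem_cons_of_mem _ he),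
      ← count_single (h e List.mem_cons_self).1 (h e List.mem_cons_self).2, ← sum_add_distrib]
    apply sum_congr rfl
    intro i _
    rw [cn, b2_xor]

theorem total [CharP K 2] {m : ℕ} (hm : 2 ≤ m) :
    ((E1 (LN :: LN :: List.replicate (2 * m - 1) LA)).map fun e =>
      if 2 ^ (2 * m + 1) - 1 ∣ e.1 + 2 ^ (m + 1) * e.2 then (1 : K) else 0).sum = 1 := by
  have hb := (bound_E (LN :: LN :: List.replicate (2 * m - 1) LA) (by
    intro G hG
    rw [List.mem_cons, List.mem_cons, List.mem_replicate] at hG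
    rcases hG with rfl | rfl | ⟨-, rfl⟩
    · exact ⟨small_LN, by rw [xL_LN]; exact small_xN⟩
    · exact ⟨small_LN, by rw [xL_LN]; exact small_xN⟩
    · exact ⟨small_LA, by rw [xL_LA]; exact small_xA⟩)).2
  have hl : (LN :: LN :: List.replicate (2 * m - 1) LA).length = 2 * m + 1 := by
    rw [List.length_cons, List.length_cons, List.length_replicate]
    omega
  rw [hl] at hb
  rw [← count_list _ hb]
  have h1 : ∀ i ∈ range 80, (b2 (cn (E1 (LN :: LN :: List.replicate (2 * m - 1) LA)) (st i)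
      (Mp (2 * m + 1) (st i))) : K) = b2 ((fin (F^[2 * m - 1] s0)).testBit (81 * i)) := by
    intro i hi
    have h2 := box_st (mem_range.1 hi)
    have h3 := main_fin (2 * m - 1) h2 h2
    have h4 : 2 * m - 1 + 2 = 2 * m + 1 := by omega
    rw [h4] at h3
    rw [← h3, tb]
    congr 2
    simp only [st]
    omega
  rw [sum_congr rfl h1, ← b2_diag]
  have h5 : diag (fin (F^[2 * m - 1] s0)) 80 = true := chk_odd (2 * m - 1) (by omega) (by omega)
  rw [h5]
  rfl

end K

end Cfsg.Agent.H896.SuzTab
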