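import Mathlib

/-!
# Transfer tables for the Suzuki case of S3935 (task 443, helper896): the kernel computation

A table is a natural number of 6400 bits; the bit `80 i + j` is the entry `(i, j)`, where the index of the state `(a, b)` is
`8 a + b`, `a < 10`, `b < 8`.
-/

set_option autoImplicit false

namespace Cfsg.Agent.H896.SuzTab

/-- the table with rows `f 0, …, f (k - 1)` -/
def build (f : ℕ → ℕ) : ℕ → ℕ
  | 0 => 0
  | k + 1 => 2 ^ (80 * k) * f k + build f k

/-- row `k` -/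
def row (T k : ℕ) : ℕ := (T >>> (80 * k)) % 2 ^ 80

/-- one row of the step -/
def rowStep (G : List (ℕ × ℕ)) (T i : ℕ) : ℕ :=
  match G with
  | [] => 0
  | m :: G => (if (i / 8 + m.1) % 2 = 0 then row T (8 * (i % 8 + m.2) + (i / 8 + m.1) / 2) else 0) ^^^ rowStep G T i

/-- the step for the letter `G` -/
def stepT (G : List (ℕ × ℕ)) (T : ℕ) : ℕ := build (rowStep G T) 80

def LA : List (ℕ × ℕ) := [(0, 0), (3, 2), (4, 2)]
def LN : List (ℕ × ℕ) := [(0, 0), (3, 1)]
def xA : List (ℕ × ℕ) := [(1, 0), (4, 2), (5, 2)]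
def xN : List (ℕ × ℕ) := [(1, 0), (4, 1)]

/-- the identity table -/
def idT : ℕ := build (fun k => 2 ^ k) 80

/-- the main step -/
def F (s : ℕ × ℕ) : ℕ × ℕ := (stepT LA s.1, stepT xA s.1 ^^^ stepT LA s.2)

/-- the table of the word `N, N, A, …, A` -/
def fin (s : ℕ × ℕ) : ℕ :=
  stepT xN (stepT LN s.1) ^^^ stepT LN (stepT xN s.1) ^^^ stepT LN (stepT LN s.2)

/-- the parity of the diagonal -/
def diag (T : ℕ) : ℕ → Bool
  | 0 => false
  | k + 1 => xor (T.testBit (81 * k)) (diag T k)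

def chk (s : ℕ × ℕ) : Bool := diag (fin s) 80

def allc : ℕ → ℕ × ℕ → Bool
  | 0, _ => true
  | k + 1, s => chk s && allc k (F (F s))

def s0 : ℕ × ℕ := (idT, 0)

end Cfsg.Agent.H896.SuzTab
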