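import Cfsg.Agent.H896.Frame
import Cfsg.Agent.LieRecognition.SzMatrix

/-!
# Binary actions of `Sz(2^(2m+1))` with point stabilisers of even order (helper896)
-/

set_option autoImplicit false
set_option linter.unusedSectionVars false

namespace Cfsg.Agent.H896

open Cfsg.Agent.LieRecognition Cfsg.Agent.LieRecognition.SzMatrix
  Cfsg.Agent.LieRecognition.RankOneAbstract

section Congr

variable {G G' : Type*} [Group G] [Group G']

theorem sylow_center_congr_aux [Finite G] (e : G ≃* G') {H : Subgroup G}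
    (h : ∃ P : Sylow 2 G, H = (Subgroup.center (P : Subgroup G)).map (P : Subgroup G).subtype) :
    ∃ P : Sylow 2 G', H.map e.toMonoidHom =
      (Subgroup.center (P : Subgroup G')).map (P : Subgroup G').subtype := by
  have : Fact (Nat.Prime 2) := ⟨Nat.prime_two⟩
  obtain ⟨P, rfl⟩ := h
  have hsurj : Function.Surjective e.toMonoidHom := e.surjective
  refine ⟨P.mapSurjective hsurj, ?_⟩
  ext x
  rw [Frame.mem_center_map, Sylow.coe_mapSurjective]
  constructor
  · rintro ⟨y, hy, rfl⟩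
    have hy' := (Frame.mem_center_map (P : Subgroup G) y).1 hy
    refine ⟨⟨y, hy'.1, rfl⟩, ?_⟩
    rintro _ ⟨z, hz, rfl⟩
    rw [← map_mul, ← map_mul, hy'.2 z hz]
  · rintro ⟨⟨y, hy, rfl⟩, h⟩
    refine ⟨y, ?_, rfl⟩
    show y ∈ (Subgroup.center (P : Subgroup G)).map (P : Subgroup G).subtype
    rw [Frame.mem_center_map]
    refine ⟨hy, fun z hz => ?_⟩
    apply e.injective
    have := h (e z) ⟨z, hz, rfl⟩
    rw [map_mul, map_mul]
    exact this

theorem sylow_center_congr [Finite G] (e : G ≃* G') (H : Subgroup G) :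
    (∃ P : Sylow 2 G', H.map e.toMonoidHom =
      (Subgroup.center (P : Subgroup G')).map (P : Subgroup G').subtype) ↔
    ∃ P : Sylow 2 G, H = (Subgroup.center (P : Subgroup G)).map (P : Subgroup G).subtype := by
  refine ⟨fun h => ?_, sylow_center_congr_aux e⟩
  have : Finite G' := Finite.of_equiv G e.toEquiv
  have h1 := sylow_center_congr_aux e.symm h
  rw [Subgroup.map_map] at h1
  have h2 : e.symm.toMonoidHom.comp e.toMonoidHom = MonoidHom.id G := by
    ext x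
    exact e.symm_apply_apply x
  rwa [h2, Subgroup.map_id] at h1

theorem sylow_congr [Finite G] (e : G ≃* G') (H : Subgroup G) :
    (∃ P : Sylow 2 G', H.map e.toMonoidHom = P) ↔ ∃ P : Sylow 2 G, H = P := by
  have : Fact (Nat.Prime 2) := ⟨Nat.prime_two⟩
  have : Finite G' := Finite.of_equiv G e.toEquiv
  constructor
  · rintro ⟨P, h⟩
    have hsurj : Function.Surjective e.symm.toMonoidHom := e.symm.surjective
    refine ⟨P.mapSurjective hsurj, ?_⟩
    rw [Sylow.coe_mapSurjective, ← h, Subgroup.map_map]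
    have h2 : e.symm.toMonoidHom.comp e.toMonoidHom = MonoidHom.id G := by
      ext x
      exact e.symm_apply_apply x
    rw [h2, Subgroup.map_id]
  · rintro ⟨P, rfl⟩
    have hsurj : Function.Surjective e.toMonoidHom := e.surjective
    exact ⟨P.mapSurjective hsurj, by rw [Sylow.coe_mapSurjective]⟩

theorem map_ne_top (e : G ≃* G') {H : Subgroup G} (hH : H ≠ ⊤) : H.map e.toMonoidHom ≠ ⊤ := by
  intro h
  apply hH
  rw [eq_top_iff]
  intro x _
  have : e x ∈ H.map e.toMonoidHom := by rw [h]; trivial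
  obtain ⟨y, hy, hyx⟩ := this
  have : y = x := e.injective hyx
  rwa [← this]

theorem card_map_equiv (e : G ≃* G') (H : Subgroup G) : Nat.card (H.map e.toMonoidHom) = Nat.card H :=
  (Nat.card_congr (H.equivMapOfInjective e.toMonoidHom e.injective).toEquiv).symm

theorem one_class_congr (e : G ≃* G') (h : ∀ s t : G, orderOf s = 2 → orderOf t = 2 → IsConj s t) :
    ∀ s t : G', orderOf s = 2 → orderOf t = 2 → IsConj s t := by
  intro s t hs ht
  have h1 := h (e.symm s) (e.symm t) (by rw [MulEquiv.orderOf_eq, hs]) (by rw [MulEquiv.orderOf_eq, ht])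
  have h2 := e.toMonoidHom.map_isConj h1
  have : e.toMonoidHom (e.symm s) = s := e.apply_symm_apply s
  rw [this] at h2
  have : e.toMonoidHom (e.symm t) = t := e.apply_symm_apply t
  rwa [this] at h2

end Congr

namespace Frame

variable {G : Type*} [Group G] [Finite G] {B U Z : Subgroup G} {w : G}

theorem exists_conj_Z (F : Frame B U Z w) (hZ : Z ≠ ⊥) {t : G} (ht : orderOf t = 2) :
    ∃ g : G, g * t * g⁻¹ ∈ Z := by
  have : Fact (Nat.Prime 2) := ⟨Nat.prime_two⟩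
  obtain ⟨P, hP⟩ := F.exists_sylow hZ
  have htp : IsPGroup 2 (Subgroup.zpowers t) := by
    rw [IsPGroup.iff_card]
    exact ⟨1, by rw [Nat.card_zpowers, ht, pow_one]⟩
  obtain ⟨Q, hQ⟩ := htp.exists_le_sylow
  obtain ⟨g, hg⟩ := MulAction.exists_smul_eq G Q P
  have hgt : g * t * g⁻¹ ∈ U := by
    rw [← hP, ← hg]
    rw [Sylow.coe_subgroup_smul, Subgroup.mem_smul_pointwise_iff_exists]
    exact ⟨t, hQ (Subgroup.mem_zpowers _), rfl⟩
  refine ⟨g, F.inv' _ hgt ?_⟩
  have := mul_self_of_orderOf ht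
  have e : g * t * g⁻¹ * (g * t * g⁻¹) = g * (t * t) * g⁻¹ := by group
  rw [e, this]; group

/-- one class of involutions, if `B` is transitive on the involutions of `Z` -/
theorem one_class (F : Frame B U Z w) (hZ : Z ≠ ⊥)
    (htr : ∀ x ∈ Z, ∀ y ∈ Z, x ≠ 1 → y ≠ 1 → IsConj x y) :
    ∀ s t : G, orderOf s = 2 → orderOf t = 2 → IsConj s t := by
  intro s t hs ht
  obtain ⟨g, hg⟩ := F.exists_conj_Z hZ hs
  obtain ⟨h, hh⟩ := F.exists_conj_Z hZ ht
  have h1 : IsConj s (g * s * g⁻¹) := isConj_iff.2 ⟨g, rfl⟩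
  have h2 : IsConj t (h * t * h⁻¹) := isConj_iff.2 ⟨h, rfl⟩
  have ne : ∀ a b : G, orderOf b = 2 → a * b * a⁻¹ ≠ 1 := by
    intro a b hb h
    apply ne_one_of_orderOf hb
    have : b = a⁻¹ * (a * b * a⁻¹) * a := by group
    rw [this, h]; group
  exact (h1.trans (htr _ hg _ hh (ne _ _ hs) (ne _ _ ht))).trans h2.symm

end Frame

namespace SzG

variable {F : Type*} [Field F] {θ : F →+* F} {e : ℕ}

theorem data (H : Good F θ e) : Data H.borel H.unip H.w where
  w_not_mem := H.w_not_mem_borel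
  le := H.unip_le_borel
  norm := H.borel_normalizes
  bruhat := H.bruhat_sz
  inter := H.inter_trivial

theorem w_conj_d (H : Good F θ e) (k : Fˣ) : (H.w)⁻¹ * H.d k * H.w = H.d k⁻¹ := by
  rw [H.w_inv, H.w_mul_d, mul_assoc, H.w_mul_w, mul_one]

theorem torus_form (H : Good F θ e) {g : ↥(Cfsg.Lie.Sz F e)} (h1 : g ∈ H.borel)
    (h2 : (H.w)⁻¹ * g * H.w ∈ H.borel) : ∃ k, g = H.d k := by
  obtain ⟨a, b, k, rfl⟩ := (H.mem_borel_iff' g).mp h1
  have h3 : (H.w)⁻¹ * (H.u a b * H.d k) * H.w =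
      ((H.w)⁻¹ * H.u a b * H.w) * ((H.w)⁻¹ * H.d k * H.w) := by group
  rw [h3, w_conj_d] at h2
  have h4 : (H.w)⁻¹ * H.u a b * H.w ∈ H.borel := by
    have h5 := H.borel.mul_mem h2 (H.borel.inv_mem (H.d_mem_borel k⁻¹))
    rwa [mul_inv_cancel_right] at h5
  have h5 := H.inter_trivial _ (H.u_mem_unip a b) h4
  exact ⟨k, by rw [h5, one_mul]⟩

/-- the relation `w u(0,1) w = u(1,0)⁻¹ w u(1,0)` -/
theorem relation (H : Good F θ e) : H.w * H.u 0 1 * H.w = (H.u 1 0)⁻¹ * H.w * H.u 1 0 := by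
  rw [H.u_inv]
  apply Subtype.ext
  apply Units.ext
  have h0 := H.two
  show (W F).1 * (H.U 0 1).1 * (W F).1 = (H.U 1 (0 + 1 * θ 1)).1 * (W F).1 * (H.U 1 0).1
  rw [W_val, H.U_val, H.U_val, H.U_val, Umat_def, Umat_def, Umat_def]
  ext i j
  fin_cases i <;> fin_cases j <;>
    simp [J, Matrix.mul_apply, Fin.sum_univ_four] <;>
    first
    | linear_combination h0
    | linear_combination (-1 : F) * h0
    | linear_combination (-2 : F) * h0
    | linear_combination (-3 : F) * h0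

/-- the elements of square one of `unip` -/
def Z (H : Good F θ e) : Subgroup ↥(Cfsg.Lie.Sz F e) where
  carrier := {g | ∃ b : F, g = H.u 0 b}
  mul_mem' := by
    rintro _ _ ⟨b, rfl⟩ ⟨c, rfl⟩
    exact ⟨b + c, by rw [H.u_mul, add_zero, zero_mul, add_zero]⟩
  one_mem' := ⟨0, by rw [H.u_zero]⟩
  inv_mem' := by
    rintro _ ⟨b, rfl⟩
    exact ⟨b, by rw [H.u_inv, zero_mul, add_zero]⟩

theorem u_mem_Z (H : Good F θ e) {a b : F} : H.u a b ∈ Z H ↔ a = 0 := by
  constructor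
  · rintro ⟨c, h⟩
    exact (H.u_inj h).1
  · rintro rfl
    exact ⟨b, rfl⟩

theorem d_mul_Z (H : Good F θ e) (k : Fˣ) (b : F) : H.d k * H.u 0 b * (H.d k)⁻¹ = H.u 0 (b * θ k) := by
  rw [mul_inv_eq_iff_eq_mul, H.d_mul_u, zero_mul, zero_mul]

theorem d_mul_U (H : Good F θ e) (k : Fˣ) (a b : F) :
    H.d k * H.u a b * (H.d k)⁻¹ = H.u (a * k ^ 2 * (θ k)⁻¹) (b * θ k) := by
  rw [mul_inv_eq_iff_eq_mul, H.d_mul_u]

theorem pow_form (H : Good F θ e) (a b : F) (k : Fˣ) (m : ℕ) :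
    ∃ c d, (H.u a b * H.d k) ^ m = H.u c d * H.d (k ^ m) := by
  induction m with
  | zero => exact ⟨0, 0, by rw [pow_zero, pow_zero, H.u_zero, H.d_one, one_mul]⟩
  | succ m ih =>
    obtain ⟨c, d, h⟩ := ih
    refine ⟨c + (a * (k ^ m : Fˣ) ^ 2 * (θ (k ^ m : Fˣ))⁻¹),
      d + b * θ (k ^ m : Fˣ) + c * θ (a * (k ^ m : Fˣ) ^ 2 * (θ (k ^ m : Fˣ))⁻¹), ?_⟩
    rw [pow_succ (H.u a b * H.d k) m, h, ← H.u_mul, pow_succ k m, ← H.d_mul]
    have := H.d_mul_u (k ^ m) a b
    calc H.u c d * H.d (k ^ m) * (H.u a b * H.d k) = H.u c d * (H.d (k ^ m) * H.u a b) * H.d k := by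
          group
      _ = _ := by rw [this]; group

theorem theta_eq_one (_H : Good F θ e) {k : Fˣ} (h : θ (k : F) = 1) : k = 1 := by
  apply Units.ext
  rw [Units.val_one]
  apply θ.injective
  rw [h, map_one]

theorem frame [Finite F] (H : Good F θ e) : Frame H.borel H.unip (Z H) H.w where
  data := data H
  ww := H.w_mul_w
  ZU := by
    rintro _ ⟨b, rfl⟩
    exact H.u_mem_unip 0 b
  Zn := by
    intro g hg z hz
    obtain ⟨a, b, k, rfl⟩ := (H.mem_borel_iff' g).1 hg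
    obtain ⟨c, rfl⟩ := hz
    have : H.u a b * H.d k * H.u 0 c * (H.u a b * H.d k)⁻¹ =
        H.u a b * (H.d k * H.u 0 c * (H.d k)⁻¹) * (H.u a b)⁻¹ := by group
    rw [this, d_mul_Z, H.u_inv, H.u_mul, H.u_mul, u_mem_Z, add_zero, H.add_self]
  inv := by
    rintro _ ⟨b, rfl⟩
    rw [H.u_mul, zero_mul, add_zero, add_zero, H.add_self, H.u_zero]
  inv' := by
    intro x hx h
    obtain ⟨a, b, rfl⟩ := (H.mem_unip_iff x).1 hx
    rw [H.u_mul, H.add_self, H.add_self, zero_add, ← H.u_zero] at h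
    have h1 := (H.u_inj h).2
    rw [u_mem_Z]
    rcases mul_eq_zero.1 h1 with h2 | h2
    · exact h2
    · exact (map_eq_zero θ).1 h2
  two := by
    intro x hx m hm
    obtain ⟨a, b, k, rfl⟩ := (H.mem_borel_iff' x).1 hx
    obtain ⟨c, d, h⟩ := pow_form H a b k (2 ^ m)
    have hm' : H.u c d * H.d (k ^ 2 ^ m) = H.u 0 0 * H.d 1 := by
      rw [← h, hm, H.u_zero, H.d_one, one_mul]
    have h2 := (H.u_mul_d_inj hm').2.2
    have h3 : k ^ Nat.card Fˣ = 1 := pow_card_eq_one'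
    have h4 : CharP F 2 := CharTwo.of_one_ne_zero_of_two_eq_zero one_ne_zero H.two
    have hodd : Odd (Nat.card Fˣ) := by
      rw [Nat.card_units]
      let _ : Fintype F := Fintype.ofFinite F
      obtain ⟨n, -, hn⟩ := FiniteField.card F 2
      rw [Nat.card_eq_fintype_card, hn]
      exact Nat.Even.sub_odd (Nat.one_le_pow _ _ (by norm_num)) (Nat.even_pow.mpr ⟨even_two, n.ne_zero⟩)
        odd_one
    have h5 : k = 1 := by
      rw [← orderOf_eq_one_iff, ← Nat.dvd_one]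
      have hc : Nat.Coprime (2 ^ m) (Nat.card Fˣ) :=
        Nat.Coprime.pow_left m (Nat.coprime_two_left.2 hodd)
      rw [← Nat.Coprime.gcd_eq_one hc]
      exact Nat.dvd_gcd (orderOf_dvd_of_pow_eq_one h2) (orderOf_dvd_of_pow_eq_one h3)
    rw [h5, H.d_one, mul_one]
    exact H.u_mem_unip a b
  twoU := by
    rintro ⟨x, hx⟩
    obtain ⟨a, b, rfl⟩ := (H.mem_unip_iff x).1 hx
    refine ⟨2, Subtype.ext ?_⟩
    show H.u a b ^ (2 ^ 2) = 1
    have h2 : H.u a b ^ (2 ^ 2) = (H.u a b * H.u a b) * (H.u a b * H.u a b) := by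
      rw [show (2 ^ 2 : ℕ) = 1 + 1 + 1 + 1 from rfl, pow_add, pow_add, pow_add, pow_one]
      group
    have e1 : H.u a b * H.u a b = H.u 0 (a * θ a) := by
      rw [H.u_mul, H.add_self, H.add_self, zero_add]
    rw [h2, e1, H.u_mul, zero_mul, add_zero, add_zero, H.add_self, H.u_zero]
  Tw := by
    intro t ht htw
    obtain ⟨k, rfl⟩ := torus_form H ht htw
    rw [w_conj_d, ← H.d_inv]
    exact Subgroup.inv_mem _ (Subgroup.mem_zpowers _)
  TZ := by
    rintro t ht htw _ ⟨b, rfl⟩ hb1 h _ ⟨c, rfl⟩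
    obtain ⟨k, rfl⟩ := torus_form H ht htw
    have h1 : H.u 0 (b * θ k) = H.u 0 b := by
      rw [← d_mul_Z, h]; group
    have h2 := (H.u_inj h1).2
    have hb : b ≠ 0 := by
      rintro rfl
      exact hb1 H.u_zero
    have h3 : θ (k : F) = 1 := by
      apply mul_left_cancel₀ hb
      rw [h2, mul_one]
    rw [theta_eq_one H h3, H.d_one, one_mul, mul_one]

theorem Z_ne_bot (H : Good F θ e) : Z H ≠ ⊥ := by
  intro h
  have h1 : H.u 0 1 ∈ Z H := (u_mem_Z H).2 rfl
  rw [h, Subgroup.mem_bot, ← H.u_zero] at h1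
  exact one_ne_zero (H.u_inj h1).2

/-- the weight map is onto -/
theorem exists_wt [Finite F] (H : Good F θ e) (c : Fˣ) : ∃ k : Fˣ, (k : F) ^ 2 * (θ k)⁻¹ = c := by
  obtain ⟨c', hc'⟩ := Finite.surjective_of_injective θ.injective (c : F)
  have hc0 : c' ≠ 0 := by
    rintro rfl
    rw [map_zero] at hc'
    exact c.ne_zero hc'.symm
  have hc : (c : F) ≠ 0 := c.ne_zero
  refine ⟨Units.mk0 c' hc0 * c, ?_⟩
  rw [Units.val_mul, Units.val_mk0, map_mul, hc']
  have : θ (c : F) = c' ^ 2 := by rw [← hc', H.sq]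
  rw [this]
  field_simp

theorem exists_theta [Finite F] (c : Fˣ) : ∃ k : Fˣ, θ (k : F) = c := by
  obtain ⟨c', hc'⟩ := Finite.surjective_of_injective θ.injective (c : F)
  have hc0 : c' ≠ 0 := by
    rintro rfl
    rw [map_zero] at hc'
    exact c.ne_zero hc'.symm
  exact ⟨Units.mk0 c' hc0, hc'⟩

theorem unip_eq [Finite F] (H : Good F θ e) {K : Subgroup ↥(Cfsg.Lie.Sz F e)} (hb : Binary K)
    (hZ : Z H ≤ K) (hK : K ≤ H.unip) : K = Z H := by
  refine le_antisymm ?_ hZ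
  intro x hx
  obtain ⟨a, b, rfl⟩ := (H.mem_unip_iff x).1 (hK hx)
  rw [u_mem_Z]
  by_contra ha
  obtain ⟨k, hk⟩ := exists_wt H (Units.mk0 a ha)⁻¹
  rw [Units.val_inv_eq_inv_val, Units.val_mk0] at hk
  set K' := cj (H.d k) K with hK'
  have hb' : Binary K' := binary_cj.2 hb
  have hZ' : Z H ≤ K' := by
    intro z hz
    rw [hK', mem_cj]
    exact hZ ((frame H).Zn' (H.d_mem_borel k) hz)
  have hKU : K' ≤ H.unip := by
    intro z hz
    rw [hK', mem_cj] at hz
    have h1 := H.borel_normalizes _ (H.d_mem_borel k) _ (hK hz)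
    have : H.d k * ((H.d k)⁻¹ * z * H.d k) * (H.d k)⁻¹ = z := by group
    rwa [this] at h1
  have hs : H.u 1 0 ∈ K' := by
    have h1 : H.u 1 (b * θ k) ∈ K' := by
      have h2 : H.u 1 (b * θ k) = H.d k * H.u a b * (H.d k)⁻¹ := by
        rw [d_mul_U, mul_assoc, hk, mul_inv_cancel₀ ha]
      rw [h2, hK', mem_cj]
      have : (H.d k)⁻¹ * (H.d k * H.u a b * (H.d k)⁻¹) * H.d k = H.u a b := by group
      rw [this]; exact hx
    have h2 := K'.mul_mem h1 (hZ' ((u_mem_Z H (b := b * θ k)).2 rfl))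
    rwa [H.u_mul, add_zero, map_zero, mul_zero, add_zero, H.add_self] at h2
  clear_value K'
  set s := H.u 1 0 with hs'
  have hsU : s ∈ H.unip := H.u_mem_unip _ _
  have hs1 : s ≠ 1 := by
    intro h
    rw [hs', ← H.u_zero] at h
    exact one_ne_zero (H.u_inj h).1
  have hww := H.w_mul_w
  have hwi := H.w_inv
  have hss : s * s = H.u 0 1 := by
    rw [hs', H.u_mul, map_one, H.add_self, add_zero, zero_add, mul_one]
  have hrel : H.w * (s * s) * H.w = s⁻¹ * H.w * s := by rw [hss, relation]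
  obtain ⟨A, hA, h1, h2⟩ := hb'.ternary (x := s⁻¹) (y := H.w * s * H.w) (g₂ := H.w)
    (g₃ := s⁻¹ * H.w) (K'.inv_mem hs)
    (by
      have : (H.w)⁻¹ * (H.w * s * H.w) * H.w = s * (H.w * H.w) := by group
      rw [this, hww, mul_one]; exact hs)
    (by
      have : (s⁻¹ * H.w)⁻¹ * (s⁻¹⁻¹ * (H.w * s * H.w)) * (s⁻¹ * H.w) =
        ((H.w)⁻¹ * (s * s) * H.w) * s * H.w * s⁻¹ * H.w := by group
      rw [this, hwi, hrel]
      have : s⁻¹ * H.w * s * s * H.w * s⁻¹ * H.w = s⁻¹ * (H.w * (s * s) * H.w) * s⁻¹ * H.w := by group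
      rw [this, hrel]
      have : s⁻¹ * (s⁻¹ * H.w * s) * s⁻¹ * H.w = s⁻¹ * s⁻¹ * (H.w * H.w) := by group
      rw [this, hww, mul_one]
      exact K'.mul_mem (K'.inv_mem hs) (K'.inv_mem hs))
  have hA1 := H.inter_trivial A (hKU hA) (H.unip_le_borel (hKU h1))
  rw [hA1, mul_one, inv_inv] at h2
  have h3 : (s⁻¹ * H.w)⁻¹ * s * (s⁻¹ * H.w) = (H.w)⁻¹ * s * H.w := by group
  rw [h3] at h2
  exact hs1 (H.inter_trivial s hsU (H.unip_le_borel (hKU h2)))

theorem torus_false (H : Good F θ e) {k : ↥(Cfsg.Lie.Sz F e)} (hk : k ∈ H.borel) (hk1 : k ≠ 1)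
    (hkw : (H.w)⁻¹ * k * H.w ∈ H.borel) (hkZ : ∀ z ∈ Z H, k * z = z * k) : False := by
  obtain ⟨l, rfl⟩ := torus_form H hk hkw
  have h1 := hkZ (H.u 0 1) ((u_mem_Z H).2 rfl)
  have h2 : H.u 0 (1 * θ l) = H.u 0 1 := by
    rw [← d_mul_Z, h1]; group
  have h3 := (H.u_inj h2).2
  rw [one_mul] at h3
  apply hk1
  rw [theta_eq_one H h3, H.d_one]

theorem two_false [Finite F] (H : Good F θ e) (hF : 2 < Nat.card F) {K : Subgroup ↥(Cfsg.Lie.Sz F e)}
    (hK : K ≠ ⊤) (hZ : Z H ≤ K) (hZw : ∀ z ∈ Z H, H.w * z * H.w ∈ K) : False := by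
  have hww := H.w_mul_w
  have hwi := H.w_inv
  have hgen : ∀ K : Subgroup ↥(Cfsg.Lie.Sz F e), Z H ≤ K → (∀ z ∈ Z H, H.w * z * H.w ∈ K) →
      ∀ k : Fˣ, H.d k * H.w ∈ K := by
    intro K hZ hZw k
    have hθ : θ (k : F) ≠ 0 := by
      intro h
      exact k.ne_zero ((map_eq_zero θ).1 h)
    obtain ⟨t, ht, htw, h1, h2⟩ := (frame H).exists_swap hZ hZw (z := H.u 0 1) (z' := H.u 0 (θ (k : F))⁻¹)
      ((u_mem_Z H).2 rfl) (fun h => by
        rw [← H.u_zero] at h
        exact one_ne_zero (H.u_inj h).2) ((u_mem_Z H).2 rfl) (fun h => by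
        rw [← H.u_zero] at h
        exact inv_ne_zero hθ (H.u_inj h).2)
    obtain ⟨l, rfl⟩ := torus_form H ht htw
    have h3 : H.u 0 (1 * θ ((l⁻¹ : Fˣ) : F)) = H.u 0 (θ (k : F))⁻¹ := by
      calc H.u 0 (1 * θ ((l⁻¹ : Fˣ) : F)) = H.d l⁻¹ * H.u 0 1 * (H.d l⁻¹)⁻¹ := (d_mul_Z H _ _).symm
        _ = (H.w⁻¹ * H.d l * H.w) * H.u 0 1 * (H.w⁻¹ * H.d l * H.w)⁻¹ := by rw [w_conj_d]
        _ = H.w⁻¹ * (H.d l * H.w * H.u 0 1 * (H.d l * H.w)⁻¹) * H.w := by group
        _ = H.w⁻¹ * (H.w * H.u 0 (θ (k : F))⁻¹ * H.w) * H.w := by rw [h2]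
        _ = H.u 0 (θ (k : F))⁻¹ * (H.w * H.w) := by group
        _ = _ := by rw [hww, mul_one]
    have h4 := (H.u_inj h3).2
    rw [one_mul, Units.val_inv_eq_inv_val, map_inv₀, inv_inj] at h4
    have h5 : l = k := Units.ext (θ.injective h4)
    rwa [h5] at h1
  have hw : H.w ∈ K := by
    have := hgen K hZ hZw 1
    rwa [H.d_one, one_mul] at this
  have hd : ∀ k, H.d k ∈ K := by
    intro k
    have := K.mul_mem (hgen K hZ hZw k) hw
    rwa [mul_assoc, hww, mul_one] at this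
  set s := H.u 1 0 with hs'
  have hrel := relation H
  rw [← hs'] at hrel
  set K' := cj s K with hK'
  have hZ' : Z H ≤ K' := by
    intro z hz
    rw [hK', mem_cj]
    exact hZ ((frame H).Zn' (H.u_mem_borel 1 0) hz)
  have hw' : H.w ∈ K' := by
    rw [hK', mem_cj, ← hrel]
    exact hZw _ ((u_mem_Z H).2 rfl)
  have hd' : ∀ k, H.d k ∈ K' := by
    intro k
    have := K'.mul_mem (hgen K' hZ' (fun z hz => K'.mul_mem (K'.mul_mem hw' (hZ' hz)) hw') k) hw'
    rwa [mul_assoc, hww, mul_one] at this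
  -- a unipotent element outside `Z`
  obtain ⟨k, hk⟩ : ∃ k : Fˣ, k ≠ 1 := by
    have h1 : 1 < Nat.card Fˣ := by
      rw [Nat.card_units]; omega
    have : Nontrivial Fˣ := Finite.one_lt_card_iff_nontrivial.1 h1
    exact exists_ne 1
  have h1 := hd' k
  rw [hK', mem_cj] at h1
  have h2 := K.mul_mem h1 (K.inv_mem (hd k))
  have e1 : s⁻¹ * H.d k * s * (H.d k)⁻¹ = s⁻¹ * (H.d k * s * (H.d k)⁻¹) := by group
  rw [e1, hs', d_mul_U, H.u_inv, H.u_mul] at h2
  set a := (1 : F) + 1 * k ^ 2 * (θ k)⁻¹ with ha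
  have hθ : θ (k : F) ≠ 0 := by
    intro h
    exact k.ne_zero ((map_eq_zero θ).1 h)
  have hsub : ∀ x y : F, x + y = 0 → x = y := by
    intro x y h
    linear_combination h - H.add_self y
  have ha0 : a ≠ 0 := by
    intro h
    rw [ha, one_mul] at h
    have h3 := hsub _ _ h
    have h4 : θ (k : F) = k ^ 2 := by
      field_simp at h3
      exact h3
    have h5 : (k : F) ^ 2 = θ k ^ 2 := by
      rw [← map_pow, ← h4, H.sq]
      exact h4
    have h6 : (k : F) + θ k = 0 := by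
      have : ((k : F) + θ k) ^ 2 = 0 := by
        linear_combination h5 + ((k : F) * θ k + θ k ^ 2) * H.two
      exact pow_eq_zero_iff (two_ne_zero) |>.1 this
    have h7 := hsub _ _ h6
    rw [h4] at h7
    apply hk
    apply Units.ext
    rw [Units.val_one]
    apply mul_left_cancel₀ k.ne_zero
    rw [mul_one, ← pow_two]
    exact h7.symm
  set b := 0 + 1 * θ 1 + 0 * θ ↑k + 1 * θ (1 * ↑k ^ 2 * (θ ↑k)⁻¹) with hb
  have hall : ∀ c d, H.u c d ∈ K := by
    intro c d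
    by_cases hc : c = 0
    · rw [hc]
      exact hZ ((u_mem_Z H).2 rfl)
    · obtain ⟨l, hl⟩ := exists_wt H (Units.mk0 (c / a) (div_ne_zero hc ha0))
      rw [Units.val_mk0] at hl
      have h3 := K.mul_mem (K.mul_mem (hd l) h2) (K.inv_mem (hd l))
      rw [d_mul_U] at h3
      have h4 := K.mul_mem h3 (hZ ((u_mem_Z H (b := d + b * θ l)).2 rfl))
      rw [H.u_mul] at h4
      have e2 : a * ↑l ^ 2 * (θ ↑l)⁻¹ + 0 = c := by
        rw [add_zero, mul_assoc, hl]; field_simp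
      have e3 : b * θ ↑l + (d + b * θ ↑l) + a * ↑l ^ 2 * (θ ↑l)⁻¹ * θ 0 = d := by
        rw [map_zero, mul_zero]
        linear_combination H.add_self (b * θ ↑l)
      rwa [e2, e3] at h4
  apply hK
  rw [eq_top_iff]
  intro g _
  have hB : ∀ g ∈ H.borel, g ∈ K := by
    intro g hg
    obtain ⟨a, b, k, rfl⟩ := (H.mem_borel_iff' g).mp hg
    exact K.mul_mem (hall _ _) (hd k)
  by_cases hg : g ∈ H.borel
  · exact hB g hg
  · obtain ⟨s, hs, h⟩ := H.bruhat_sz g hg
    have h1 := K.mul_mem (K.mul_mem (hB s (H.unip_le_borel hs)) hw) (hB _ h)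
    rwa [mul_inv_cancel_left] at h1

theorem mem_Z_iff [Finite F] (H : Good F θ e) (hF : 2 < Nat.card F) :
    ∀ x ∈ H.unip, x ∈ Z H ↔ ∀ y ∈ H.unip, y * x = x * y := by
  intro x hx
  obtain ⟨a, b, rfl⟩ := (H.mem_unip_iff x).1 hx
  rw [u_mem_Z]
  constructor
  · rintro rfl y hy
    obtain ⟨c, d, rfl⟩ := (H.mem_unip_iff y).1 hy
    rw [H.u_mul, H.u_mul, map_zero, mul_zero, zero_mul, add_comm c, add_comm d]
  · intro h
    by_contra ha
    -- `a θ c = c θ a` for all `c`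
    have h1 : ∀ c, c * θ a = a * θ c := by
      intro c
      have h2 := h (H.u c 0) (H.u_mem_unip _ _)
      rw [H.u_mul, H.u_mul] at h2
      have h3 := (H.u_inj h2).2
      linear_combination h3
    have h4 : θ a = a := by
      have := h1 1
      rwa [one_mul, map_one, mul_one] at this
    have h5 : ∀ c, θ c = c := by
      intro c
      have := h1 c
      rw [h4, mul_comm] at this
      exact (mul_left_cancel₀ ha this).symm
    have h6 : ∀ c : F, c = c ^ 2 := by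
      intro c
      rw [← H.sq, h5, h5]
    have h7 : ∀ k : Fˣ, k = 1 := by
      intro k
      apply Units.ext
      rw [Units.val_one]
      apply mul_left_cancel₀ k.ne_zero
      rw [mul_one, ← pow_two]
      exact (h6 _).symm
    have h8 : Nat.card Fˣ ≤ 1 := by
      rw [Finite.card_le_one_iff_subsingleton]
      exact ⟨fun x y => by rw [h7 x, h7 y]⟩
    rw [Nat.card_units] at h8
    omega

/-- **Binary actions of the Suzuki groups on the cosets of subgroups of even order.** -/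
theorem binary_iff [Finite F] (H : Good F θ e) (hF : 2 < Nat.card F)
    {K : Subgroup ↥(Cfsg.Lie.Sz F e)} (hK : K ≠ ⊤) (heven : Even (Nat.card K)) :
    Binary K ↔ ∃ P : Sylow 2 ↥(Cfsg.Lie.Sz F e),
      K = (Subgroup.center (P : Subgroup ↥(Cfsg.Lie.Sz F e))).map
        (P : Subgroup ↥(Cfsg.Lie.Sz F e)).subtype := by
  have hf := frame H
  have hone : ∀ s t : ↥(Cfsg.Lie.Sz F e), orderOf s = 2 → orderOf t = 2 → IsConj s t := by
    apply hf.one_class (Z_ne_bot H)
    rintro _ ⟨b, rfl⟩ _ ⟨c, rfl⟩ h1 h2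
    have hb : b ≠ 0 := by
      rintro rfl
      exact h1 H.u_zero
    have hc : c ≠ 0 := by
      rintro rfl
      exact h2 H.u_zero
    obtain ⟨k, hk⟩ := exists_theta (θ := θ) (Units.mk0 (c / b) (div_ne_zero hc hb))
    rw [Units.val_mk0] at hk
    refine isConj_iff.2 ⟨H.d k, ?_⟩
    rw [d_mul_Z, hk]
    have : b * (c / b) = c := by field_simp
    rw [this]
  rw [hf.center_iff (Z_ne_bot H) (mem_Z_iff H hF)]
  constructor
  · intro hb
    exact hf.eq_cj (Z_ne_bot H) hb hone heven hK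
      (fun K hb hZ hKU => unip_eq H hb hZ hKU)
      (fun K hb hZ hHB k hk hk1 hkw hkZ => torus_false H (hHB hk) hk1 hkw hkZ)
      (fun K hb hK hZ hZw => two_false H hF hK hZ hZw)
  · rintro ⟨g, rfl⟩
    exact hf.binary_cj_Z g

end SzG

/-- **Binary actions of groups isomorphic to `Sz(2^(2m+1))`, subgroups of even order.** -/
theorem sz_binary_iff {G : Type*} [Group G] [Finite G] {F : Type*} [Field F] [Fintype F] {m : ℕ}
    (hm : 1 ≤ m) (hF : Fintype.card F = 2 ^ (2 * m + 1))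
    (e : Nonempty (G ≃* Cfsg.Lie.Sz F (2 ^ (m + 1))))
    {H : Subgroup G} (hH : H ≠ ⊤) (heven : Even (Nat.card H)) :
    Binary H ↔ ∃ P : Sylow 2 G, H = (Subgroup.center (P : Subgroup G)).map (P : Subgroup G).subtype := by
  obtain ⟨e⟩ := e
  rw [← sylow_center_congr e, ← binary_congr e]
  apply SzG.binary_iff (good hF)
  · rw [Nat.card_eq_fintype_card, hF]
    calc 2 < 2 ^ 3 := by norm_num
      _ ≤ 2 ^ (2 * m + 1) := Nat.pow_le_pow_right (by norm_num) (by omega)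
  · exact map_ne_top e hH
  · rwa [card_map_equiv]

end Cfsg.Agent.H896
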