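import Cfsg.Agent.StdU3.URelModel

/-!
# `PSU₃(q)`, `q` even: the relation between `w` and the unipotent elements (helper896)
-/

set_option autoImplicit false
set_option linter.unusedSectionVars false

namespace Cfsg.Agent.H896

open Matrix Cfsg.Agent.LieRecognition Cfsg.Agent.LieRecognition.HermHeis
  Cfsg.Agent.LieRecognition.PSUThreeSylow Cfsg.Agent.LieRecognition.RankOneAbstract
  Cfsg.Agent.SuzukiRankOne.PSUModel Cfsg.Agent.StdU3.URel Cfsg.Agent.StdU3.URelModel

section Model

variable {F : Type*} [Field F] [CharP F 2] {σ : F →+* F} [hσ : Fact (∀ x, σ (σ x) = x)]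

/-- left point map -/
def fl (x : Heis σ) (hx : x.b ≠ 0) : Heis σ :=
  ⟨x.a / σ x.b, (x.b)⁻¹, by
    have h1 : σ x.b ≠ 0 := (map_ne_zero σ).mpr hx
    have h := x.h
    rw [map_div₀, map_inv₀, HermHeis.sig]
    field_simp
    linear_combination h⟩

/-- right point map -/
def fr (x : Heis σ) (hx : x.b ≠ 0) : Heis σ :=
  ⟨x.a / x.b, (x.b)⁻¹, by
    have h1 : σ x.b ≠ 0 := (map_ne_zero σ).mpr hx
    have h := x.h
    rw [map_div₀, map_inv₀]
    field_simp
    linear_combination h⟩

@[simp] theorem fl_a (x : Heis σ) (hx : x.b ≠ 0) : (fl x hx).a = x.a / σ x.b := rfl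
@[simp] theorem fl_b (x : Heis σ) (hx : x.b ≠ 0) : (fl x hx).b = (x.b)⁻¹ := rfl
@[simp] theorem fr_a (x : Heis σ) (hx : x.b ≠ 0) : (fr x hx).a = x.a / x.b := rfl
@[simp] theorem fr_b (x : Heis σ) (hx : x.b ≠ 0) : (fr x hx).b = (x.b)⁻¹ := rfl

theorem wel_rel (x : Heis σ) (hx : x.b ≠ 0) :
    wel σ * emb σ x * wel σ = emb σ (fl x hx) * wel σ * del σ (Units.mk0 x.b hx) * emb σ (fr x hx) := by
  have h1 : σ x.b ≠ 0 := (map_ne_zero σ).mpr hx
  have h := x.h
  apply Subtype.ext
  apply Subtype.ext
  simp only [coe_mul_SUJ, emb_val, wel_val, del_val]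
  ext i j
  fin_cases i <;> fin_cases j <;>
    simp [dmat, umat, Jm, Matrix.mul_apply, Fin.sum_univ_three, HermHeis.sig]
  · field_simp
  · field_simp
    linear_combination -CharTwo.add_self_eq_zero x.a
  · field_simp
    linear_combination h - CharTwo.add_self_eq_zero x.b - CharTwo.add_self_eq_zero (σ x.b)
  · field_simp
  · field_simp
    linear_combination h - CharTwo.add_self_eq_zero (σ x.b)
  · field_simp
    linear_combination -CharTwo.add_self_eq_zero (σ x.a)
  · field_simp
  · field_simp

end Model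

/-- a parametrisation of `J` as a unitary group of dimension three, with the relation between `w` and the
unipotent elements -/
structure URelX (J : Type*) [Group J] {F : Type*} [Field F] [CharP F 2] (σ : F →+* F)
    [hσ : Fact (∀ x, σ (σ x) = x)] extends URel J σ where
  rel : ∀ (x : Heis σ) (hx : x.b ≠ 0),
    w * u x * w = u (fl x hx) * w * d (Units.mk0 x.b hx) * u (fr x hx)

section PSU

variable {F : Type*} [Field F] [Finite F] [CharP F 2] {σ : F →+* F}
  [hσ : Fact (∀ x, σ (σ x) = x)] {n : ℕ}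

theorem nonempty_urelx (hn : 1 ≤ n) (hs : ∀ x, σ x = x ^ (2 ^ n)) (hF : Nat.card F = (2 ^ n) ^ 2) :
    Nonempty (URelX (Cfsg.PSU 3 F (2 ^ n)) σ) := by
  have hq : 1 < 2 ^ n := Nat.one_lt_two_pow (by omega)
  obtain ⟨x₀, hx₀⟩ := HermHeis.exists_heis_a (σ := σ) hq hs hF 1
  have hx : ∃ x : Heis σ, x.a ≠ 0 := ⟨x₀, by rw [hx₀]; exact one_ne_zero⟩
  obtain ⟨c, hc⟩ := HermHeis.exists_not_fixed (σ := σ) hq hs hF
  obtain ⟨T, T', hTT', hT⟩ := exists_T hc
  let e : SUJ σ ≃* Cfsg.SU 3 F (2 ^ n) :=
    ((conjT hTT').subgroupMap (SUJ σ)).trans (MulEquiv.subgroupCongr (SU_eq_map hs hTT' hT))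
  let π : SUJ σ →* Cfsg.PSU 3 F (2 ^ n) :=
    (QuotientGroup.mk' (Subgroup.center (Cfsg.SU 3 F (2 ^ n)))).comp e.toMonoidHom
  have hπ : Function.Surjective π := (QuotientGroup.mk'_surjective _).comp e.surjective
  have hker : ∀ g, π g = 1 ↔ g ∈ Subgroup.center (SUJ σ) := by
    intro g
    have h1 : π g = 1 ↔ e g ∈ Subgroup.center (Cfsg.SU 3 F (2 ^ n)) := by
      rw [← QuotientGroup.eq_one_iff]
      exact Iff.rfl
    rw [h1, Subgroup.mem_center_iff, Subgroup.mem_center_iff]
    constructor
    · intro h k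
      apply e.injective
      rw [map_mul, map_mul]
      exact h (e k)
    · intro h k
      obtain ⟨k, rfl⟩ := e.surjective k
      rw [← map_mul, ← map_mul, h k]
  have hkB : ∀ g, π g = 1 → g ∈ borel σ := fun g hg => center_le_borel hx ((hker g).mp hg)
  have hinj : ∀ x : Heis σ, π (emb σ x) = 1 → x = 1 := by
    intro x h
    exact eq_one_of_mem_center ((hker _).mp h)
  have hinj2 : Function.Injective (π.comp (emb σ)) := by
    rw [injective_iff_map_eq_one]
    exact hinj
  exact ⟨
    { u := π.comp (emb σ)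
      u_inj := hinj2
      d := π.comp (delHom σ)
      w := π (wel σ)
      d_u := fun l x => by
        show π (del σ l) * π (emb σ x) = π (emb σ (act l x)) * π (del σ l)
        rw [← map_mul, del_mul_emb, map_mul]
      d_one_of := fun l h => (hker _).mpr (del_mem_center h)
      w_w := by rw [← map_mul, wel_mul_wel, map_one]
      w_d := fun l => by
        show π (wel σ) * π (del σ l) = π (del σ (hat σ l)) * π (wel σ)
        rw [← map_mul, wel_mul_del, map_mul]
      w_ne := fun x l h => by
        have h : π (wel σ) = π (emb σ x) * π (del σ l) := h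
        have h1 : π ((emb σ x * del σ l)⁻¹ * wel σ) = 1 := by
          rw [map_mul, map_inv, map_mul, h, inv_mul_cancel]
        have h2 := hkB _ h1
        have h3 : emb σ x * del σ l ∈ borel σ :=
          mul_mem (data_SUJ.le ⟨x, rfl⟩) (del_mem_borel l)
        apply (data_SUJ (σ := σ)).w_not_mem
        have h4 := mul_mem h3 h2
        rwa [mul_inv_cancel_left] at h4
      bruhat := fun g' => by
        obtain ⟨g, rfl⟩ := hπ g'
        by_cases hg : g ∈ borel σ
        · left
          obtain ⟨x, l, h⟩ := exists_of_borel hg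
          exact ⟨x, l, by rw [h, map_mul]; rfl⟩
        · right
          obtain ⟨_, ⟨x, rfl⟩, h⟩ := data_SUJ.bruhat g hg
          obtain ⟨y, l, h'⟩ := exists_of_borel h
          refine ⟨x, y, l, ?_⟩
          have h2 : g = emb σ x * wel σ * (emb σ y * del σ l) := by
            rw [← h', mul_inv_cancel_left]
          rw [h2, map_mul, map_mul, map_mul]; rfl
      inter := fun x y l h => by
        have h : π (wel σ) * π (emb σ x) * π (wel σ) = π (emb σ y) * π (del σ l) := h
        have h1 : π ((emb σ y * del σ l)⁻¹ * (wel σ * emb σ x * wel σ)) = 1 := by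
          rw [map_mul, map_inv, map_mul, map_mul, map_mul, h, inv_mul_cancel]
        have h2 := hkB _ h1
        have h3 : emb σ y * del σ l ∈ borel σ :=
          mul_mem (data_SUJ.le ⟨y, rfl⟩) (del_mem_borel l)
        have h4 := mul_mem h3 h2
        rw [mul_inv_cancel_left] at h4
        have h5 := data_SUJ.inter (emb σ x) ⟨x, rfl⟩ (by rw [wel_inv]; exact h4)
        exact emb_injective (by rw [h5, map_one])
      rel := fun x hx => by
        show π (wel σ) * π (emb σ x) * π (wel σ) =
          π (emb σ (fl x hx)) * π (wel σ) * π (del σ (Units.mk0 x.b hx)) * π (emb σ (fr x hx))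
        rw [← map_mul, ← map_mul, ← map_mul, ← map_mul, ← map_mul, wel_rel x hx] }⟩

end PSU

end Cfsg.Agent.H896
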